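import Mathlib

set_option autoImplicit false

/-!
Subgroups of coprime index: the product is the whole group, index of the intersection.
-/

namespace H11.CoprimeIndex

open Subgroup
open scoped Pointwise

universe u v

/-- if `H.relIndex K = H.index` (finite) then `G = K H` -/
theorem exists_mul_of_relIndex_eq {G : Type u} [Group G] [Finite G] (H K : Subgroup G)
    (h : H.relIndex K = H.index) (g : G) : ∃ k ∈ K, ∃ x ∈ H, g = k * x := by
  have h1 : (MulAction.stabilizer K ((1 : G) : G ⧸ H)) = H.subgroupOf K := by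
    ext k
    rw [MulAction.mem_stabilizer_iff, mem_subgroupOf]
    have : k • ((1 : G) : G ⧸ H) = (((k : G) * 1 : G) : G ⧸ H) := rfl
    rw [this, mul_one, QuotientGroup.eq]
    simp
  have h2 := MulAction.index_stabilizer K ((1 : G) : G ⧸ H)
  rw [h1] at h2
  have h3 : (MulAction.orbit K ((1 : G) : G ⧸ H)).ncard = Nat.card (G ⧸ H) := by
    rw [← h2]; exact h
  have h4 : MulAction.orbit K ((1 : G) : G ⧸ H) = Set.univ := by
    apply Set.eq_of_subset_of_ncard_le (Set.subset_univ _) _ (Set.toFinite _)
    rw [h3, Set.ncard_univ]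
  have h5 : (g : G ⧸ H) ∈ MulAction.orbit K ((1 : G) : G ⧸ H) := h4 ▸ Set.mem_univ _
  obtain ⟨k, hk⟩ := h5
  have h6 : (((k : G) * 1 : G) : G ⧸ H) = (g : G ⧸ H) := hk
  rw [mul_one, QuotientGroup.eq] at h6
  exact ⟨k, k.2, (k : G)⁻¹ * g, h6, by group⟩

theorem relIndex_eq_of_coprime {G : Type u} [Group G] [Finite G] (H K : Subgroup G)
    (h : H.index.Coprime K.index) : H.relIndex K = H.index := by
  have h1 : H.index ∣ (H ⊓ K).index := Subgroup.index_dvd_of_le inf_le_left
  have h2 : (H ⊓ K).relIndex K * K.index = (H ⊓ K).index := Subgroup.relIndex_mul_index inf_le_right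
  rw [Subgroup.inf_relIndex_right] at h2
  have h3 : H.index ∣ H.relIndex K := by
    rw [← h2] at h1; exact h.dvd_of_dvd_mul_right h1
  apply le_antisymm
  · have h4 : (MulAction.stabilizer K ((1 : G) : G ⧸ H)) = H.subgroupOf K := by
      ext k
      rw [MulAction.mem_stabilizer_iff, mem_subgroupOf]
      have : k • ((1 : G) : G ⧸ H) = (((k : G) * 1 : G) : G ⧸ H) := rfl
      rw [this, mul_one, QuotientGroup.eq]
      simp
    have h5 := MulAction.index_stabilizer K ((1 : G) : G ⧸ H)
    rw [h4] at h5
    change (H.subgroupOf K).index ≤ Nat.card (G ⧸ H)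
    rw [h5, ← Set.ncard_univ]
    exact Set.ncard_le_ncard (Set.subset_univ _) (Set.toFinite _)
  · refine Nat.le_of_dvd (Nat.pos_of_ne_zero ?_) h3
    exact Subgroup.index_ne_zero_of_finite

theorem exists_mul_of_coprime {G : Type u} [Group G] [Finite G] (H K : Subgroup G)
    (h : H.index.Coprime K.index) (g : G) : ∃ x ∈ H, ∃ k ∈ K, g = x * k := by
  obtain ⟨x, hx, k, hk, he⟩ := exists_mul_of_relIndex_eq K H (relIndex_eq_of_coprime K H h.symm) g
  exact ⟨x, hx, k, hk, he⟩

theorem index_inf_of_coprime {G : Type u} [Group G] [Finite G] (H K : Subgroup G)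
    (h : H.index.Coprime K.index) : (H ⊓ K).index = H.index * K.index := by
  rw [← Subgroup.relIndex_mul_index (show H ⊓ K ≤ K from inf_le_right), Subgroup.inf_relIndex_right,
    relIndex_eq_of_coprime H K h]

theorem index_iInf_finset {G : Type u} [Group G] [Finite G] {ι : Type v} (s : Finset ι)
    (K : ι → Subgroup G) (h : ∀ i ∈ s, ∀ j ∈ s, i ≠ j → (K i).index.Coprime (K j).index) :
    (⨅ i ∈ s, K i).index = ∏ i ∈ s, (K i).index := by
  classical
  induction s using Finset.induction_on with
  | empty => simp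
  | insert a s ha ih =>
    have h1 := ih fun i hi j hj hij => h i (Finset.mem_insert_of_mem hi) j (Finset.mem_insert_of_mem hj) hij
    rw [Finset.iInf_insert, Finset.prod_insert ha, index_inf_of_coprime, h1]
    rw [h1]
    apply Nat.Coprime.prod_right
    intro i hi
    exact h a (Finset.mem_insert_self _ _) i (Finset.mem_insert_of_mem hi) (fun he => ha (he ▸ hi))

end H11.CoprimeIndex
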