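import Cfsg.Agent.Lib.H11.Eppo1
import Cfsg.Agent.Lib.H69.Engel2

/-! Higman: a normal 2-subgroup with all 3-elements acting fixed-point-freely under `A₄` is
elementary abelian. -/

open Subgroup
open scoped commutatorElement

universe u

namespace H11.Eppo

section
variable {G : Type u} [Group G] [Finite G] {R : Subgroup G} [hRn : R.Normal]

/-- elements of order three modulo `R` -/
structure T3 (R : Subgroup G) (g : G) : Prop where
  pow : g ^ 3 = 1
  fix : ∀ n ∈ R, g * n * g⁻¹ = n → n = 1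

theorem T3.of (h : PP G) (hR : IsPGroup 2 R) {g : G} (h1 : g ∉ R) (h3 : g ^ 3 ∈ R) : T3 R g := by
  have hord : 3 ∣ orderOf (QuotientGroup.mk' R g) := by
    have := Fact.mk Nat.prime_three
    rw [orderOf_eq_prime (p := 3)]
    · rw [← map_pow]
      exact (QuotientGroup.eq_one_iff _).mpr h3
    · intro h2
      exact h1 ((QuotientGroup.eq_one_iff _).mp h2)
  have h3g : 3 ∣ orderOf g := hord.trans (orderOf_map_dvd _ g)
  have key : ∀ n ∈ R, g * n = n * g → n = 1 := by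
    intro n hn hc
    by_contra hn1
    obtain ⟨k, hk⟩ := IsPGroup.iff_orderOf.mp hR ⟨n, hn⟩
    rw [Subgroup.orderOf_mk] at hk
    have h2n : 2 ∣ orderOf n := by
      rw [hk]
      apply dvd_pow_self
      rintro rfl
      rw [pow_zero, orderOf_eq_one_iff] at hk
      exact hn1 hk
    have := h.same_prime hc Nat.prime_three Nat.prime_two h3g h2n
    omega
  refine ⟨key _ h3 (by rw [← pow_succ', ← pow_succ]), fun n hn hc => key n hn ?_⟩
  rw [mul_inv_eq_iff_eq_mul] at hc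
  exact hc

theorem T3.inv {g : G} (h : T3 R g) : T3 R g⁻¹ := by
  refine ⟨by rw [inv_pow, h.pow, inv_one], fun n hn hc => h.fix n hn ?_⟩
  calc g * n * g⁻¹ = g * (g⁻¹ * n * g⁻¹⁻¹) * g⁻¹ := by rw [hc]
    _ = n := by group

/-- class two -/
theorem T3.class_two {g : G} (h : T3 R g) (hR : IsPGroup 2 R) {x y z : G} (hx : x ∈ R) (hy : y ∈ R)
    (hz : z ∈ R) : z * ⁅x, y⁆ = ⁅x, y⁆ * z := by
  have h3 : ∀ g : G, g ∈ R → g ^ 3 = 1 → g = 1 := by
    intro g hg h3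
    obtain ⟨k, hk⟩ := IsPGroup.iff_orderOf.mp hR ⟨g, hg⟩
    rw [Subgroup.orderOf_mk] at hk
    have h4 : orderOf g ∣ 3 := orderOf_dvd_of_pow_eq_one h3
    rw [hk] at h4
    have h5 : k = 0 := by
      by_contra hk0
      have h6 : 2 ∣ 3 := (dvd_pow_self 2 hk0).trans h4
      omega
    rw [h5, pow_zero, orderOf_eq_one_iff] at hk
    exact hk
  have h1 := H69.Engel2.class_two_of_fpf R g h.pow h.fix h3 z x y hz hx hy
  rwa [commutatorElement_eq_one_iff_mul_comm] at h1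

theorem mem_conj {g x : G} (hx : x ∈ R) : g * x * g⁻¹ ∈ R := hRn.conj_mem x hx g

/-- bilinearity -/
theorem comm_mul_left (hcl : ∀ x ∈ R, ∀ y ∈ R, ∀ z ∈ R, z * ⁅x, y⁆ = ⁅x, y⁆ * z) {x x' y : G}
    (hx : x ∈ R) (hx' : x' ∈ R) (hy : y ∈ R) : ⁅x * x', y⁆ = ⁅x, y⁆ * ⁅x', y⁆ := by
  have h1 : ⁅x * x', y⁆ = x * ⁅x', y⁆ * x⁻¹ * ⁅x, y⁆ := by
    simp only [commutatorElement_def]; group
  rw [h1, hcl x' hx' y hy x hx, mul_inv_cancel_right, hcl x hx y hy _ (by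
    rw [commutatorElement_def]
    exact R.mul_mem (R.mul_mem (R.mul_mem hx' hy) (R.inv_mem hx')) (R.inv_mem hy))]

theorem comm_mul_right (hcl : ∀ x ∈ R, ∀ y ∈ R, ∀ z ∈ R, z * ⁅x, y⁆ = ⁅x, y⁆ * z) {x y y' : G}
    (hx : x ∈ R) (hy : y ∈ R) (hy' : y' ∈ R) : ⁅x, y * y'⁆ = ⁅x, y⁆ * ⁅x, y'⁆ := by
  have h1 : ⁅x, y * y'⁆ = ⁅x, y⁆ * (y * ⁅x, y'⁆ * y⁻¹) := by
    simp only [commutatorElement_def]; group
  rw [h1, hcl x hx y' hy' y hy, mul_inv_cancel_right]

/-- `β(g x, y) = β(x, g y)` -/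
theorem T3.swap {g : G} (h : T3 R g)
    (hcl : ∀ x ∈ R, ∀ y ∈ R, ∀ z ∈ R, z * ⁅x, y⁆ = ⁅x, y⁆ * z) {x y : G}
    (hx : x ∈ R) (hy : y ∈ R) : ⁅g * x * g⁻¹, y⁆ = ⁅x, g * y * g⁻¹⁆ := by
  have hgx := mem_conj (g := g) hx
  have hgy := mem_conj (g := g) hy
  have h1 := H69.Engel2.comm_conj R g h.pow h.fix x hx
  have h2 := H69.Engel2.comm_conj R g h.pow h.fix y hy
  have h3 := H69.Engel2.comm_conj R g h.pow h.fix (x * y) (R.mul_mem hx hy)
  rw [← commutatorElement_eq_one_iff_mul_comm] at h1 h2 h3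
  have h4 : g * (x * y) * g⁻¹ = (g * x * g⁻¹) * (g * y * g⁻¹) := by group
  rw [h4, comm_mul_left hcl hx hy (R.mul_mem hgx hgy), comm_mul_right hcl hx hgx hgy,
    comm_mul_right hcl hy hgx hgy, h1, h2, one_mul, mul_one] at h3
  -- `⁅x, g y⁆ ⁅y, g x⁆ = 1`
  have h5 : ⁅x, g * y * g⁻¹⁆ = ⁅y, g * x * g⁻¹⁆⁻¹ := eq_inv_of_mul_eq_one_left h3
  rw [h5, commutatorElement_inv]

/-- `a` with `w a`-type decompositions acts trivially on `R/Z(R)` -/
theorem comm_conj_trivial {w a : G}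
    (hcl : ∀ x ∈ R, ∀ y ∈ R, ∀ z ∈ R, z * ⁅x, y⁆ = ⁅x, y⁆ * z)
    (hw : T3 R w) (h1 : T3 R (w⁻¹ * a)) (h2 : T3 R (w * a)) {x y : G} (hx : x ∈ R) (hy : y ∈ R) :
    ⁅x, (w * a * w⁻¹) * y * (w * a * w⁻¹)⁻¹⁆ = ⁅x, (w⁻¹ * a * w) * y * (w⁻¹ * a * w)⁻¹⁆ := by
  have e1 : ⁅a * x * a⁻¹, y⁆ = ⁅x, (w⁻¹ * a * w) * y * (w⁻¹ * a * w)⁻¹⁆ := by
    have h3 : a * x * a⁻¹ = w * ((w⁻¹ * a) * x * (w⁻¹ * a)⁻¹) * w⁻¹ := by group
    rw [h3, hw.swap hcl (mem_conj hx) hy, h1.swap hcl hx (mem_conj hy)]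
    congr 1
    group
  have e2 : ⁅a * x * a⁻¹, y⁆ = ⁅x, (w * a * w⁻¹) * y * (w * a * w⁻¹)⁻¹⁆ := by
    have h3 : a * x * a⁻¹ = w⁻¹ * ((w * a) * x * (w * a)⁻¹) * w⁻¹⁻¹ := by group
    rw [h3, hw.inv.swap hcl (mem_conj hx) hy, h2.swap hcl hx (mem_conj hy)]
    congr 1
    group
  rw [← e1, ← e2]

/-- the elements acting trivially on `R/Z(R)` -/
def trivMod (R : Subgroup G) [hRn : R.Normal] : Subgroup G where
  carrier := {g | ∀ y ∈ R, y⁻¹ * (g * y * g⁻¹) ∈ R ⊓ centralizer (R : Set G)}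
  one_mem' := fun y _ => by
    have : y⁻¹ * (1 * y * 1⁻¹) = 1 := by group
    rw [this]; exact one_mem _
  mul_mem' := by
    intro g h hg hh y hy
    have h1 := hh y hy
    have h2 := hg (h * y * h⁻¹) (hRn.conj_mem y hy h)
    have h3 : y⁻¹ * (g * h * y * (g * h)⁻¹) =
        (y⁻¹ * (h * y * h⁻¹)) * ((h * y * h⁻¹)⁻¹ * (g * (h * y * h⁻¹) * g⁻¹)) := by group
    rw [h3]
    exact mul_mem h1 h2
  inv_mem' := by
    intro g hg y hy
    have h1 := hg (g⁻¹ * y * g) (by have := hRn.conj_mem y hy g⁻¹; rwa [inv_inv] at this)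
    have h2 : y⁻¹ * (g⁻¹ * y * g⁻¹⁻¹) = ((g⁻¹ * y * g)⁻¹ * (g * (g⁻¹ * y * g) * g⁻¹))⁻¹ := by
      -- they agree up to commuting with an element of `Z(R)`
      have h3 : (g⁻¹ * y * g)⁻¹ * (g * (g⁻¹ * y * g) * g⁻¹) = (g⁻¹ * y * g)⁻¹ * y := by group
      rw [h3, mul_inv_rev, inv_inv, inv_inv]
    rw [h2]
    exact inv_mem h1

theorem trivMod_normal : (trivMod R).Normal := by
  refine ⟨fun n hn g y hy => ?_⟩
  have h1 := hn (g⁻¹ * y * g) (by have := hRn.conj_mem y hy g⁻¹; rwa [inv_inv] at this)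
  have h2 : y⁻¹ * (g * n * g⁻¹ * y * (g * n * g⁻¹)⁻¹) =
      g * ((g⁻¹ * y * g)⁻¹ * (n * (g⁻¹ * y * g) * n⁻¹)) * g⁻¹ := by group
  rw [h2]
  exact (inferInstance : (R ⊓ centralizer (R : Set G)).Normal).conj_mem _ h1 g

/-- a normal subgroup properly above `R` is everything when `G/R` is simple -/
theorem eq_top_of_simple [IsSimpleGroup (G ⧸ R)] {N : Subgroup G} (hN : N.Normal) {a : G} (ha : a ∈ N)
    (haR : a ∉ R) (hRN : R ≤ N) : N = ⊤ := by
  have h1 : (N.map (QuotientGroup.mk' R)).Normal := hN.map _ (QuotientGroup.mk'_surjective R)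
  rcases h1.eq_bot_or_eq_top with h2 | h2
  · exfalso
    have h3 : QuotientGroup.mk' R a ∈ N.map (QuotientGroup.mk' R) := ⟨a, ha, rfl⟩
    rw [h2, Subgroup.mem_bot] at h3
    exact haR ((QuotientGroup.eq_one_iff _).mp h3)
  · rw [eq_top_iff]
    intro g _
    have h3 : QuotientGroup.mk' R g ∈ N.map (QuotientGroup.mk' R) := by rw [h2]; trivial
    obtain ⟨n, hn, hng⟩ := h3
    have h4 : n⁻¹ * g ∈ R := QuotientGroup.eq.mp hng
    have h5 : g = n * (n⁻¹ * g) := by group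
    rw [h5]
    exact N.mul_mem hn (hRN h4)

/-- data: `A₄` modulo `R` -/
structure A4 (R : Subgroup G) (a w : G) : Prop where
  a_nmem : a ∉ R
  aa : a * a ∈ R
  w_nmem : w ∉ R
  ww : w ^ 3 ∈ R
  wa : w⁻¹ * a ∉ R
  wa3 : (w⁻¹ * a) ^ 3 ∈ R
  wa' : w * a ∉ R
  wa3' : (w * a) ^ 3 ∈ R
  prod : (w⁻¹ * a * w)⁻¹ * (w * a * w⁻¹) * a ∈ R

theorem higman_comm (h : PP G) (hR : IsPGroup 2 R) [IsSimpleGroup (G ⧸ R)] {a w : G}
    (hd : A4 R a w) : ∀ x ∈ R, ∀ y ∈ R, x * y = y * x := by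
  have tw := T3.of h hR hd.w_nmem hd.ww
  have t1 := T3.of h hR hd.wa hd.wa3
  have t2 := T3.of h hR hd.wa' hd.wa3'
  have hcl : ∀ x ∈ R, ∀ y ∈ R, ∀ z ∈ R, z * ⁅x, y⁆ = ⁅x, y⁆ * z :=
    fun x hx y hy z hz => tw.class_two hR hx hy hz
  have hcR : ∀ x ∈ R, ∀ y ∈ R, ⁅x, y⁆ ∈ R := by
    intro x hx y hy
    rw [commutatorElement_def]
    exact R.mul_mem (R.mul_mem (R.mul_mem hx hy) (R.inv_mem hx)) (R.inv_mem hy)
  -- `R` acts trivially
  have hRt : R ≤ trivMod R := by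
    intro g hg y hy
    refine ⟨R.mul_mem (R.inv_mem hy) (hRn.conj_mem y hy g),
      Subgroup.mem_centralizer_iff.mpr (fun z hz => ?_)⟩
    have h1 : y⁻¹ * (g * y * g⁻¹) = ⁅y⁻¹, g⁆ := by
      rw [commutatorElement_def]; group
    rw [h1]
    exact hcl _ (R.inv_mem hy) g hg z hz
  have hat : a ∈ trivMod R := by
    -- `b = (w⁻¹ a w)⁻¹ (w a w⁻¹)` acts trivially
    set c := w⁻¹ * a * w with hc
    set d := w * a * w⁻¹ with hd'
    have hcd : c⁻¹ * d ∈ trivMod R := by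
      intro y hy
      refine ⟨R.mul_mem (R.inv_mem hy) (hRn.conj_mem y hy _),
        Subgroup.mem_centralizer_iff.mpr (fun x hx => ?_)⟩
      -- conj by `c`
      have hx' : x ∈ R := hx
      have hcx : c * x * c⁻¹ ∈ R := mem_conj hx'
      have e := comm_conj_trivial hcl tw t1 t2 (x := c * x * c⁻¹) (y := y) hcx hy
      rw [← hc, ← hd'] at e
      -- `⁅c x c⁻¹, d y d⁻¹⁆ = ⁅c x c⁻¹, c y c⁻¹⁆`
      have e2 : c⁻¹ * ⁅c * x * c⁻¹, d * y * d⁻¹⁆ * c = ⁅x, (c⁻¹ * d) * y * (c⁻¹ * d)⁻¹⁆ := by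
        simp only [commutatorElement_def]; group
      have e3 : c⁻¹ * ⁅c * x * c⁻¹, c * y * c⁻¹⁆ * c = ⁅x, y⁆ := by
        simp only [commutatorElement_def]; group
      have e4 : ⁅x, (c⁻¹ * d) * y * (c⁻¹ * d)⁻¹⁆ = ⁅x, y⁆ := by rw [← e2, ← e3, e]
      have hgy : (c⁻¹ * d) * y * (c⁻¹ * d)⁻¹ ∈ R := mem_conj hy
      have e5 : ⁅x, y * (y⁻¹ * ((c⁻¹ * d) * y * (c⁻¹ * d)⁻¹))⁆ =
          ⁅x, y⁆ * ⁅x, y⁻¹ * ((c⁻¹ * d) * y * (c⁻¹ * d)⁻¹)⁆ :=
        comm_mul_right hcl hx' hy (R.mul_mem (R.inv_mem hy) hgy)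
      rw [← mul_assoc, mul_inv_cancel, one_mul, e4] at e5
      have e6 : ⁅x, y⁻¹ * ((c⁻¹ * d) * y * (c⁻¹ * d)⁻¹)⁆ = 1 := (left_eq_mul.mp e5)
      exact commutatorElement_eq_one_iff_mul_comm.mp e6
    have h1 := hRt hd.prod
    have h2 : a = (c⁻¹ * d)⁻¹ * (c⁻¹ * d * a) := by group
    rw [h2]
    exact mul_mem (inv_mem hcd) h1
  have htop := eq_top_of_simple trivMod_normal hat hd.a_nmem hRt
  have hwt : w ∈ trivMod R := by rw [htop]; trivial
  intro x hx y hy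
  obtain ⟨n, hn, hnx⟩ := H69.Engel2.exists_right R w tw.fix x hx
  have h1 := (hwt n hn).2
  rw [← hnx] at h1
  exact (Subgroup.mem_centralizer_iff.mp h1 y hy).symm

theorem ring_step {E : Type*} [Ring E] {W P0 P1 P2 : E} (hW : 1 + W + W * W = 0)
    (hW0 : 1 + P0 * W + P1 * (W * W) = 0) (hW1 : 1 + P1 * W + P2 * (W * W) = 0)
    (h10 : P1 * P0 = P2) (h11 : P1 * P1 = 1) (h21 : P2 * P1 = P0) (h22 : P2 * P2 = 1) :
    P0 + P0 = 1 + 1 := by
  have hWW : W * W = -1 - W := by linear_combination (norm := module) hW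
  have e0 : 1 + P0 * W - P1 - P1 * W = 0 := by
    rw [hWW, mul_sub, mul_neg, mul_one] at hW0
    linear_combination (norm := module) hW0
  have e1 : 1 + P1 * W - P2 - P2 * W = 0 := by
    rw [hWW, mul_sub, mul_neg, mul_one] at hW1
    linear_combination (norm := module) hW1
  have f0 : P1 + P2 * W - 1 - W = 0 := by
    have h1 : P1 * (1 + P0 * W - P1 - P1 * W) = 0 := by rw [e0, mul_zero]
    rw [mul_sub, mul_sub, mul_add, mul_one, ← mul_assoc, h10, h11, ← mul_assoc, h11, one_mul] at h1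
    exact h1
  have f1 : P2 + P0 * W - 1 - W = 0 := by
    have h1 : P2 * (1 + P1 * W - P2 - P2 * W) = 0 := by rw [e1, mul_zero]
    rw [mul_sub, mul_sub, mul_add, mul_one, ← mul_assoc, h21, h22, ← mul_assoc, h22, one_mul] at h1
    exact h1
  have g1 : (P0 + P0 - (1 + 1)) * W = 0 := by
    have h1 : (P0 + P0 - (1 + 1)) * W = P0 * W + P0 * W - (W + W) := by noncomm_ring
    rw [h1]
    linear_combination (norm := module) e0 + e1 + f0 + f1
  have h3 : W * (W * W) = 1 := by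
    have h1 : W * (W * W) - 1 = (W - 1) * (1 + W + W * W) := by noncomm_ring
    rw [hW, mul_zero] at h1
    exact sub_eq_zero.mp h1
  have h4 : (P0 + P0 - (1 + 1)) * (W * (W * W)) = 0 := by
    rw [← mul_assoc, g1, zero_mul]
  rw [h3, mul_one] at h4
  exact sub_eq_zero.mp h4

theorem higman_sq (h : PP G) (hR : IsPGroup 2 R) [IsSimpleGroup (G ⧸ R)] {a w : G}
    (hd : A4 R a w) (hcomm : ∀ x ∈ R, ∀ y ∈ R, x * y = y * x)
    (t0 : T3 R (a * w)) (t1 : T3 R (w⁻¹ * a * w * w))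
    (r0 : (a * (w * a * w⁻¹))⁻¹ * (w⁻¹ * a * w) ∈ R) : ∀ x ∈ R, x * x = 1 := by
  have tw := T3.of h hR hd.w_nmem hd.ww
  let _ : CommGroup R := { (inferInstance : Group R) with
    mul_comm := fun x y => Subtype.ext (hcomm x x.2 y y.2) }
  -- the action on the additive group
  let f : G → AddMonoid.End (Additive R) := fun g =>
    { toFun := fun x => Additive.ofMul (⟨g * x.toMul * g⁻¹, hRn.conj_mem x.toMul x.toMul.2 g⟩ : R)
      map_zero' := congrArg Additive.ofMul (Subtype.ext (by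
        change g * 1 * g⁻¹ = 1
        group))
      map_add' := fun x y => congrArg Additive.ofMul (Subtype.ext (by
        change g * ((x.toMul : G) * (y.toMul : G)) * g⁻¹ = (g * x.toMul * g⁻¹) * (g * y.toMul * g⁻¹)
        group)) }
  have hf : ∀ (g : G) (x : R), f g (Additive.ofMul x) =
      Additive.ofMul (⟨g * x * g⁻¹, hRn.conj_mem x x.2 g⟩ : R) := fun g x => rfl
  let ρ : G →* AddMonoid.End (Additive R) :=
    { toFun := f
      map_one' := by
        apply AddMonoidHom.ext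
        intro x
        exact congrArg Additive.ofMul (Subtype.ext (by
          change 1 * (x.toMul : G) * 1⁻¹ = x.toMul
          group))
      map_mul' := fun g g' => by
        apply AddMonoidHom.ext
        intro x
        exact congrArg Additive.ofMul (Subtype.ext (by
          change g * g' * (x.toMul : G) * (g * g')⁻¹ = g * (g' * x.toMul * g'⁻¹) * g⁻¹
          group)) }
  have hρR : ∀ r ∈ R, ρ r = 1 := by
    intro r hr
    apply AddMonoidHom.ext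
    intro x
    exact congrArg Additive.ofMul (Subtype.ext (by
      change r * (x.toMul : G) * r⁻¹ = x.toMul
      rw [hcomm r hr _ x.toMul.2, mul_inv_cancel_right]))
  have hnorm : ∀ g : G, T3 R g → 1 + ρ g + ρ g * ρ g = 0 := by
    intro g hg
    apply AddMonoidHom.ext
    intro x
    have h1 := H69.Engel2.norm_right R g hg.pow hg.fix x.toMul x.toMul.2
    exact congrArg Additive.ofMul (Subtype.ext (by
      change (x.toMul : G) * (g * x.toMul * g⁻¹) * (g * (g * x.toMul * g⁻¹) * g⁻¹) = 1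
      have h3 : g ^ 2 * (x.toMul : G) * (g ^ 2)⁻¹ = g * (g * x.toMul * g⁻¹) * g⁻¹ := by
        rw [pow_two]; group
      rw [h3] at h1
      exact h1))
  have hW := hnorm w tw
  have hW0 := hnorm _ t0
  have hW1 := hnorm _ t1
  set W := ρ w with hWdef
  set P0 := ρ a with hP0
  set P1 := ρ (w⁻¹ * a * w) with hP1
  set P2 := ρ (w * a * w⁻¹) with hP2
  have haa : P0 * P0 = 1 := by rw [hP0, ← map_mul]; exact hρR _ hd.aa
  have h11 : P1 * P1 = 1 := by
    rw [hP1, ← map_mul]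
    apply hρR
    have : w⁻¹ * a * w * (w⁻¹ * a * w) = w⁻¹ * (a * a) * w⁻¹⁻¹ := by group
    rw [this]
    exact hRn.conj_mem _ hd.aa _
  have h22 : P2 * P2 = 1 := by
    rw [hP2, ← map_mul]
    apply hρR
    have : w * a * w⁻¹ * (w * a * w⁻¹) = w * (a * a) * w⁻¹ := by group
    rw [this]
    exact hRn.conj_mem _ hd.aa _
  have h02 : P0 * P2 = P1 := by
    have h1 := hρR _ r0
    calc P0 * P2 = ρ (a * (w * a * w⁻¹)) * 1 := by rw [mul_one, map_mul ρ a]
      _ = ρ (a * (w * a * w⁻¹)) * ρ ((a * (w * a * w⁻¹))⁻¹ * (w⁻¹ * a * w)) := by rw [h1]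
      _ = P1 := by rw [← map_mul, mul_inv_cancel_left]
  have h01 : P0 * P1 = P2 := by rw [← h02, ← mul_assoc, haa, one_mul]
  have h12 : P1 * P2 = P0 := by rw [← h02, mul_assoc, h22, mul_one]
  have h20 : P2 * P0 = P1 := by
    calc P2 * P0 = (P1 * P1) * (P2 * P0) := by rw [h11, one_mul]
      _ = P1 * ((P1 * P2) * P0) := by simp only [mul_assoc]
      _ = P1 := by rw [h12, haa, mul_one]
  have h10 : P1 * P0 = P2 := by
    calc P1 * P0 = (P2 * P0) * P0 := by rw [h20]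
      _ = P2 := by rw [mul_assoc, haa, mul_one]
  have h21 : P2 * P1 = P0 := by
    calc P2 * P1 = P0 * P1 * P1 := by rw [h01]
      _ = P0 := by rw [mul_assoc, h11, mul_one]
  have hWP0 : W * P0 = P2 * W := by
    rw [hWdef, hP0, hP2, ← map_mul, ← map_mul]; congr 1; group
  have hWP1 : W * P1 = P0 * W := by
    rw [hWdef, hP1, hP0, ← map_mul, ← map_mul]; congr 1; group
  have e0 : ρ (a * w) = P0 * W := by rw [map_mul]
  have e1 : ρ (w⁻¹ * a * w * w) = P1 * W := by rw [map_mul]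
  rw [e0] at hW0
  rw [e1] at hW1
  have f0 : P0 * W * (P0 * W) = P1 * (W * W) := by
    calc P0 * W * (P0 * W) = P0 * (W * P0) * W := by simp only [mul_assoc]
      _ = (P0 * P2) * (W * W) := by rw [hWP0]; simp only [mul_assoc]
      _ = P1 * (W * W) := by rw [h02]
  have f1 : P1 * W * (P1 * W) = P2 * (W * W) := by
    calc P1 * W * (P1 * W) = P1 * (W * P1) * W := by simp only [mul_assoc]
      _ = (P1 * P0) * (W * W) := by rw [hWP1]; simp only [mul_assoc]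
      _ = P2 * (W * W) := by rw [h10]
  rw [f0] at hW0
  rw [f1] at hW1
  have key := ring_step hW hW0 hW1 h10 h11 h21 h22
  -- squares are centralized by `a`
  let N : Subgroup G :=
    { carrier := {g | ∀ x ∈ R, g * (x * x) * g⁻¹ = x * x}
      one_mem' := fun x _ => by group
      mul_mem' := by
        intro g g' hg hg' x hx
        have h1 : g * g' * (x * x) * (g * g')⁻¹ = g * (g' * (x * x) * g'⁻¹) * g⁻¹ := by group
        rw [h1, hg' x hx, hg x hx]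
      inv_mem' := by
        intro g hg x hx
        calc g⁻¹ * (x * x) * g⁻¹⁻¹ = g⁻¹ * (g * (x * x) * g⁻¹) * g⁻¹⁻¹ := by rw [hg x hx]
          _ = x * x := by group }
  have hN : N.Normal := by
    refine ⟨fun n hn g x hx => ?_⟩
    have h1 := hn (g⁻¹ * x * g) (by have := hRn.conj_mem x hx g⁻¹; rwa [inv_inv] at this)
    calc g * n * g⁻¹ * (x * x) * (g * n * g⁻¹)⁻¹ =
        g * (n * ((g⁻¹ * x * g) * (g⁻¹ * x * g)) * n⁻¹) * g⁻¹ := by group
      _ = x * x := by rw [h1]; group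
  have hRN : R ≤ N := by
    intro r hr x hx
    rw [hcomm r hr _ (R.mul_mem hx hx), mul_inv_cancel_right]
  have haN : a ∈ N := by
    intro x hx
    have h1 := congrArg (fun f : AddMonoid.End (Additive R) => f (Additive.ofMul ⟨x, hx⟩)) key
    have h2 : (⟨a * x * a⁻¹, hRn.conj_mem x hx a⟩ : R) * ⟨a * x * a⁻¹, hRn.conj_mem x hx a⟩ =
        ⟨x, hx⟩ * ⟨x, hx⟩ := Additive.ofMul.injective h1
    have h3 := congrArg Subtype.val h2
    calc a * (x * x) * a⁻¹ = (a * x * a⁻¹) * (a * x * a⁻¹) := by group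
      _ = x * x := h3
  have htop := eq_top_of_simple hN haN hd.a_nmem hRN
  intro x hx
  have hwN : w ∈ N := by rw [htop]; trivial
  exact tw.fix _ (R.mul_mem hx hx) (hwN x hx)

end

end H11.Eppo
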