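import Mathlib
import Cfsg.Agent.Lib.H11.CoprimeIndex
import Cfsg.Agent.Lib.H11.MinNonNilp
import Cfsg.Agent.Lib.H2.Solv
import Cfsg.Agent.Lib.H4.Burnside

set_option autoImplicit false

/-!
Wielandt: three solvable subgroups of pairwise coprime indices; Hall's converse.
-/

namespace H11.HallConverse

open Subgroup H11.CoprimeIndex H11.SubnormalJoin H11.MinNonNilp
open scoped Pointwise

universe u v

/-- the core step: `H` has a nontrivial normal `p`-subgroup and `K` solvable has index prime to `p` and to
the index of `H`: then `G` has a nontrivial solvable normal subgroup -/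
theorem exists_solvable_normal {G : Type u} [Group G] [Finite G] (H K : Subgroup G)
    (hK : Group.IsSolvable K) (hcop : H.index.Coprime K.index) (p : ℕ) [hp : Fact p.Prime]
    (hpK : ¬ p ∣ K.index) (M : Subgroup G) (hM : M ≠ ⊥) (hMp : IsPGroup p M)
    (hMH : H ≤ normalizer (M : Set G)) :
    ∃ N : Subgroup G, N.Normal ∧ N ≠ ⊥ ∧ Group.IsSolvable N := by
  obtain ⟨S, hS⟩ := hMp.exists_le_sylow
  obtain ⟨T'⟩ : Nonempty (Sylow p K) := inferInstance
  -- the image of T' in G is a Sylow subgroup
  have hTcard : Nat.card ((T' : Subgroup K).map K.subtype) = p ^ (Nat.card G).factorization p := by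
    rw [Subgroup.card_map_of_injective K.subtype_injective]
    have h1 := T'.card_eq_multiplicity
    have h2 : (Nat.card G).factorization p = (Nat.card K).factorization p := by
      rw [← Subgroup.card_mul_index K, Nat.factorization_mul Nat.card_pos.ne'
        (Subgroup.index_ne_zero_of_finite), Finsupp.add_apply, Nat.factorization_eq_zero_of_not_dvd hpK,
        add_zero]
    rw [h2]; exact h1
  set T : Sylow p G := Sylow.ofCard _ hTcard with hT
  obtain ⟨g, hg⟩ := MulAction.exists_smul_eq G T S
  have hMg : M ≤ MulAut.conj g • K := by
    refine hS.trans ?_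
    rw [← hg]
    change MulAut.conj g • (T : Subgroup G) ≤ MulAut.conj g • K
    apply Subgroup.pointwise_smul_le_pointwise_smul_iff.mpr
    rw [hT, Sylow.coe_ofCard]
    exact Subgroup.map_subtype_le _
  obtain ⟨x, hx, y, hy, rfl⟩ := exists_mul_of_coprime H K hcop g
  have hMK : M ≤ K := by
    rw [map_mul, mul_smul, mem_normalizer_iff_conj.mp (Subgroup.le_normalizer hy)] at hMg
    have h1 : MulAut.conj x⁻¹ • M = M := mem_normalizer_iff_conj.mp (inv_mem (hMH hx))
    rw [← h1, map_inv, Subgroup.pointwise_smul_subset_iff, inv_inv]
    exact hMg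
  have hall : ∀ g : G, MulAut.conj g • M ≤ K := by
    intro g
    obtain ⟨k, hk, x, hx, rfl⟩ := exists_mul_of_coprime K H hcop.symm g
    rw [map_mul, mul_smul, mem_normalizer_iff_conj.mp (hMH hx)]
    exact Subgroup.conj_smul_le_of_le hMK ⟨k, hk⟩
  have hNK : normalClosure (M : Set G) ≤ K := by
    rw [normalClosure, Subgroup.closure_le]
    intro z hz
    rw [Group.mem_conjugatesOfSet_iff] at hz
    obtain ⟨m, hm, hmz⟩ := hz
    obtain ⟨g, rfl⟩ := isConj_iff.mp hmz
    apply hall g
    rw [mem_conj_smul_iff]
    have : g⁻¹ * (g * m * g⁻¹) * g = m := by group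
    rw [this]; exact hm
  refine ⟨normalClosure (M : Set G), inferInstance, ?_, ?_⟩
  · intro hb
    apply hM
    rw [eq_bot_iff, ← hb]
    exact le_normalClosure
  · exact Group.isSolvable_of_isSolvable_injective (f := Subgroup.inclusion hNK)
      (Subgroup.inclusion_injective hNK)

/-- **Wielandt**: a finite group with three solvable subgroups of pairwise coprime indices is solvable -/
theorem wielandt_three {G : Type u} [Group G] [Finite G] (H K L : Subgroup G)
    (hH : Group.IsSolvable H) (hK : Group.IsSolvable K) (hL : Group.IsSolvable L)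
    (hHK : H.index.Coprime K.index) (hHL : H.index.Coprime L.index) (hKL : K.index.Coprime L.index) :
    Group.IsSolvable G := by
  induction hn : Nat.card G using Nat.strong_induction_on generalizing G with
  | _ n ih =>
    by_cases hHb : H = ⊥
    · have h1 : K.index ∣ H.index := by rw [hHb, Subgroup.index_bot]; exact Subgroup.index_dvd_card K
      have h2 : K.index = 1 := by
        have := Nat.Coprime.eq_one_of_dvd hHK.symm h1
        exact this
      have h3 : K = ⊤ := Subgroup.index_eq_one.mp h2
      rw [h3] at hK
      exact Group.isSolvable_of_surjective (f := (Subgroup.topEquiv (G := G)).toMonoidHom)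
        (Subgroup.topEquiv).surjective
    · have hnt : Nontrivial H := (Subgroup.nontrivial_iff_ne_bot H).mpr hHb
      obtain ⟨p, hp, P, hPn, hPb, hPp, -⟩ := H2.Solv.exists_normal_abelian_pgroup H hH
      have hpf : Fact p.Prime := ⟨hp⟩
      set M := P.map H.subtype with hM
      have hMb : M ≠ ⊥ := by
        rw [hM, Ne, Subgroup.map_eq_bot_iff_of_injective P H.subtype_injective]; exact hPb
      have hMp : IsPGroup p M := hPp.map _
      have hMH : H ≤ normalizer (M : Set G) := by
        have hMleH : M ≤ H := Subgroup.map_subtype_le P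
        have : (M.subgroupOf H).Normal := by
          rw [hM, Subgroup.subgroupOf, Subgroup.comap_map_eq_self_of_injective H.subtype_injective]
          exact hPn
        exact Subgroup.le_normalizer_of_normal_subgroupOf hMleH
      have hex : ∃ N : Subgroup G, N.Normal ∧ N ≠ ⊥ ∧ Group.IsSolvable N := by
        by_cases hpK : p ∣ K.index
        · have hpL : ¬ p ∣ L.index := by
            intro h
            have := Nat.dvd_gcd hpK h
            rw [hKL] at this
            exact hp.one_lt.ne' (Nat.dvd_one.mp this)
          exact exists_solvable_normal H L hL hHL p hpL M hMb hMp hMH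
        · exact exists_solvable_normal H K hK hHK p hpK M hMb hMp hMH
      obtain ⟨N, hN, hNb, hNs⟩ := hex
      have hlt : Nat.card (G ⧸ N) < n := by
        rw [← hn, Subgroup.card_eq_card_quotient_mul_card_subgroup N]
        have h1 : 1 < Nat.card N := (Subgroup.one_lt_card_iff_ne_bot N).mpr hNb
        have h2 : 0 < Nat.card (G ⧸ N) := Nat.card_pos
        nlinarith
      have hfs := QuotientGroup.mk'_surjective N
      have himg : ∀ A : Subgroup G, Group.IsSolvable A → Group.IsSolvable (A.map (QuotientGroup.mk' N)) :=
        fun A hA => Group.isSolvable_of_surjective (MonoidHom.subgroupMap_surjective (QuotientGroup.mk' N) A)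
      have hidx : ∀ A B : Subgroup G, A.index.Coprime B.index →
          (A.map (QuotientGroup.mk' N)).index.Coprime (B.map (QuotientGroup.mk' N)).index := by
        intro A B hAB
        exact Nat.Coprime.coprime_dvd_left (Subgroup.index_map_dvd _ hfs)
          (Nat.Coprime.coprime_dvd_right (Subgroup.index_map_dvd _ hfs) hAB)
      have hq : Group.IsSolvable (G ⧸ N) :=
        ih _ hlt (H.map (QuotientGroup.mk' N)) (K.map (QuotientGroup.mk' N)) (L.map (QuotientGroup.mk' N))
          (himg H hH) (himg K hK) (himg L hL) (hidx H K hHK) (hidx H L hHL) (hidx K L hKL) rfl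
      exact Group.isSolvable_of_ker_le_range N.subtype (QuotientGroup.mk' N)
        (by rw [QuotientGroup.ker_mk', Subgroup.range_subtype])

/-- **Hall**: a finite group having a `p`-complement for every prime `p` is solvable -/
theorem isSolvable_of_complements {G : Type u} [Group G] [Finite G]
    (h : ∀ p : ℕ, p.Prime → ∃ H : Subgroup G, H.index = p ^ (Nat.card G).factorization p) :
    Group.IsSolvable G := by
  induction hn : Nat.card G using Nat.strong_induction_on generalizing G with
  | _ n ih =>
    by_cases hc : (Nat.card G).primeFactors.card ≤ 2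
    · -- Burnside
      have : ∃ p q : ℕ, p.Prime ∧ q.Prime ∧ ∃ a b : ℕ, Nat.card G = p ^ a * q ^ b := by
        have hprod := Nat.prod_factorization_pow_eq_self (Nat.card_pos (α := G)).ne'
        interval_cases hcc : (Nat.card G).primeFactors.card
        · refine ⟨2, 2, Nat.prime_two, Nat.prime_two, 0, 0, ?_⟩
          have h1 : (Nat.card G).primeFactors = ∅ := Finset.card_eq_zero.mp hcc
          have h2 : (Nat.card G).factorization.support = ∅ := h1
          rw [← hprod, Finsupp.prod, h2]; simp
        · obtain ⟨p, hp⟩ := Finset.card_eq_one.mp hcc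
          have hpp : p.Prime := Nat.prime_of_mem_primeFactors (by rw [hp]; simp)
          refine ⟨p, 2, hpp, Nat.prime_two, (Nat.card G).factorization p, 0, ?_⟩
          have h2 : (Nat.card G).factorization.support = {p} := hp
          conv_lhs => rw [← hprod, Finsupp.prod, h2]
          simp
        · obtain ⟨p, q, hpq, hp⟩ := Finset.card_eq_two.mp hcc
          have hpp : p.Prime := Nat.prime_of_mem_primeFactors (by rw [hp]; simp)
          have hqq : q.Prime := Nat.prime_of_mem_primeFactors (by rw [hp]; simp)
          refine ⟨p, q, hpp, hqq, (Nat.card G).factorization p, (Nat.card G).factorization q, ?_⟩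
          have h2 : (Nat.card G).factorization.support = {p, q} := hp
          conv_lhs => rw [← hprod, Finsupp.prod, h2]
          rw [Finset.prod_pair hpq]
      obtain ⟨p, q, hp, hq, a, b, hab⟩ := this
      exact H4.Burnside.isSolvable_of_card_eq p q hp hq _ G rfl ⟨a, b, hab⟩
    · push Not at hc
      obtain ⟨p, q, r, hp, hq, hr, hpq, hpr, hqr⟩ := (Finset.two_lt_card_iff).mp hc
      have key : ∀ s ∈ (Nat.card G).primeFactors, ∃ H : Subgroup G,
          H.index = s ^ (Nat.card G).factorization s ∧ Group.IsSolvable H := by
        intro s hs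
        have hsp := Nat.prime_of_mem_primeFactors hs
        have hsd := Nat.dvd_of_mem_primeFactors hs
        obtain ⟨H, hH⟩ := h s hsp
        refine ⟨H, hH, ?_⟩
        have hs1 : 1 < s ^ (Nat.card G).factorization s :=
          Nat.one_lt_pow (hsp.factorization_pos_of_dvd Nat.card_pos.ne' hsd).ne' hsp.one_lt
        have hcardH := Subgroup.card_mul_index H
        rw [hH] at hcardH
        have hlt : Nat.card H < n := by
          rw [← hn, ← hcardH]
          have : 0 < Nat.card H := Nat.card_pos
          nlinarith
        refine ih _ hlt ?_ rfl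
        intro t ht
        by_cases hts : t = s
        · refine ⟨⊤, ?_⟩
          rw [Subgroup.index_top, hts]
          have : (Nat.card H).factorization s = 0 := by
            have h1 : (Nat.card G).factorization s =
                (Nat.card H).factorization s + (Nat.card G).factorization s := by
              conv_lhs => rw [← hcardH]
              rw [Nat.factorization_mul Nat.card_pos.ne' (pow_pos hsp.pos _).ne', Finsupp.add_apply,
                hsp.factorization_pow, Finsupp.single_eq_same]
            omega
          rw [this, pow_zero]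
        · obtain ⟨K, hK⟩ := h t ht
          refine ⟨K.subgroupOf H, ?_⟩
          have hcop : K.index.Coprime H.index := by
            rw [hH, hK]
            exact Nat.Coprime.pow _ _ ((Nat.coprime_primes ht hsp).mpr hts)
          have h1 : (K.subgroupOf H).index = K.index := relIndex_eq_of_coprime K H hcop
          rw [h1, hK]
          congr 1
          conv_lhs => rw [← hcardH]
          rw [Nat.factorization_mul Nat.card_pos.ne' (pow_pos hsp.pos _).ne', Finsupp.add_apply,
            hsp.factorization_pow, Finsupp.single_eq_of_ne hts, add_zero]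
      obtain ⟨H, hH, hHs⟩ := key p hp
      obtain ⟨K, hK, hKs⟩ := key q hq
      obtain ⟨L, hL, hLs⟩ := key r hr
      have hcop : ∀ s t : ℕ, s ∈ (Nat.card G).primeFactors → t ∈ (Nat.card G).primeFactors → s ≠ t →
          (s ^ (Nat.card G).factorization s).Coprime (t ^ (Nat.card G).factorization t) :=
        fun s t hs ht hst => Nat.Coprime.pow _ _ ((Nat.coprime_primes (Nat.prime_of_mem_primeFactors hs)
          (Nat.prime_of_mem_primeFactors ht)).mpr hst)
      exact wielandt_three H K L hHs hKs hLs (by rw [hH, hK]; exact hcop p q hp hq hpq)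
        (by rw [hH, hL]; exact hcop p r hp hr hpr) (by rw [hK, hL]; exact hcop q r hq hr hqr)

/-- S0535 -/
theorem isSolvable_of_prime_power_index {G : Type u} [Group G] [Finite G]
    (h : ∀ H : Subgroup G, H ≠ ⊥ → ∀ p : ℕ, p.Prime → p ∣ Nat.card H →
      ∃ K : Subgroup H, K ≠ ⊤ ∧ ∃ k : ℕ, K.index = p ^ k) : Group.IsSolvable G := by
  apply isSolvable_of_complements
  intro p hp
  -- descend
  have key : ∀ n : ℕ, ∀ H : Subgroup G, Nat.card H = n → (∃ k, H.index = p ^ k) →
      ∃ K : Subgroup G, ∃ k, K.index = p ^ k ∧ ¬ p ∣ Nat.card K := by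
    intro n
    induction n using Nat.strong_induction_on with
    | _ n ih =>
      intro H hn hk
      by_cases hpH : p ∣ Nat.card H
      · have hHb : H ≠ ⊥ := by
          rintro rfl
          rw [Subgroup.card_bot, Nat.dvd_one] at hpH
          exact hp.ne_one hpH
        obtain ⟨K, hKt, k, hKk⟩ := h H hHb p hp hpH
        obtain ⟨l, hl⟩ := hk
        have h1 : Nat.card (K.map H.subtype) < n := by
          rw [Subgroup.card_map_of_injective H.subtype_injective, ← hn]
          refine lt_of_le_of_ne (Nat.le_of_dvd Nat.card_pos (Subgroup.card_subgroup_dvd_card K)) ?_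
          intro he; exact hKt (Subgroup.eq_top_of_card_eq K he)
        refine ih _ h1 (K.map H.subtype) rfl ⟨k + l, ?_⟩
        have h2 := Subgroup.relIndex_mul_index (Subgroup.map_subtype_le K)
        have h3 : (K.map H.subtype).relIndex H = K.index := by
          rw [Subgroup.relIndex, Subgroup.subgroupOf,
            Subgroup.comap_map_eq_self_of_injective H.subtype_injective]
        rw [← h2, h3, hKk, hl, pow_add]
      · exact ⟨H, hk.choose, hk.choose_spec, hpH⟩
  obtain ⟨K, k, hk, hpK⟩ := key _ ⊤ rfl ⟨0, by simp⟩
  refine ⟨K, ?_⟩
  have h1 := Subgroup.card_mul_index K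
  rw [hk] at h1
  have h2 : (Nat.card G).factorization p = k := by
    rw [← h1, Nat.factorization_mul Nat.card_pos.ne' (pow_pos hp.pos _).ne', Finsupp.add_apply,
      hp.factorization_pow, Finsupp.single_eq_same, Nat.factorization_eq_zero_of_not_dvd hpK, zero_add]
  rw [h2, hk]

end H11.HallConverse
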