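import Cfsg.Agent.Lib.H88.F4
import Cfsg.Agent.Lib.H69.ThreePrimes

set_option autoImplicit false
set_option linter.unusedVariables false
set_option maxHeartbeats 400000

/-!
# S3814, piece P0
-/

namespace H11.P0

open Subgroup H88.F4

universe u

/-- no `Z_t × Z_t`: subgroups of order `t` are conjugate -/
theorem uniq_order {X : Type u} [Group X] [Finite X] {t : ℕ} (ht : t.Prime)
    (h : ∀ x y : X, orderOf x = t → orderOf y = t → Commute x y → y ∈ zpowers x) (x y : X)
    (hx : orderOf x = t) (hy : orderOf y = t) : ∃ g : X, g * y * g⁻¹ ∈ zpowers x := by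
  haveI : Fact t.Prime := ⟨ht⟩
  have hz : ∀ w : X, orderOf w = t → IsPGroup t (zpowers w) := by
    intro w hw
    apply IsPGroup.of_card (n := 1)
    rw [Nat.card_zpowers, hw, pow_one]
  obtain ⟨P, hP⟩ := (hz x hx).exists_le_sylow
  obtain ⟨Q, hQ⟩ := (hz y hy).exists_le_sylow
  obtain ⟨g, hg⟩ := MulAction.exists_smul_eq X Q P
  have hxP : x ∈ P := hP (mem_zpowers x)
  have hyP : g * y * g⁻¹ ∈ P := by
    rw [← hg]
    exact ⟨y, hQ (mem_zpowers y), rfl⟩
  refine ⟨g, ?_⟩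
  have hPn : Nontrivial (P : Subgroup X) := by
    refine ⟨⟨⟨x, hxP⟩, 1, ?_⟩⟩
    intro hh
    have h1 : x = 1 := congrArg Subtype.val hh
    rw [h1, orderOf_one] at hx
    exact ht.one_lt.ne hx
  have hc := P.2.center_nontrivial
  have hdvd : t ∣ Nat.card (center (P : Subgroup X)) := by
    have h1 : IsPGroup t (center (P : Subgroup X)) := P.2.to_subgroup _
    obtain ⟨n, hn⟩ := IsPGroup.iff_card.1 h1
    have h2 : 1 < Nat.card (center (P : Subgroup X)) := Finite.one_lt_card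
    rw [hn] at h2 ⊢
    rcases Nat.eq_zero_or_pos n with h0 | h0
    · rw [h0, pow_zero] at h2
      exact absurd h2 (lt_irrefl _)
    · exact dvd_pow_self t h0.ne'
  obtain ⟨z, hzo⟩ := exists_prime_orderOf_dvd_card' t hdvd
  obtain ⟨⟨z, hzP⟩, hzc⟩ := z
  rw [← Subgroup.orderOf_coe, ← Subgroup.orderOf_coe] at hzo
  have hzcomm : ∀ w ∈ P, Commute z w := by
    intro w hw
    have h1 := (mem_center_iff.1 hzc) ⟨w, hw⟩
    exact (congrArg Subtype.val h1).symm
  have h1 : z ∈ zpowers x := h x z hx hzo (hzcomm x hxP).symm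
  have h2 : g * y * g⁻¹ ∈ zpowers z := by
    apply h z _ hzo _ (hzcomm _ hyP)
    have h3 : g * y * g⁻¹ = MulAut.conj g y := rfl
    rw [h3, MulEquiv.orderOf_eq, hy]
  exact (zpowers_le.2 h1) h2

/-- elements of orders `p`, `q` out of one of order `p * q` -/
theorem split {X : Type u} [Group X] {p q : ℕ} (hp : p.Prime) (hq : q.Prime) {g : X} (hg : orderOf g = p * q) :
    ∃ u v : X, orderOf u = p ∧ orderOf v = q ∧ Commute u v ∧ (∀ x : X, Commute x g → Commute x u) ∧
      (∀ x : X, Commute x g → Commute x v) := by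
  refine ⟨g ^ q, g ^ p, ?_, ?_, ?_, ?_, ?_⟩
  · rw [orderOf_pow' g hq.pos.ne', hg, Nat.gcd_eq_right (dvd_mul_left q p), Nat.mul_div_cancel _ hq.pos]
  · rw [orderOf_pow' g hp.pos.ne', hg, Nat.gcd_eq_right (dvd_mul_right p q), Nat.mul_div_cancel_left _ hp.pos]
  · exact (Commute.refl g).pow_pow _ _
  · exact fun x hx => hx.pow_right _
  · exact fun x hx => hx.pow_right _

theorem p0 {G : Type u} [Group G] [Finite G] (H : Subgroup G) (hH : Group.IsSolvable H) (σ : Finset ℕ)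
    (hσ : σ.card = 4) (hσp : ∀ t ∈ σ, t.Prime)
    (hJ : ∀ a ∈ σ, ∀ b ∈ σ, a ≠ b → ∃ x ∈ H, ∃ y ∈ H, orderOf x = a ∧ orderOf y = b ∧ Commute x y)
    (hnt : ∀ a ∈ σ, ∀ b ∈ σ, ∀ c ∈ σ, a ≠ b → b ≠ c → a ≠ c → ∀ x ∈ H, ∀ y ∈ H, ∀ z ∈ H,
      orderOf x = a → orderOf y = b → orderOf z = c → Commute x y → Commute y z → Commute x z → False) :
    ∀ t ∈ σ, R2 t H := by
  classical
  intro t htσ
  by_contra hR
  have ht := hσp t htσ
  -- everything inside the type `H`
  have h : ∀ x y : H, orderOf x = t → orderOf y = t → Commute x y → y ∈ zpowers x := by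
    intro x y hx hy hxy
    by_contra hn
    apply hR
    refine ⟨x, x.2, y, y.2, by rw [Subgroup.orderOf_coe, hx], by rw [Subgroup.orderOf_coe, hy], ?_, ?_⟩
    · exact congrArg Subtype.val hxy.eq
    · intro hh
      apply hn
      obtain ⟨i, hi⟩ := mem_zpowers_iff.1 hh
      rw [mem_zpowers_iff]
      refine ⟨i, Subtype.ext ?_⟩
      rw [← hi]
      rfl
  have hJ' : ∀ b ∈ σ, t ≠ b → ∃ x y : H, orderOf x = t ∧ orderOf y = b ∧ Commute x y := by
    intro b hb htb
    obtain ⟨x, hx, y, hy, hxt, hyb, hxy⟩ := hJ t htσ b hb htb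
    refine ⟨⟨x, hx⟩, ⟨y, hy⟩, ?_, ?_, Subtype.ext hxy.eq⟩
    · rw [← Subgroup.orderOf_coe]; exact hxt
    · rw [← Subgroup.orderOf_coe]; exact hyb
  have hcard : (σ.erase t).card = 3 := by
    rw [Finset.card_erase_of_mem htσ, hσ]
  obtain ⟨a, b, c, hab, hac, hbc, he⟩ := Finset.card_eq_three.1 hcard
  have ha : a ∈ σ.erase t := by rw [he]; simp
  have hb : b ∈ σ.erase t := by rw [he]; simp
  have hc : c ∈ σ.erase t := by rw [he]; simp
  rw [Finset.mem_erase] at ha hb hc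
  obtain ⟨x, y1, hx, hy1, hxy1⟩ := hJ' a ha.2 (Ne.symm ha.1)
  -- every prime is the order of an element centralizing `x`
  have key : ∀ d ∈ σ, t ≠ d → d ∣ Nat.card (centralizer ({x} : Set H)) := by
    intro d hd htd
    obtain ⟨x', y', hx', hy', hxy'⟩ := hJ' d hd htd
    obtain ⟨g, hg⟩ := uniq_order ht h x' x hx' hx
    have h1 : Commute (g * x * g⁻¹) y' := by
      obtain ⟨i, hi⟩ := mem_zpowers_iff.1 hg
      rw [← hi]
      exact hxy'.zpow_left i
    have h2 : Commute x (g⁻¹ * y' * g) := by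
      have h3 := h1.eq
      show x * (g⁻¹ * y' * g) = g⁻¹ * y' * g * x
      calc x * (g⁻¹ * y' * g) = g⁻¹ * (g * x * g⁻¹ * y') * g := by group
        _ = g⁻¹ * (y' * (g * x * g⁻¹)) * g := by rw [h3]
        _ = g⁻¹ * y' * g * x := by group
    have h4 : g⁻¹ * y' * g ∈ centralizer ({x} : Set H) := by
      rw [mem_centralizer_singleton_iff]
      exact h2.eq.symm
    have h5 : orderOf (⟨g⁻¹ * y' * g, h4⟩ : centralizer ({x} : Set H)) = d := by
      rw [← Subgroup.orderOf_coe]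
      have h6 : g⁻¹ * y' * g = MulAut.conj g⁻¹ y' := by
        rw [MulAut.conj_apply, inv_inv]
      show orderOf (g⁻¹ * y' * g) = d
      rw [h6, MulEquiv.orderOf_eq, hy']
    rw [← h5]
    exact orderOf_dvd_natCard _
  have hCs : Group.IsSolvable (centralizer ({x} : Set H)) := by infer_instance
  have hcx : ∀ u : centralizer ({x} : Set H), Commute x (u : H) := fun u =>
    ((mem_centralizer_singleton_iff).1 u.2).symm
  -- the triple
  have fin : ∀ p ∈ σ, ∀ q ∈ σ, t ≠ p → t ≠ q → p ≠ q → ∀ g : centralizer ({x} : Set H), orderOf g = p * q → False := by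
    intro p hp q hq htp htq hpq g hg
    obtain ⟨u, v, hu, hv, huv, -, -⟩ := split (hσp p hp) (hσp q hq) hg
    have e1 : Commute (x : G) ((u : H) : G) := congrArg Subtype.val (hcx u).eq
    have e2 : Commute (x : G) ((v : H) : G) := congrArg Subtype.val (hcx v).eq
    have e3 : Commute ((u : H) : G) ((v : H) : G) :=
      congrArg Subtype.val (congrArg Subtype.val huv.eq)
    refine hnt t htσ p hp q hq htp hpq htq x x.2 (u : H) (u : H).2 (v : H) (v : H).2 ?_ ?_ ?_ e1 e3 e2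
    · rw [Subgroup.orderOf_coe, hx]
    · rw [Subgroup.orderOf_coe, Subgroup.orderOf_coe, hu]
    · rw [Subgroup.orderOf_coe, Subgroup.orderOf_coe, hv]
  obtain ⟨g, hg⟩ := H69.ThreePrimes.three_primes hCs (hσp a ha.2) (hσp b hb.2) (hσp c hc.2) hab hac hbc
    (key a ha.2 (Ne.symm ha.1)) (key b hb.2 (Ne.symm hb.1)) (key c hc.2 (Ne.symm hc.1))
  rcases hg with hg | hg | hg
  · exact fin a ha.2 b hb.2 (Ne.symm ha.1) (Ne.symm hb.1) hab g hg
  · exact fin a ha.2 c hc.2 (Ne.symm ha.1) (Ne.symm hc.1) hac g hg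
  · exact fin b hb.2 c hc.2 (Ne.symm hb.1) (Ne.symm hc.1) hbc g hg

end H11.P0
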