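import Cfsg.Agent.Lib.H98.DicksonField

/-! Modules for `SL₂(4)` in which the elements of order three act fixed-point-freely are natural. -/

open Matrix

namespace H11.SL24

open H98.DicksonField

section
variable {K : Type*} [Field K] [Fintype K]

theorem char_two (hK : Fintype.card K = 4) : (2 : K) = 0 := by
  have h := FiniteField.cast_card_eq_zero K
  rw [hK] at h
  push_cast at h
  have h4 : (4 : K) = 2 * 2 := by norm_num
  rw [h4, mul_self_eq_zero] at h
  exact h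

theorem pow_three (hK : Fintype.card K = 4) {x : K} (hx : x ≠ 0) : x ^ 3 = 1 := by
  have := FiniteField.pow_card_sub_one_eq_one x hx
  rwa [hK] at this

/-- the swap -/
def sw (hK : Fintype.card K = 4) : SpecialLinearGroup (Fin 2) K :=
  ⟨!![0, 1; 1, 0], by
    have h2 := char_two hK
    rw [det_fin_two_of]
    linear_combination -h2⟩

/-- the diagonal element -/
def dg (x : K) (hx : x ≠ 0) : SpecialLinearGroup (Fin 2) K :=
  ⟨!![x, 0; 0, x⁻¹], by rw [det_fin_two_of, mul_inv_cancel₀ hx]; ring⟩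

theorem coe_sw (hK : Fintype.card K = 4) : (sw hK : Matrix (Fin 2) (Fin 2) K) = !![0, 1; 1, 0] := rfl
theorem coe_dg (x : K) (hx : x ≠ 0) : (dg x hx : Matrix (Fin 2) (Fin 2) K) = !![x, 0; 0, x⁻¹] := rfl

theorem sw_sw (hK : Fintype.card K = 4) : sw hK * sw hK = 1 := by
  apply sl_ext
  rw [Matrix.SpecialLinearGroup.coe_mul, coe_sw, Matrix.SpecialLinearGroup.coe_one]
  ext i j
  fin_cases i <;> fin_cases j <;> simp

theorem lo_eq (hK : Fintype.card K = 4) (c : K) : lo c = sw hK * up c * sw hK := by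
  apply sl_ext
  rw [Matrix.SpecialLinearGroup.coe_mul, Matrix.SpecialLinearGroup.coe_mul, coe_sw, coe_up, coe_lo]
  ext i j
  fin_cases i <;> fin_cases j <;> simp

theorem up_mul (a b : K) : up a * up b = up (a + b) := by
  apply sl_ext
  rw [Matrix.SpecialLinearGroup.coe_mul, coe_up, coe_up, coe_up]
  ext i j
  fin_cases i <;> fin_cases j <;> simp [add_comm]

theorem up_zero : up (0 : K) = 1 := by
  apply sl_ext
  rw [coe_up, Matrix.SpecialLinearGroup.coe_one]
  ext i j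
  fin_cases i <;> fin_cases j <;> simp

theorem sw_up_sq (hK : Fintype.card K = 4) : (sw hK * up 1) * (sw hK * up 1) = up 1 * sw hK := by
  have h2 := char_two hK
  have h11 : (1 : K) + 1 = 0 := by rw [← h2]; norm_num
  apply sl_ext
  simp only [Matrix.SpecialLinearGroup.coe_mul, coe_sw, coe_up]
  ext i j
  fin_cases i <;> fin_cases j <;> simp [h11]

theorem sw_up_cube (hK : Fintype.card K = 4) : (sw hK * up 1) ^ 3 = 1 := by
  rw [pow_succ, pow_two, sw_up_sq]
  calc up 1 * sw hK * (sw hK * up 1) = up 1 * (sw hK * sw hK) * up 1 := by group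
    _ = up (1 + 1 : K) := by rw [sw_sw, mul_one, up_mul]
    _ = 1 := by
      have h2 := char_two hK
      rw [show (1 : K) + 1 = 0 by rw [← h2]; norm_num, up_zero]

theorem sw_up_ne (hK : Fintype.card K = 4) : sw hK * up 1 ≠ 1 := by
  intro h
  have h1 := congrArg (fun M : SpecialLinearGroup (Fin 2) K => (M : Matrix (Fin 2) (Fin 2) K) 0 0) h
  simp [Matrix.SpecialLinearGroup.coe_mul, coe_sw, coe_up] at h1

theorem dg_up (x : K) (hx : x ≠ 0) (a : K) : dg x hx * up a = up (x ^ 2 * a) * dg x hx := by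
  apply sl_ext
  simp only [Matrix.SpecialLinearGroup.coe_mul, coe_dg, coe_up]
  ext i j
  fin_cases i <;> fin_cases j <;> simp
  field_simp

theorem dg_mul (x y : K) (hx : x ≠ 0) (hy : y ≠ 0) : dg x hx * dg y hy = dg (x * y) (mul_ne_zero hx hy) := by
  apply sl_ext
  simp only [Matrix.SpecialLinearGroup.coe_mul, coe_dg]
  ext i j
  fin_cases i <;> fin_cases j <;> simp [mul_comm]

theorem dg_sw (hK : Fintype.card K = 4) (x : K) (hx : x ≠ 0) : dg x hx * sw hK * dg x hx = sw hK := by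
  apply sl_ext
  simp only [Matrix.SpecialLinearGroup.coe_mul, coe_dg, coe_sw]
  ext i j
  fin_cases i <;> fin_cases j <;> simp [hx]

end

section
variable {K : Type*} [Field K] [Fintype K] {A : Type*} [AddCommGroup A]
  (ρ : SpecialLinearGroup (Fin 2) K →* AddMonoid.End A)

theorem rho_mul (a b : SpecialLinearGroup (Fin 2) K) (x : A) : ρ (a * b) x = ρ a (ρ b x) := by
  rw [map_mul]; rfl

theorem rho_one (x : A) : ρ 1 x = x := by
  rw [map_one]; rfl

theorem up_swap (hK : Fintype.card K = 4) (hA : ∀ a : A, a + a = 0)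
    (hN : ∀ M : SpecialLinearGroup (Fin 2) K, M ≠ 1 → M ^ 3 = 1 → ∀ x, x + ρ M x + ρ M (ρ M x) = 0)
    {e : A} (he : ∀ l, ρ (up l) e = e) : ρ (up 1) (ρ (sw hK) e) = e + ρ (sw hK) e := by
  have h1 := hN _ (sw_up_ne hK) (sw_up_cube hK) e
  have h2 : ρ (sw hK * up 1) (ρ (sw hK * up 1) e) = ρ (up 1) (ρ (sw hK) e) := by
    rw [← rho_mul, sw_up_sq, rho_mul]
  have h3 : ρ (sw hK * up 1) e = ρ (sw hK) e := by
    rw [rho_mul, he]
  rw [h2, h3] at h1
  have h4 : ρ (up 1) (ρ (sw hK) e) = -(e + ρ (sw hK) e) := (neg_eq_of_add_eq_zero_right h1).symm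
  rw [h4]
  exact neg_eq_of_add_eq_zero_left (hA _)

theorem dg_fix {e : A} (he : ∀ l, ρ (up l) e = e) (x : K) (hx : x ≠ 0) :
    ∀ l, ρ (up l) (ρ (dg x hx) e) = ρ (dg x hx) e := by
  intro l
  have h1 : up l * dg x hx = dg x hx * up ((x ^ 2)⁻¹ * l) := by
    rw [dg_up, ← mul_assoc, mul_inv_cancel₀ (pow_ne_zero 2 hx), one_mul]
  rw [← rho_mul, h1, rho_mul, he]

theorem up_swap' (hK : Fintype.card K = 4) (hA : ∀ a : A, a + a = 0)
    (hN : ∀ M : SpecialLinearGroup (Fin 2) K, M ≠ 1 → M ^ 3 = 1 → ∀ x, x + ρ M x + ρ M (ρ M x) = 0)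
    {e : A} (he : ∀ l, ρ (up l) e = e) (l : K) (hl : l ≠ 0) :
    ρ (up l) (ρ (sw hK) e) = ρ (dg l hl) e + ρ (sw hK) e := by
  have hl2 : l ^ 2 ≠ 0 := pow_ne_zero 2 hl
  -- `up l = dg (l²) up 1 (dg (l²))⁻¹`
  have h1 : dg (l ^ 2) hl2 * up 1 = up l * dg (l ^ 2) hl2 := by
    rw [dg_up]
    congr 2
    have := pow_three hK hl
    calc (l ^ 2) ^ 2 * 1 = l ^ 3 * l := by ring
      _ = l := by rw [this, one_mul]
  have h2 : ρ (sw hK) e = ρ (dg (l ^ 2) hl2) (ρ (sw hK) (ρ (dg (l ^ 2) hl2) e)) := by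
    have := dg_sw hK (l ^ 2) hl2
    conv_lhs => rw [← this]
    rw [map_mul, map_mul]; rfl
  have h3 := up_swap ρ hK hA hN (dg_fix ρ he (l ^ 2) hl2)
  calc ρ (up l) (ρ (sw hK) e)
      = ρ (up l) (ρ (dg (l ^ 2) hl2) (ρ (sw hK) (ρ (dg (l ^ 2) hl2) e))) := by rw [← h2]
    _ = ρ (up l * dg (l ^ 2) hl2) (ρ (sw hK) (ρ (dg (l ^ 2) hl2) e)) := by rw [map_mul]; rfl
    _ = ρ (dg (l ^ 2) hl2 * up 1) (ρ (sw hK) (ρ (dg (l ^ 2) hl2) e)) := by rw [h1]
    _ = ρ (dg (l ^ 2) hl2) (ρ (up 1) (ρ (sw hK) (ρ (dg (l ^ 2) hl2) e))) := by rw [map_mul]; rfl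
    _ = ρ (dg (l ^ 2) hl2) (ρ (dg (l ^ 2) hl2) e) + ρ (sw hK) e := by
      rw [h3, map_add, ← h2]
    _ = ρ (dg l hl) e + ρ (sw hK) e := by
      rw [← rho_mul, dg_mul]
      congr 3
      have := pow_three hK hl
      have h4 : l ^ 2 * l ^ 2 = l := by
        calc l ^ 2 * l ^ 2 = l ^ 3 * l := by ring
          _ = l := by rw [this, one_mul]
      congr 1

theorem exists_natural (hK : Fintype.card K = 4) (hA : ∀ a : A, a + a = 0)
    (hN : ∀ M : SpecialLinearGroup (Fin 2) K, M ≠ 1 → M ^ 3 = 1 → ∀ x, x + ρ M x + ρ M (ρ M x) = 0)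
    {e : A} (he : ∀ l, ρ (up l) e = e) (he0 : e ≠ 0) :
    ∃ Φ : (Fin 2 → K) →+ A, Function.Injective Φ ∧
      (∀ (M : SpecialLinearGroup (Fin 2) K) (v : Fin 2 → K),
        Φ ((M : Matrix (Fin 2) (Fin 2) K) *ᵥ v) = ρ M (Φ v)) := by
  let s := ρ (sw hK)
  have hss : ∀ a, s (s a) = a := by
    intro a
    change ρ (sw hK) (ρ (sw hK) a) = a
    rw [← rho_mul, sw_sw, rho_one]
  -- the map `m`
  let m0 : K → A := fun α => ρ (up α) (s e) - s e
  have hm_ne : ∀ (α : K) (hα : α ≠ 0), m0 α = ρ (dg α hα) e := by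
    intro α hα
    change ρ (up α) (ρ (sw hK) e) - ρ (sw hK) e = _
    rw [up_swap' ρ hK hA hN he α hα, add_sub_cancel_right]
  have hm_zero : m0 0 = 0 := by
    change ρ (up 0) (s e) - s e = 0
    rw [up_zero, rho_one, sub_self]
  have hm_fix : ∀ α l, ρ (up l) (m0 α) = m0 α := by
    intro α l
    by_cases hα : α = 0
    · rw [hα, hm_zero, map_zero]
    · rw [hm_ne α hα]
      exact dg_fix ρ he α hα l
  have hm_add : ∀ α β, m0 (α + β) = m0 α + m0 β := by
    intro α β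
    have h1 : ρ (up (α + β)) (s e) = ρ (up α) (ρ (up β) (s e)) := by
      rw [← up_mul, map_mul]; rfl
    have h2 : ρ (up β) (s e) = m0 β + s e := by
      change _ = ρ (up β) (s e) - s e + s e
      rw [sub_add_cancel]
    have h3 : ρ (up α) (s e) = m0 α + s e := by
      change _ = ρ (up α) (s e) - s e + s e
      rw [sub_add_cancel]
    change ρ (up (α + β)) (s e) - s e = _
    rw [h1, h2, map_add, hm_fix, h3]
    abel
  let m : K →+ A := { toFun := m0, map_zero' := hm_zero, map_add' := hm_add }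
  have hm : ∀ α, m α = m0 α := fun _ => rfl
  have hm_inj : ∀ α, m α = 0 → α = 0 := by
    intro α h
    by_contra hα
    rw [hm, hm_ne α hα] at h
    apply he0
    have h1 : ρ (dg α hα)⁻¹ (ρ (dg α hα) e) = e := by
      rw [← rho_mul, inv_mul_cancel, rho_one]
    rw [← h1, h, map_zero]
  have hup : ∀ l β, ρ (up l) (s (m β)) = m (l * β) + s (m β) := by
    intro l β
    by_cases hl : l = 0
    · rw [hl, up_zero, rho_one, zero_mul, map_zero, zero_add]
    by_cases hβ : β = 0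
    · rw [hβ, mul_zero, map_zero, map_zero, map_zero, zero_add]
    have h1 := up_swap' ρ hK hA hN (e := m β) (fun l => hm_fix β l) l hl
    change ρ (up l) (ρ (sw hK) (m β)) = _
    rw [h1]
    congr 1
    rw [hm, hm, hm_ne β hβ, hm_ne _ (mul_ne_zero hl hβ), ← rho_mul, dg_mul]
  let Φ : (Fin 2 → K) →+ A :=
    { toFun := fun v => m (v 0) + s (m (v 1))
      map_zero' := by simp
      map_add' := fun v w => by
        simp only [Pi.add_apply, map_add]
        abel }
  have hΦ : ∀ v, Φ v = m (v 0) + s (m (v 1)) := fun _ => rfl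
  refine ⟨Φ, ?_, ?_⟩
  · rw [injective_iff_map_eq_zero]
    intro v hv
    rw [hΦ] at hv
    have h1 : v 1 = 0 := by
      apply hm_inj
      have h2 := congrArg (ρ (up 1)) hv
      rw [map_zero, map_add, hup, one_mul, hm, hm_fix, ← hm] at h2
      have h3 : m (v 1) = (m (v 0) + (m (v 1) + s (m (v 1)))) - (m (v 0) + s (m (v 1))) := by abel
      rw [h3, h2, hv, sub_zero]
    have h0 : v 0 = 0 := by
      apply hm_inj
      rw [h1, map_zero, map_zero, add_zero] at hv
      exact hv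
    funext i
    fin_cases i
    · exact h0
    · exact h1
  · -- equivariance
    have e_up : ∀ (l : K) (v : Fin 2 → K), Φ ((up l : Matrix (Fin 2) (Fin 2) K) *ᵥ v) = ρ (up l) (Φ v) := by
      intro l v
      rw [hΦ, hΦ, map_add, hup, coe_up]
      have h1 : (!![1, l; 0, 1] *ᵥ v) 0 = v 0 + l * v 1 := by simp [Matrix.mulVec, dotProduct, Fin.sum_univ_two]
      have h2 : (!![1, l; 0, 1] *ᵥ v) 1 = v 1 := by simp [Matrix.mulVec, dotProduct, Fin.sum_univ_two]
      rw [h1, h2, map_add, hm (v 0), hm_fix]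
      abel
    have e_sw : ∀ (v : Fin 2 → K), Φ ((sw hK : Matrix (Fin 2) (Fin 2) K) *ᵥ v) = s (Φ v) := by
      intro v
      rw [hΦ, hΦ, map_add, hss, coe_sw]
      have h1 : (!![(0 : K), 1; 1, 0] *ᵥ v) 0 = v 1 := by simp [Matrix.mulVec, dotProduct, Fin.sum_univ_two]
      have h2 : (!![(0 : K), 1; 1, 0] *ᵥ v) 1 = v 0 := by simp [Matrix.mulVec, dotProduct, Fin.sum_univ_two]
      rw [h1, h2]
      abel
    let Γ : Subgroup (SpecialLinearGroup (Fin 2) K) :=
      { carrier := {M | ∀ v : Fin 2 → K, Φ ((M : Matrix (Fin 2) (Fin 2) K) *ᵥ v) = ρ M (Φ v)}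
        one_mem' := fun v => by
          change Φ ((1 : Matrix (Fin 2) (Fin 2) K) *ᵥ v) = ρ 1 (Φ v)
          rw [Matrix.one_mulVec, rho_one]
        mul_mem' := by
          intro M M' hM hM' v
          have h1 : Φ ((M : Matrix (Fin 2) (Fin 2) K) *ᵥ ((M' : Matrix (Fin 2) (Fin 2) K) *ᵥ v)) =
              ρ M (ρ M' (Φ v)) := by rw [hM, hM']
          rw [Matrix.mulVec_mulVec, ← rho_mul] at h1
          exact h1
        inv_mem' := by
          intro M hM v
          have h1 := hM (((M⁻¹ : SpecialLinearGroup (Fin 2) K) : Matrix (Fin 2) (Fin 2) K) *ᵥ v)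
          have h2 : (M : Matrix (Fin 2) (Fin 2) K) * ((M⁻¹ : SpecialLinearGroup (Fin 2) K) : Matrix (Fin 2) (Fin 2) K) = 1 :=
            congrArg Subtype.val (mul_inv_cancel M)
          rw [Matrix.mulVec_mulVec, h2, Matrix.one_mulVec] at h1
          rw [h1, ← rho_mul, inv_mul_cancel, rho_one] }
    have hsw : sw hK ∈ Γ := e_sw
    have hupΓ : ∀ l, up l ∈ Γ := fun l => e_up l
    intro M
    exact sl_induction (MonoidHom.id _) Γ (fun b => hupΓ b) (fun c => by
      rw [MonoidHom.id_apply, lo_eq hK]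
      exact Γ.mul_mem (Γ.mul_mem hsw (hupΓ c)) hsw) M

end

end H11.SL24
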