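import Cfsg.Agent.Lib.H11.SL24

/-! The affine group `K² ⋊ SL₂(K)` as matrices. -/

open Matrix Subgroup

namespace H11.SL24

open H98.DicksonField

section
variable {K : Type*} [Field K]

/-- the affine matrix -/
def aff (M : Matrix.SpecialLinearGroup (Fin 2) K) (v : Fin 2 → K) : Matrix.SpecialLinearGroup (Fin 3) K :=
  ⟨!![M 0 0, M 0 1, v 0; M 1 0, M 1 1, v 1; 0, 0, 1], by
    have h := M.2
    rw [Matrix.det_fin_two] at h
    rw [Matrix.det_fin_three]
    simp
    exact h⟩

theorem coe_aff (M : Matrix.SpecialLinearGroup (Fin 2) K) (v : Fin 2 → K) :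
    (aff M v : Matrix (Fin 3) (Fin 3) K) = !![M 0 0, M 0 1, v 0; M 1 0, M 1 1, v 1; 0, 0, 1] := rfl

theorem sl3_ext {A B : Matrix.SpecialLinearGroup (Fin 3) K}
    (h : (A : Matrix (Fin 3) (Fin 3) K) = (B : Matrix (Fin 3) (Fin 3) K)) : A = B := Subtype.ext h

theorem aff_mul (M M' : Matrix.SpecialLinearGroup (Fin 2) K) (v v' : Fin 2 → K) :
    aff M v * aff M' v' = aff (M * M') (v + (M : Matrix (Fin 2) (Fin 2) K) *ᵥ v') := by
  apply sl3_ext
  rw [Matrix.SpecialLinearGroup.coe_mul, coe_aff, coe_aff, coe_aff, Matrix.SpecialLinearGroup.coe_mul]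
  ext i j
  fin_cases i <;> fin_cases j <;>
    simp [Matrix.mul_apply, Fin.sum_univ_three, Fin.sum_univ_two, Matrix.mulVec, dotProduct] <;> ring

theorem aff_inj {M M' : Matrix.SpecialLinearGroup (Fin 2) K} {v v' : Fin 2 → K}
    (h : aff M v = aff M' v') : M = M' ∧ v = v' := by
  have h1 := congrArg (fun A : Matrix.SpecialLinearGroup (Fin 3) K => (A : Matrix (Fin 3) (Fin 3) K)) h
  simp only [coe_aff] at h1
  have e00 := congrFun (congrFun h1 0) 0
  have e01 := congrFun (congrFun h1 0) 1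
  have e02 := congrFun (congrFun h1 0) 2
  have e10 := congrFun (congrFun h1 1) 0
  have e11 := congrFun (congrFun h1 1) 1
  have e12 := congrFun (congrFun h1 1) 2
  simp at e00 e01 e02 e10 e11 e12
  constructor
  · apply sl_ext
    ext i j
    fin_cases i <;> fin_cases j
    · exact e00
    · exact e01
    · exact e10
    · exact e11
  · funext i
    fin_cases i
    · exact e02
    · exact e12

theorem iso_of_split {G : Type*} [Group G] (ψ : G →* Matrix.SpecialLinearGroup (Fin 2) K)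
    (φ : (Fin 2 → K) → G) (hadd : ∀ v w, φ (v + w) = φ v * φ w) (hinj : Function.Injective φ)
    (hker : ∀ g, ψ g = 1 ↔ ∃ v, φ v = g)
    (hconj : ∀ g v, g * φ v * g⁻¹ = φ ((ψ g : Matrix (Fin 2) (Fin 2) K) *ᵥ v))
    (σ : Matrix.SpecialLinearGroup (Fin 2) K →* G) (hσ : ∀ M, ψ (σ M) = M) :
    Nonempty (G ≃* ↥(Subgroup.closure {M : Matrix.SpecialLinearGroup (Fin 3) K |
          (M : Matrix (Fin 3) (Fin 3) K) 2 0 = 0 ∧ (M : Matrix (Fin 3) (Fin 3) K) 2 1 = 0 ∧
          (M : Matrix (Fin 3) (Fin 3) K) 2 2 = 1})) := by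
  have hr : ∀ g : G, ∃ v, φ v = g * (σ (ψ g))⁻¹ := by
    intro g
    apply (hker _).mp
    rw [map_mul, map_inv, hσ, mul_inv_cancel]
  choose r hr using hr
  let f : G →* Matrix.SpecialLinearGroup (Fin 3) K := MonoidHom.mk' (fun g => aff (ψ g) (r g)) (by
    intro g g'
    rw [aff_mul, map_mul]
    congr 1
    apply hinj
    rw [hr, add_comm, hadd, hr, ← hconj, hr, map_mul, map_mul]
    group)
  have hf : ∀ g, f g = aff (ψ g) (r g) := fun _ => rfl
  have hfinj : Function.Injective f := by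
    intro g g' h
    rw [hf, hf] at h
    obtain ⟨h1, h2⟩ := aff_inj h
    have h3 := hr g
    have h4 := hr g'
    rw [h2, h4, h1] at h3
    exact (mul_right_cancel h3).symm
  have hrange : f.range = Subgroup.closure {M : Matrix.SpecialLinearGroup (Fin 3) K |
          (M : Matrix (Fin 3) (Fin 3) K) 2 0 = 0 ∧ (M : Matrix (Fin 3) (Fin 3) K) 2 1 = 0 ∧
          (M : Matrix (Fin 3) (Fin 3) K) 2 2 = 1} := by
    apply le_antisymm
    · rintro _ ⟨g, rfl⟩
      apply Subgroup.subset_closure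
      rw [hf]
      refine ⟨?_, ?_, ?_⟩ <;> rw [coe_aff] <;> simp
    · rw [closure_le]
      rintro M ⟨h0, h1, h2⟩
      let M' : Matrix.SpecialLinearGroup (Fin 2) K := ⟨!![(M : Matrix (Fin 3) (Fin 3) K) 0 0, (M : Matrix (Fin 3) (Fin 3) K) 0 1;
        (M : Matrix (Fin 3) (Fin 3) K) 1 0, (M : Matrix (Fin 3) (Fin 3) K) 1 1], by
        have h := M.2
        rw [Matrix.det_fin_three] at h
        rw [Matrix.det_fin_two_of]
        change _ * (M : Matrix (Fin 3) (Fin 3) K) 1 1 * (M : Matrix (Fin 3) (Fin 3) K) 2 2 - _ * _ * (M : Matrix (Fin 3) (Fin 3) K) 2 1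
          - _ * _ * (M : Matrix (Fin 3) (Fin 3) K) 2 2 + _ * _ * (M : Matrix (Fin 3) (Fin 3) K) 2 0
          + _ * _ * (M : Matrix (Fin 3) (Fin 3) K) 2 1 - _ * _ * (M : Matrix (Fin 3) (Fin 3) K) 2 0 = 1 at h
        rw [h0, h1, h2] at h
        linear_combination h⟩
      let v : Fin 2 → K := ![(M : Matrix (Fin 3) (Fin 3) K) 0 2, (M : Matrix (Fin 3) (Fin 3) K) 1 2]
      refine ⟨φ v * σ M', ?_⟩
      have e1 : ψ (φ v * σ M') = M' := by
        rw [map_mul, (hker (φ v)).mpr ⟨v, rfl⟩, one_mul, hσ]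
      have e2 : r (φ v * σ M') = v := by
        apply hinj
        rw [hr, e1, mul_inv_cancel_right]
      rw [hf, e1, e2]
      apply sl3_ext
      rw [coe_aff]
      ext i j
      fin_cases i <;> fin_cases j
      · rfl
      · rfl
      · rfl
      · rfl
      · rfl
      · rfl
      · exact h0.symm
      · exact h1.symm
      · exact h2.symm
  exact ⟨(MonoidHom.ofInjective hfinj).trans (MulEquiv.subgroupCongr hrange)⟩

end

end H11.SL24
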