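import Cfsg.Prelude.Def_Classical
import Cfsg.Agent.Lib.H6.SympCard
import Cfsg.Agent.Lib.H6.SympPerfect

set_option autoImplicit false
set_option linter.unusedVariables false
set_option linter.unusedSimpArgs false
set_option maxHeartbeats 1000000

/-!
# Centralizer of a transvection in `PSp₄(3)` (for S3366)
-/

namespace H11.SPY

open Matrix

section gen

variable {F : Type*} [Field F]

def mm (x y k a b c d : F) : Matrix (Fin 2 ⊕ Fin 2) (Fin 2 ⊕ Fin 2) F :=
  fromBlocks !![1, c * x - a * y; 0, a] !![-k, d * x - b * y; x, b] !![0, 0; 0, c] !![1, 0; y, d]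

theorem mm_mul {x y k a b c d x' y' k' a' b' c' d' : F} (h : a * d - b * c = 1) :
    mm x y k a b c d * mm x' y' k' a' b' c' d' =
      mm (x + (a * x' + b * y')) (y + (c * x' + d * y'))
        (k + k' - (x * (c * x' + d * y') - y * (a * x' + b * y')))
        (a * a' + b * c') (a * b' + b * d') (c * a' + d * c') (c * b' + d * d') := by
  unfold mm
  rw [fromBlocks_multiply]
  congr 1
  · ext i j
    fin_cases i <;> fin_cases j <;> simp [Matrix.mul_apply, Fin.sum_univ_two]
    linear_combination - (c' * x' - a' * y') * h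
  · ext i j
    fin_cases i <;> fin_cases j <;> simp [Matrix.mul_apply, Fin.sum_univ_two]
    · ring
    · linear_combination - (d' * x' - b' * y') * h
    · ring
  · ext i j
    fin_cases i <;> fin_cases j <;> simp [Matrix.mul_apply, Fin.sum_univ_two]
  · ext i j
    fin_cases i <;> fin_cases j <;> simp [Matrix.mul_apply, Fin.sum_univ_two]
    ring

theorem mm_mem {x y k a b c d : F} (h : a * d - b * c = 1) : mm x y k a b c d ∈ symplecticGroup (Fin 2) F := by
  rw [SymplecticGroup.mem_iff]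
  unfold mm J
  rw [fromBlocks_transpose, fromBlocks_multiply, fromBlocks_multiply]
  simp only [mul_zero, mul_one, zero_add, add_zero, mul_neg]
  congr 1
  · ext i j
    fin_cases i <;> fin_cases j <;>
      simp [Matrix.mul_apply, Fin.sum_univ_two, Matrix.transpose_apply, Matrix.vecMul, dotProduct] <;>
      first | ring1 | linear_combination x * h | linear_combination - x * h
  · ext i j
    fin_cases i <;> fin_cases j <;>
      simp [Matrix.mul_apply, Fin.sum_univ_two, Matrix.transpose_apply, Matrix.vecMul, dotProduct] <;>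
      first | ring1 | linear_combination y * h | linear_combination - y * h | linear_combination - h
  · ext i j
    fin_cases i <;> fin_cases j <;>
      simp [Matrix.mul_apply, Fin.sum_univ_two, Matrix.transpose_apply, Matrix.vecMul, dotProduct] <;>
      first | ring1 | linear_combination y * h | linear_combination - y * h | linear_combination h
  · ext i j
    fin_cases i <;> fin_cases j <;>
      simp [Matrix.mul_apply, Fin.sum_univ_two, Matrix.transpose_apply, Matrix.vecMul, dotProduct] <;>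
      ring

def ms (x y k a b c d : F) (h : a * d - b * c = 1) : symplecticGroup (Fin 2) F := ⟨mm x y k a b c d, mm_mem h⟩

/-- equality in the projective group -/
theorem mk_eq {g g' : symplecticGroup (Fin 2) F}
    (h : (QuotientGroup.mk g : Cfsg.PSp 2 F) = QuotientGroup.mk g') :
    ∃ s : F, s ^ 2 = 1 ∧ g'.1 = s • g.1 := by
  rw [QuotientGroup.eq, H6.SympPerfect.mem_center_iff] at h
  obtain ⟨s, hs, hu⟩ := h
  refine ⟨s, hs, ?_⟩
  have h1 : (g⁻¹ * g').1 = s • (1 : Matrix (Fin 2 ⊕ Fin 2) (Fin 2 ⊕ Fin 2) F) := by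
    apply Matrix.ext_of_mulVec_single
    intro i
    rw [hu, Matrix.smul_mulVec, Matrix.one_mulVec]
  have h2 : g'.1 = g.1 * (g⁻¹ * g').1 := by
    have h3 : g' = g * (g⁻¹ * g') := by group
    exact congrArg Subtype.val h3
  rw [h2, h1, Matrix.mul_smul, Matrix.mul_one]

theorem mk_eq' {g g' : symplecticGroup (Fin 2) F} {s : F} (hs : s ^ 2 = 1) (h : g'.1 = s • g.1) :
    (QuotientGroup.mk g : Cfsg.PSp 2 F) = QuotientGroup.mk g' := by
  rw [QuotientGroup.eq, H6.SympPerfect.mem_center_iff]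
  refine ⟨s, hs, fun u => ?_⟩
  have h1 : (g⁻¹ * g').1 = s • (1 : Matrix (Fin 2 ⊕ Fin 2) (Fin 2 ⊕ Fin 2) F) := by
    have h2 : (g⁻¹ * g').1 = (g⁻¹).1 * g'.1 := rfl
    have h3 : (g⁻¹).1 * g.1 = 1 := congrArg Subtype.val (inv_mul_cancel g)
    rw [h2, h, Matrix.mul_smul, h3]
  rw [h1, Matrix.smul_mulVec, Matrix.one_mulVec]

/-- entries of `mm` -/
theorem mm_inj {x y k a b c d x' y' k' a' b' c' d' : F}
    (h : mm x y k a b c d = mm x' y' k' a' b' c' d') :
    x = x' ∧ y = y' ∧ k = k' ∧ a = a' ∧ b = b' ∧ c = c' ∧ d = d' := by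
  have e := fun i j => congrFun (congrFun h i) j
  have e1 := e (.inr 1) (.inr 0)
  have e2 := e (.inl 1) (.inr 0)
  have e3 := e (.inl 0) (.inr 0)
  have e4 := e (.inl 1) (.inl 1)
  have e5 := e (.inl 1) (.inr 1)
  have e6 := e (.inr 1) (.inl 1)
  have e7 := e (.inr 1) (.inr 1)
  simp [mm] at e1 e2 e3 e4 e5 e6 e7
  exact ⟨e2, e1, e3, e4, e5, e6, e7⟩

/-- the transvection -/
def tt : symplecticGroup (Fin 2) F := ms 0 0 1 1 0 0 1 (by ring)

theorem tt_val : (tt (F := F)).1 = fromBlocks 1 !![-1, 0; 0, 0] 0 1 := by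
  show mm 0 0 1 1 0 0 1 = _
  unfold mm
  congr 1
  · ext i j; fin_cases i <;> fin_cases j <;> simp
  · ext i j; fin_cases i <;> fin_cases j <;> simp
  · ext i j; fin_cases i <;> fin_cases j <;> simp
  · ext i j; fin_cases i <;> fin_cases j <;> simp

/-- the symplectic relations of the rows -/
theorem rel (g : symplecticGroup (Fin 2) F) (i j : Fin 2 ⊕ Fin 2) :
    g.1 i (.inr 0) * g.1 j (.inl 0) + g.1 i (.inr 1) * g.1 j (.inl 1) -
      g.1 i (.inl 0) * g.1 j (.inr 0) - g.1 i (.inl 1) * g.1 j (.inr 1) = J (Fin 2) F i j := by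
  have h := SymplecticGroup.mem_iff.1 g.2
  have h1 := congrFun (congrFun h i) j
  rw [← h1]
  simp [Matrix.mul_apply, J, Fin.sum_univ_two, Matrix.one_apply]
  ring

/-- the centralizer modulo `±1` -/
theorem read (h2 : (2 : F) ≠ 0) {g : symplecticGroup (Fin 2) F} {s : F} (hs : s ^ 2 = 1)
    (h : (tt * g).1 = s • (g * tt).1) :
    ∃ (x y k a b c d : F) (hd : a * d - b * c = 1) (r : F), r ^ 2 = 1 ∧ g.1 = r • mm x y k a b c d := by
  have ht : (tt (F := F)).1 = fromBlocks 1 !![-1, 0; 0, 0] 0 1 := tt_val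
  have h' : (tt (F := F)).1 * g.1 = s • (g.1 * (tt (F := F)).1) := h
  rw [ht] at h'
  have e := fun i j => congrFun (congrFun h' i) j
  simp only [Matrix.mul_apply, Matrix.smul_apply, Fintype.sum_sum_type, Fin.sum_univ_two, smul_eq_mul] at e
  have e00 := e (.inl 0) (.inl 0)
  have e01 := e (.inl 0) (.inl 1)
  have e02 := e (.inl 0) (.inr 0)
  have e03 := e (.inl 0) (.inr 1)
  have e10 := e (.inl 1) (.inl 0)
  have e11 := e (.inl 1) (.inl 1)
  have e12 := e (.inl 1) (.inr 0)
  have e13 := e (.inl 1) (.inr 1)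
  have e20 := e (.inr 0) (.inl 0)
  have e21 := e (.inr 0) (.inl 1)
  have e22 := e (.inr 0) (.inr 0)
  have e23 := e (.inr 0) (.inr 1)
  have e30 := e (.inr 1) (.inl 0)
  have e31 := e (.inr 1) (.inl 1)
  have e32 := e (.inr 1) (.inr 0)
  have e33 := e (.inr 1) (.inr 1)
  simp at e00 e01 e02 e03 e10 e11 e12 e13 e20 e21 e22 e23 e30 e31 e32 e33
  have r20 := rel g (.inr 0) (.inl 0)
  have r31 := rel g (.inr 1) (.inl 1)
  have r01 := rel g (.inl 0) (.inl 1)
  have r30 := rel g (.inr 1) (.inl 0)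
  simp [J, Matrix.one_apply] at r20 r31 r01 r30
  have hsq : (s - 1) * (s + 1) = 0 := by linear_combination hs
  rcases mul_eq_zero.1 hsq with hs1 | hs1
  · have hs1' : s = 1 := by linear_combination hs1
    subst hs1'
    have g20 : g.1 (.inr 0) (.inl 0) = 0 := by linear_combination - e00
    have g21 : g.1 (.inr 0) (.inl 1) = 0 := by linear_combination - e01
    have g23 : g.1 (.inr 0) (.inr 1) = 0 := by linear_combination - e03
    have g22 : g.1 (.inr 0) (.inr 0) = g.1 (.inl 0) (.inl 0) := by linear_combination - e02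
    have g10 : g.1 (.inl 1) (.inl 0) = 0 := by linear_combination e12
    have g30 : g.1 (.inr 1) (.inl 0) = 0 := by linear_combination e32
    rw [g20, g21, g23, g22] at r20
    rw [g10] at r01 r31
    rw [g30] at r31 r30
    have hr : g.1 (.inl 0) (.inl 0) ^ 2 = 1 := by linear_combination r20
    have g01 : g.1 (.inl 0) (.inl 1) = g.1 (.inl 0) (.inl 0) *
        (g.1 (.inr 1) (.inl 1) * g.1 (.inl 1) (.inr 0) - g.1 (.inl 1) (.inl 1) * g.1 (.inr 1) (.inr 0)) := by
      linear_combination g.1 (.inr 1) (.inl 1) * r01 + g.1 (.inl 1) (.inl 1) * r30 - g.1 (.inl 0) (.inl 1) * r31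
    have g03 : g.1 (.inl 0) (.inr 1) = g.1 (.inl 0) (.inl 0) *
        (g.1 (.inr 1) (.inr 1) * g.1 (.inl 1) (.inr 0) - g.1 (.inl 1) (.inr 1) * g.1 (.inr 1) (.inr 0)) := by
      linear_combination g.1 (.inr 1) (.inr 1) * r01 + g.1 (.inl 1) (.inr 1) * r30 - g.1 (.inl 0) (.inr 1) * r31
    obtain ⟨r, hrr⟩ : ∃ r, r = g.1 (.inl 0) (.inl 0) := ⟨_, rfl⟩
    rw [← hrr] at hr g01 g03 g22
    refine ⟨r * g.1 (.inl 1) (.inr 0), r * g.1 (.inr 1) (.inr 0), - (r * g.1 (.inl 0) (.inr 0)),
      r * g.1 (.inl 1) (.inl 1), r * g.1 (.inl 1) (.inr 1), r * g.1 (.inr 1) (.inl 1), r * g.1 (.inr 1) (.inr 1),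
      ?_, r, hr, ?_⟩
    · linear_combination r ^ 2 * r31 + hr
    · have key : ∀ z : F, r * (r * z) = z := fun z => by linear_combination z * hr
      ext i j
      rcases i with i | i <;> rcases j with j | j <;> fin_cases i <;> fin_cases j <;>
        simp only [mm, Matrix.smul_apply, fromBlocks_apply₁₁, fromBlocks_apply₁₂, fromBlocks_apply₂₁,
          fromBlocks_apply₂₂, smul_eq_mul, Fin.zero_eta, Fin.mk_one, Fin.isValue, Matrix.of_apply,
          Matrix.cons_val', Matrix.cons_val_zero, Matrix.cons_val_one, Matrix.cons_val_fin_one,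
          Matrix.empty_val', neg_neg, key, mul_zero, mul_one]
      · exact hrr.symm
      · rw [g01]; linear_combination - r * (g.1 (.inr 1) (.inl 1) * g.1 (.inl 1) (.inr 0) - g.1 (.inl 1) (.inl 1) * g.1 (.inr 1) (.inr 0)) * hr
      · exact g10
      · rw [g03]; linear_combination - r * (g.1 (.inr 1) (.inr 1) * g.1 (.inl 1) (.inr 0) - g.1 (.inl 1) (.inr 1) * g.1 (.inr 1) (.inr 0)) * hr
      · exact g20
      · exact g21
      · exact g30
      · exact g22
      · exact g23
  · exfalso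
    have hs1' : s = -1 := by linear_combination hs1
    subst hs1'
    have two : ∀ z : F, 2 * z = 0 → z = 0 := fun z hz => (mul_eq_zero.1 hz).resolve_left h2
    have g20 : g.1 (.inr 0) (.inl 0) = 0 := two _ (by linear_combination e20)
    have g21 : g.1 (.inr 0) (.inl 1) = 0 := two _ (by linear_combination e21)
    have g23 : g.1 (.inr 0) (.inr 1) = 0 := two _ (by linear_combination e23)
    have g22 : g.1 (.inr 0) (.inr 0) = 0 := two _ (by linear_combination e22 + g20)
    rw [g20, g21, g23, g22] at r20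
    simp at r20

end gen

theorem two_ne : (2 : ZMod 3) ≠ 0 := by decide

theorem fac (n : ℕ) (hn : n ≠ 0) (h3 : ¬ 3 ∣ n) : Nat.factorization (3 ^ 4 * n) 3 = 4 := by
  rw [Nat.factorization_mul (by norm_num) hn, Nat.Prime.factorization_pow Nat.prime_three]
  simp [Nat.factorization_eq_zero_of_not_dvd h3]

theorem card_sl23 : Nat.card (SpecialLinearGroup (Fin 2) (ZMod 3)) = 24 := by
  rw [Nat.card_eq_fintype_card]
  decide +kernel

theorem main {F : Type*} [Field F] [Fintype F] (hF : Fintype.card F = 3) :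
    ∃ (c : Cfsg.PSp 2 F) (S : Sylow 3 (Cfsg.PSp 2 F)), orderOf c = 3 ∧ c ∈ (S : Subgroup (Cfsg.PSp 2 F)) ∧
      c ∈ Subgroup.centralizer ((S : Subgroup (Cfsg.PSp 2 F)) : Set (Cfsg.PSp 2 F)) ∧
      ∃ Φ : (ZMod 3 × ZMod 3) → ZMod 3 → Matrix.SpecialLinearGroup (Fin 2) (ZMod 3) →
          Subgroup.centralizer ({c} : Set (Cfsg.PSp 2 F)),
        (∀ v k A v' k' A', Φ v k A = Φ v' k' A' → v = v' ∧ k = k' ∧ A = A') ∧
        (∀ g, ∃ v k A, Φ v k A = g) ∧
        ∀ v k A v' k' A', Φ v k A * Φ v' k' A' =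
          Φ (v + (A 0 0 * v'.1 + A 0 1 * v'.2, A 1 0 * v'.1 + A 1 1 * v'.2))
            (k + k' - (v.1 * (A 1 0 * v'.1 + A 1 1 * v'.2) - v.2 * (A 0 0 * v'.1 + A 0 1 * v'.2))) (A * A') := by
  haveI : Fact (Nat.Prime 3) := ⟨Nat.prime_three⟩
  have f : ZMod 3 ≃+* F := ZMod.ringEquivOfPrime F Nat.prime_three hF
  have h2 : (2 : F) ≠ 0 := by
    intro h
    have h1 : f 2 = 0 := by rw [map_ofNat]; exact h
    have h3 : (2 : ZMod 3) = 0 := by
      apply f.injective
      rw [h1, map_zero]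
    exact two_ne h3
  have hdet : ∀ A : SpecialLinearGroup (Fin 2) (ZMod 3), f (A 0 0) * f (A 1 1) - f (A 0 1) * f (A 1 0) = 1 := by
    intro A
    have h := A.2
    rw [Matrix.det_fin_two] at h
    rw [← map_mul, ← map_mul, ← map_sub]
    have h' : A 0 0 * A 1 1 - A 0 1 * A 1 0 = 1 := h
    rw [h', map_one]
  -- lifts to `Sp`
  let φ : (ZMod 3 × ZMod 3) → ZMod 3 → SpecialLinearGroup (Fin 2) (ZMod 3) → symplecticGroup (Fin 2) F :=
    fun v k A => ms (f v.1) (f v.2) (f k) (f (A 0 0)) (f (A 0 1)) (f (A 1 0)) (f (A 1 1)) (hdet A)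
  have φval : ∀ v k A, (φ v k A).1 = mm (f v.1) (f v.2) (f k) (f (A 0 0)) (f (A 0 1)) (f (A 1 0)) (f (A 1 1)) :=
    fun v k A => rfl
  have φmul : ∀ v k A v' k' A', φ v k A * φ v' k' A' =
      φ (v + (A 0 0 * v'.1 + A 0 1 * v'.2, A 1 0 * v'.1 + A 1 1 * v'.2))
        (k + k' - (v.1 * (A 1 0 * v'.1 + A 1 1 * v'.2) - v.2 * (A 0 0 * v'.1 + A 0 1 * v'.2))) (A * A') := by
    intro v k A v' k' A'
    apply Subtype.ext
    have h1 : (φ v k A * φ v' k' A').1 = (φ v k A).1 * (φ v' k' A').1 := rfl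
    rw [h1, φval, φval, φval, mm_mul (hdet A)]
    have hA : ∀ i j, (A * A') i j = A i 0 * A' 0 j + A i 1 * A' 1 j := by
      intro i j
      show (A.1 * A'.1) i j = _
      rw [Matrix.mul_apply, Fin.sum_univ_two]
    simp only [hA, map_add, map_mul, map_sub, Prod.fst_add, Prod.snd_add]
  have φinj : ∀ v k A v' k' A', (φ v k A).1 = (φ v' k' A').1 → v = v' ∧ k = k' ∧ A = A' := by
    intro v k A v' k' A' h
    rw [φval, φval] at h
    obtain ⟨h1, h2, h3, h4, h5, h6, h7⟩ := mm_inj h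
    refine ⟨Prod.ext (f.injective h1) (f.injective h2), f.injective h3, ?_⟩
    ext i j
    fin_cases i <;> fin_cases j
    · exact f.injective h4
    · exact f.injective h5
    · exact f.injective h6
    · exact f.injective h7
  have φtt : φ (0, 0) 1 1 = tt := by
    apply Subtype.ext
    rw [φval]
    show mm _ _ _ _ _ _ _ = mm 0 0 1 1 0 0 1
    simp
  have φone : φ (0, 0) 0 1 = 1 := by
    apply Subtype.ext
    rw [φval]
    show mm _ _ _ _ _ _ _ = 1
    rw [← fromBlocks_one]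
    unfold mm
    congr 1
    all_goals
      ext i j
      fin_cases i <;> fin_cases j <;> simp
  have φcomm : ∀ v k A, φ v k A * φ (0, 0) 1 1 = φ (0, 0) 1 1 * φ v k A := by
    intro v k A
    rw [φmul, φmul]
    congr 1
    · ext <;> simp
    · simp [add_comm]
    · simp
  set c : Cfsg.PSp 2 F := QuotientGroup.mk (φ (0, 0) 1 1) with hc
  have hcent : ∀ v k A, (QuotientGroup.mk (φ v k A) : Cfsg.PSp 2 F) ∈ Subgroup.centralizer ({c} : Set (Cfsg.PSp 2 F)) := by
    intro v k A
    rw [Subgroup.mem_centralizer_singleton_iff, hc, ← QuotientGroup.mk_mul, ← QuotientGroup.mk_mul, φcomm]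
  let Φ : (ZMod 3 × ZMod 3) → ZMod 3 → SpecialLinearGroup (Fin 2) (ZMod 3) →
      Subgroup.centralizer ({c} : Set (Cfsg.PSp 2 F)) := fun v k A => ⟨QuotientGroup.mk (φ v k A), hcent v k A⟩
  have Φinj : ∀ v k A v' k' A', Φ v k A = Φ v' k' A' → v = v' ∧ k = k' ∧ A = A' := by
    intro v k A v' k' A' h
    obtain ⟨s, hs, h1⟩ := mk_eq (congrArg Subtype.val h)
    have h3 : s = 1 := by
      have := congrFun (congrFun h1 (.inl 0)) (.inl 0)
      rw [φval, φval] at this
      simpa [mm] using this.symm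
    rw [h3, one_smul] at h1
    exact φinj _ _ _ _ _ _ h1.symm
  have Φsurj : ∀ g, ∃ v k A, Φ v k A = g := by
    rintro ⟨g, hg⟩
    obtain ⟨g0, rfl⟩ := QuotientGroup.mk_surjective g
    rw [Subgroup.mem_centralizer_singleton_iff, hc, ← QuotientGroup.mk_mul, ← QuotientGroup.mk_mul] at hg
    obtain ⟨s, hs, h1⟩ := mk_eq hg
    rw [φtt] at h1
    obtain ⟨x, y, k, a, b, c', d, hd, r, hr, h3⟩ := read h2 hs h1
    obtain ⟨x, rfl⟩ := f.surjective x
    obtain ⟨y, rfl⟩ := f.surjective y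
    obtain ⟨k, rfl⟩ := f.surjective k
    obtain ⟨a, rfl⟩ := f.surjective a
    obtain ⟨b, rfl⟩ := f.surjective b
    obtain ⟨c', rfl⟩ := f.surjective c'
    obtain ⟨d, rfl⟩ := f.surjective d
    have hd' : a * d - b * c' = 1 := by
      apply f.injective
      rw [map_sub, map_mul, map_mul, map_one]
      exact hd
    refine ⟨(x, y), k, ⟨!![a, b; c', d], by rw [Matrix.det_fin_two_of]; exact hd'⟩, ?_⟩
    apply Subtype.ext
    exact mk_eq' hr h3
  have Φmul : ∀ v k A v' k' A', Φ v k A * Φ v' k' A' =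
      Φ (v + (A 0 0 * v'.1 + A 0 1 * v'.2, A 1 0 * v'.1 + A 1 1 * v'.2))
        (k + k' - (v.1 * (A 1 0 * v'.1 + A 1 1 * v'.2) - v.2 * (A 0 0 * v'.1 + A 0 1 * v'.2))) (A * A') := by
    intro v k A v' k' A'
    apply Subtype.ext
    show (QuotientGroup.mk (φ v k A) : Cfsg.PSp 2 F) * QuotientGroup.mk (φ v' k' A') = QuotientGroup.mk (φ _ _ _)
    rw [← QuotientGroup.mk_mul, φmul]
  -- the order of `c`
  have hc3 : orderOf c = 3 := by
    apply orderOf_eq_prime
    · have e2 : φ (0, 0) 1 1 * φ (0, 0) 1 1 = φ (0, 0) 2 1 := by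
        rw [φmul]
        have h5 : (1 : ZMod 3) + 1 = 2 := rfl
        congr 1
        all_goals first | rfl | (simp [h5]; done) | (ext <;> simp)
      have e3 : φ (0, 0) 2 1 * φ (0, 0) 1 1 = φ (0, 0) 0 1 := by
        rw [φmul]
        have h5 : (2 : ZMod 3) + 1 = 0 := rfl
        congr 1
        all_goals first | rfl | (simp [h5]; done) | (ext <;> simp)
      rw [hc, ← QuotientGroup.mk_pow, pow_succ, pow_two, e2, e3, φone, QuotientGroup.mk_one]
    · intro h
      rw [hc, ← QuotientGroup.mk_one] at h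
      obtain ⟨s, hs, h1⟩ := mk_eq h
      rw [φtt, tt_val] at h1
      have h3 := congrFun (congrFun h1 (.inl 0)) (.inr 0)
      have h4 : s = 0 := by
        simpa [Matrix.one_apply] using h3
      rw [h4] at hs
      simp at hs
  -- orders
  have hcardC : Nat.card (Subgroup.centralizer ({c} : Set (Cfsg.PSp 2 F))) = 648 := by
    have h1 : Nat.card (((ZMod 3 × ZMod 3) × ZMod 3) × SpecialLinearGroup (Fin 2) (ZMod 3)) =
        Nat.card (Subgroup.centralizer ({c} : Set (Cfsg.PSp 2 F))) := by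
      apply Nat.card_eq_of_bijective (fun t => Φ t.1.1 t.1.2 t.2)
      constructor
      · rintro ⟨⟨v, k⟩, A⟩ ⟨⟨v', k'⟩, A'⟩ h
        obtain ⟨rfl, rfl, rfl⟩ := Φinj _ _ _ _ _ _ h
        rfl
      · intro g
        obtain ⟨v, k, A, h⟩ := Φsurj g
        exact ⟨((v, k), A), h⟩
    rw [← h1, Nat.card_prod, Nat.card_prod, Nat.card_prod, Nat.card_zmod, card_sl23]
  have hcardG : Nat.card (Cfsg.PSp 2 F) = 25920 := by
    have h1 := H6.SympCard.card_symplecticGroup (l := Fin 2) (F := F)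
    have h3 := H6.SympPerfect.card_center (l := Fin 2) (F := F)
    have h4 : Nat.card (symplecticGroup (Fin 2) F) = Nat.card (Cfsg.PSp 2 F) *
        Nat.card (Subgroup.center (symplecticGroup (Fin 2) F)) := Subgroup.card_eq_card_quotient_mul_card_subgroup _
    rw [h1, h3, Nat.card_eq_fintype_card, hF] at h4
    simp [Finset.prod_range_succ] at h4
    omega
  obtain ⟨T⟩ : Nonempty (Sylow 3 (Subgroup.centralizer ({c} : Set (Cfsg.PSp 2 F)))) := inferInstance
  have hTc : Nat.card T = 3 ^ 4 := by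
    rw [Sylow.card_eq_multiplicity, hcardC]
    have : Nat.factorization 648 3 = 4 := fac 8 (by norm_num) (by norm_num)
    rw [this]
  let S0 : Subgroup (Cfsg.PSp 2 F) := (T : Subgroup ↥(Subgroup.centralizer ({c} : Set (Cfsg.PSp 2 F)))).map
    (Subgroup.subtype (Subgroup.centralizer ({c} : Set (Cfsg.PSp 2 F))))
  have hS0c : Nat.card S0 = 3 ^ (Nat.card (Cfsg.PSp 2 F)).factorization 3 := by
    have h1 : Nat.card S0 = Nat.card T := Subgroup.card_map_of_injective (Subgroup.subtype_injective _)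
    rw [h1, hTc, hcardG]
    have : Nat.factorization 25920 3 = 4 := fac 320 (by norm_num) (by norm_num)
    rw [this]
  let S : Sylow 3 (Cfsg.PSp 2 F) := Sylow.ofCard S0 hS0c
  have hcC : c ∈ Subgroup.centralizer ({c} : Set (Cfsg.PSp 2 F)) := by
    rw [Subgroup.mem_centralizer_singleton_iff]
  have hcT : (⟨c, hcC⟩ : Subgroup.centralizer ({c} : Set (Cfsg.PSp 2 F))) ∈ T := by
    obtain ⟨c', hc'⟩ : ∃ c' : Subgroup.centralizer ({c} : Set (Cfsg.PSp 2 F)), c' = ⟨c, hcC⟩ := ⟨_, rfl⟩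
    rw [← hc']
    have hcomm : ∀ u : Subgroup.centralizer ({c} : Set (Cfsg.PSp 2 F)), u * c' = c' * u := by
      rintro ⟨u, hu⟩
      rw [hc']
      exact Subtype.ext (Subgroup.mem_centralizer_singleton_iff.1 hu)
    have hN : (Subgroup.zpowers c').Normal := by
      constructor
      intro n hn g
      obtain ⟨i, rfl⟩ := Subgroup.mem_zpowers_iff.1 hn
      have h1 : Commute g c' := hcomm g
      rw [(h1.zpow_right i).eq, mul_inv_cancel_right]
      exact hn
    have hc3' : c' ^ 3 = 1 := by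
      rw [hc']
      apply Subtype.ext
      show c ^ 3 = 1
      rw [← hc3, pow_orderOf_eq_one]
    have hp : IsPGroup 3 (Subgroup.zpowers c') := by
      rintro ⟨u, hu⟩
      refine ⟨1, ?_⟩
      obtain ⟨i, rfl⟩ := Subgroup.mem_zpowers_iff.1 hu
      apply Subtype.ext
      show (c' ^ i) ^ (3 ^ 1) = 1
      rw [pow_one, ← _root_.zpow_natCast, ← _root_.zpow_mul, mul_comm, _root_.zpow_mul]
      rw [show c' ^ ((3 : ℕ) : ℤ) = 1 by rw [_root_.zpow_natCast, hc3'], _root_.one_zpow]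
    have h5 := T.is_maximal' (T.2.to_sup_of_normal_right hp) le_sup_left
    have h6 : c' ∈ ((T : Subgroup ↥(Subgroup.centralizer ({c} : Set (Cfsg.PSp 2 F)))) ⊔ Subgroup.zpowers c') :=
      Subgroup.mem_sup_right (Subgroup.mem_zpowers c')
    rw [h5] at h6
    exact h6
  refine ⟨c, S, hc3, ?_, ?_, Φ, Φinj, Φsurj, Φmul⟩
  · exact ⟨⟨c, hcC⟩, hcT, rfl⟩
  · rw [Subgroup.mem_centralizer_iff]
    rintro _ ⟨⟨u, hu⟩, huT, rfl⟩
    exact Subgroup.mem_centralizer_singleton_iff.1 hu

end H11.SPY
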