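import Mathlib
import Cfsg.Agent.Lib.H55.BaerSuzuki
import Cfsg.Agent.Lib.H17.FourGrp
import Cfsg.Agent.Lib.H5.ZStar
import Cfsg.Agent.Lib.H29.OddFinal

/-! Finite simple groups in which noncyclic subgroups are self-centralizing: centralizers of
involutions are 2-groups. -/

open Subgroup

universe u

namespace H11.SelfCent

/-- every noncyclic subgroup is self-centralizing -/
def SC (G : Type*) [Group G] : Prop :=
  ∀ H : Subgroup G, ¬ IsCyclic H → Subgroup.centralizer (H : Set G) ≤ H

section
variable {G : Type u} [Group G]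

theorem four_not_cyclic {V : Subgroup G} (hV : IsKleinFour V) : ¬ IsCyclic V := by
  intro h
  exact IsKleinFour.not_isCyclic h

theorem SC.four (h : SC G) {a b : G} (hab : H17.FourGrp.IsPair a b) {c : G} (hca : c * a = a * c)
    (hcb : c * b = b * c) : c = 1 ∨ c = a ∨ c = b ∨ c = a * b := by
  have h1 := h (H17.FourGrp.four a b hab) (four_not_cyclic (H17.FourGrp.isKlein_four hab))
  have h2 : c ∈ centralizer ((H17.FourGrp.four a b hab : Subgroup G) : Set G) := by
    rw [Subgroup.mem_centralizer_iff]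
    rintro x (rfl | rfl | rfl | rfl)
    · rw [one_mul, mul_one]
    · exact hca.symm
    · exact hcb.symm
    · rw [mul_assoc, ← hcb, ← mul_assoc, ← hca, mul_assoc]
  exact h1 h2

/-- no involution commuting with `t` inverts an element of odd order commuting with `t` -/
theorem SC.no_inv [Finite G] (h : SC G) {t v x : G} (hp : H17.FourGrp.IsPair t v)
    (hxt : x * t = t * x) (hodd : Odd (orderOf x)) (hinv : v * x * v⁻¹ = x⁻¹) : x = 1 := by
  by_contra hx1
  -- `H = ⟨x, v⟩`
  let H : Subgroup G := closure {x, v}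
  have hxH : x ∈ H := subset_closure (by simp)
  have hvH : v ∈ H := subset_closure (by simp)
  have hnc : ¬ IsCyclic H := by
    intro hc
    have h1 : (⟨x, hxH⟩ : H) * ⟨v, hvH⟩ = ⟨v, hvH⟩ * ⟨x, hxH⟩ := by
      let _ := hc.commGroup
      exact mul_comm _ _
    have h2 : x * v = v * x := congrArg Subtype.val h1
    have h3 : v * x * v⁻¹ = x := by rw [← h2, mul_inv_cancel_right]
    rw [h3] at hinv
    have h4 : x ^ 2 = 1 := by rw [pow_two]; nth_rewrite 1 [hinv]; exact inv_mul_cancel x
    have h5 := orderOf_dvd_of_pow_eq_one h4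
    obtain ⟨k, hk⟩ := hodd
    have h6 : orderOf x ≤ 2 := Nat.le_of_dvd (by norm_num) h5
    have h7 : orderOf x = 1 := by omega
    exact hx1 (orderOf_eq_one_iff.mp h7)
  have htc : t ∈ centralizer (H : Set G) := by
    have h1 : H ≤ centralizer ({t} : Set G) := by
      rw [closure_le]
      rintro y (rfl | rfl)
      · exact mem_centralizer_singleton_iff.mpr hxt
      · exact mem_centralizer_singleton_iff.mpr hp.hcomm.symm
    rw [Subgroup.mem_centralizer_iff]
    intro y hy
    exact mem_centralizer_singleton_iff.mp (h1 hy)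
  have htH := h H hnc htc
  -- elements of `H` have the form `x^i` or `x^i v`
  have hform : ∀ y ∈ H, (∃ i : ℤ, y = x ^ i) ∨ ∃ i : ℤ, y = x ^ i * v := by
    have hvx : ∀ i : ℤ, v * x ^ i = x ^ (-i) * v := by
      intro i
      have h1 : v * x ^ i * v⁻¹ = x ^ (-i) := by
        have h2 : v * x ^ i * v⁻¹ = (v * x * v⁻¹) ^ i := conj_zpow.symm
        rw [h2, hinv, inv_zpow, zpow_neg]
      rw [← h1, inv_mul_cancel_right]
    have hvv : v * v = 1 := hp.hbb
    let K : Subgroup G :=
      { carrier := {y | (∃ i : ℤ, y = x ^ i) ∨ ∃ i : ℤ, y = x ^ i * v}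
        one_mem' := Or.inl ⟨0, by rw [zpow_zero]⟩
        mul_mem' := by
          rintro _ _ (⟨i, rfl⟩ | ⟨i, rfl⟩) (⟨j, rfl⟩ | ⟨j, rfl⟩)
          · exact Or.inl ⟨i + j, by rw [zpow_add]⟩
          · exact Or.inr ⟨i + j, by rw [zpow_add, mul_assoc]⟩
          · refine Or.inr ⟨i - j, ?_⟩
            rw [mul_assoc, hvx, ← mul_assoc, ← zpow_add, sub_eq_add_neg]
          · refine Or.inl ⟨i - j, ?_⟩
            calc x ^ i * v * (x ^ j * v) = x ^ i * (v * x ^ j) * v := by group
              _ = x ^ i * (x ^ (-j) * v) * v := by rw [hvx]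
              _ = (x ^ i * x ^ (-j)) * (v * v) := by group
              _ = x ^ (i - j) := by rw [hvv, mul_one, ← zpow_add, sub_eq_add_neg]
        inv_mem' := by
          rintro _ (⟨i, rfl⟩ | ⟨i, rfl⟩)
          · exact Or.inl ⟨-i, by rw [zpow_neg]⟩
          · refine Or.inr ⟨i, ?_⟩
            have hvi : v⁻¹ = v := inv_eq_of_mul_eq_one_left hvv
            rw [mul_inv_rev, hvi, ← zpow_neg, hvx, neg_neg] }
    have hHK : H ≤ K := by
      rw [closure_le]
      rintro y (rfl | rfl)
      · exact Or.inl ⟨1, by rw [zpow_one]⟩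
      · exact Or.inr ⟨0, by rw [zpow_zero, one_mul]⟩
    exact fun y hy => hHK hy
  rcases hform t htH with ⟨i, hi⟩ | ⟨i, hi⟩
  · -- odd order
    have h1 : orderOf t ∣ orderOf x := by
      rw [hi]; exact orderOf_dvd_of_pow_eq_one (by rw [← zpow_natCast, ← zpow_mul, mul_comm, zpow_mul, zpow_natCast, pow_orderOf_eq_one, one_zpow])
    have h2 : orderOf t = 2 := by
      have := Fact.mk Nat.prime_two
      exact orderOf_eq_prime (by rw [pow_two]; exact hp.haa) hp.ha
    rw [h2] at h1
    obtain ⟨k, hk⟩ := hodd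
    omega
  · -- `x` commutes with `v`
    have hvx : x * v = v * x := by
      have h1 : v = (x ^ i)⁻¹ * t := by rw [hi]; group
      have hc1 : Commute x t := hxt
      have hc2 : Commute x (x ^ i)⁻¹ := ((Commute.refl x).zpow_right i).inv_right
      have hc3 : Commute x ((x ^ i)⁻¹ * t) := hc2.mul_right hc1
      rw [← h1] at hc3
      exact hc3.eq
    have h3 : v * x * v⁻¹ = x := by rw [← hvx, mul_inv_cancel_right]
    rw [h3] at hinv
    have h4 : x ^ 2 = 1 := by rw [pow_two]; nth_rewrite 1 [hinv]; exact inv_mul_cancel x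
    have h5 := orderOf_dvd_of_pow_eq_one h4
    obtain ⟨k, hk⟩ := hodd
    have h6 : orderOf x ≤ 2 := Nat.le_of_dvd (by norm_num) h5
    have h7 : orderOf x = 1 := by omega
    exact hx1 (orderOf_eq_one_iff.mp h7)

end

theorem card_class {C : Type*} [Group C] [Finite C] (v : C) :
    Nat.card {c : C // ∃ g, g * v * g⁻¹ = c} * Nat.card (centralizer ({v} : Set C)) = Nat.card C := by
  have h1 : {c : C | ∃ g, g * v * g⁻¹ = c} = MulAction.orbit (ConjAct C) v := by
    ext c
    constructor
    · rintro ⟨g, rfl⟩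
      exact ⟨ConjAct.toConjAct g, ConjAct.smul_def _ _⟩
    · rintro ⟨g, rfl⟩
      exact ⟨ConjAct.ofConjAct g, (ConjAct.smul_def _ _).symm⟩
  have h2 : Nat.card {c : C // ∃ g, g * v * g⁻¹ = c} = (MulAction.stabilizer (ConjAct C) v).index := by
    rw [MulAction.index_stabilizer, ← h1]
    rfl
  rw [h2, Subgroup.nat_card_centralizer_nat_card_stabilizer, mul_comm, Subgroup.card_mul_index]
  rfl

/-- the counting argument -/
theorem isPGroup_of_count {C : Type*} [Group C] [Finite C] {t v : C} (ht : ∀ c, c * t = t * c)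
    (hp : H17.FourGrp.IsPair t v)
    (hcent : ∀ c, c * v = v * c → c = 1 ∨ c = t ∨ c = v ∨ c = t * v)
    {P : Subgroup C} (hPn : P.Normal) (hP2 : IsPGroup 2 P) (htP : t ∈ P) (hvP : v ∈ P) :
    IsPGroup 2 C := by
  classical
  have := Fintype.ofFinite C
  -- the centralizer of `v` has order 4
  have h4 : Nat.card (centralizer ({v} : Set C)) = 4 := by
    have h1 : centralizer ({v} : Set C) = H17.FourGrp.four t v hp := by
      ext c
      rw [mem_centralizer_singleton_iff]
      constructor
      · intro hc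
        exact hcent c hc
      · rintro (rfl | rfl | rfl | rfl)
        · rw [one_mul, mul_one]
        · exact hp.hcomm
        · rfl
        · rw [mul_assoc, ← mul_assoc v, ← hp.hcomm, mul_assoc]
    rw [h1, H17.FourGrp.card_four]
  -- the class of `v`
  let Ω : Finset C := Finset.univ.filter (fun c => ∃ g, g * v * g⁻¹ = c)
  have hΩc : Ω.card * 4 = Nat.card C := by
    rw [← h4, ← card_class v]
    congr 1
    rw [Nat.card_eq_fintype_card, Fintype.card_subtype]
  have hΩP : ∀ c ∈ Ω, c ∈ P ∧ c * c = 1 ∧ c ≠ 1 ∧ c ≠ t := by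
    intro c hc
    obtain ⟨g, rfl⟩ := (Finset.mem_filter.mp hc).2
    refine ⟨hPn.conj_mem v hvP g, ?_, ?_, ?_⟩
    · calc g * v * g⁻¹ * (g * v * g⁻¹) = g * (v * v) * g⁻¹ := by group
        _ = 1 := by rw [hp.hbb]; group
    · intro h1
      apply hp.hb
      calc v = g⁻¹ * (g * v * g⁻¹) * g := by group
        _ = 1 := by rw [h1]; group
    · intro h1
      apply hp.hab
      calc t = g⁻¹ * (g * t) := by group
        _ = g⁻¹ * (t * g) := by rw [ht g]
        _ = g⁻¹ * ((g * v * g⁻¹) * g) := by rw [h1]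
        _ = v := by group
  let Pf : Finset C := Finset.univ.filter (fun c => c ∈ P)
  have hPf : Pf.card = Nat.card P := by
    rw [Nat.card_eq_fintype_card, Fintype.card_subtype]
  have hsub : insert 1 (insert t Ω) ⊆ Pf := by
    intro c hc
    rw [Finset.mem_insert, Finset.mem_insert] at hc
    rw [Finset.mem_filter]
    refine ⟨Finset.mem_univ _, ?_⟩
    rcases hc with rfl | rfl | hc
    · exact P.one_mem
    · exact htP
    · exact (hΩP c hc).1
  have hcard2 : Ω.card + 2 ≤ Nat.card P := by
    rw [← hPf]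
    have h1 : (insert 1 (insert t Ω)).card = Ω.card + 2 := by
      rw [Finset.card_insert_of_notMem, Finset.card_insert_of_notMem]
      · intro h1; exact (hΩP t h1).2.2.2 rfl
      · rw [Finset.mem_insert]
        rintro (h1 | h1)
        · exact hp.ha h1.symm
        · exact (hΩP 1 h1).2.2.1 rfl
    rw [← h1]
    exact Finset.card_le_card hsub
  -- the index of `P`
  have hidx := Subgroup.card_mul_index P
  have hi4 : P.index < 4 := by
    by_contra hcon
    push Not at hcon
    have h1 : Nat.card P * 4 ≤ Nat.card P * P.index := Nat.mul_le_mul_left _ hcon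
    omega
  have hi0 : P.index ≠ 0 := Subgroup.index_ne_zero_of_finite
  obtain ⟨k, hk⟩ := IsPGroup.iff_card.mp hP2
  have h3 : P.index ≠ 3 := by
    intro h3
    rw [h3] at hidx
    -- `4 |Ω| = 3 |P|`
    have h5 : 4 * Ω.card = 3 * Nat.card P := by omega
    let Ω' : Finset C := Ω.image (fun c => v * c)
    have hΩ' : Ω'.card = Ω.card := Finset.card_image_of_injective _ (mul_right_injective v)
    have hsub2 : Ω ∪ Ω' ⊆ Pf := by
      intro c hc
      rw [Finset.mem_filter]
      refine ⟨Finset.mem_univ _, ?_⟩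
      rcases Finset.mem_union.mp hc with hc | hc
      · exact (hΩP c hc).1
      · obtain ⟨d, hd, rfl⟩ := Finset.mem_image.mp hc
        exact P.mul_mem hvP (hΩP d hd).1
    have h6 := Finset.card_union_add_card_inter Ω Ω'
    have h7 := Finset.card_le_card hsub2
    rw [hPf] at h7
    -- elements of the intersection commute with `v`
    have h8 : insert 1 (insert v (Ω ∩ Ω')) ⊆ Finset.univ.filter (fun c => c ∈ centralizer ({v} : Set C)) := by
      intro c hc
      rw [Finset.mem_filter]
      refine ⟨Finset.mem_univ _, ?_⟩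
      rw [mem_centralizer_singleton_iff]
      rw [Finset.mem_insert, Finset.mem_insert] at hc
      rcases hc with rfl | rfl | hc
      · rw [one_mul, mul_one]
      · rfl
      · obtain ⟨hc1, hc2⟩ := Finset.mem_inter.mp hc
        obtain ⟨d, hd, rfl⟩ := Finset.mem_image.mp hc2
        have e1 := (hΩP _ hc1).2.1
        have e2 := (hΩP _ hd).2.1
        -- `(v d)² = 1`, `d² = 1`, `v² = 1` so `v d = d v`
        have e3 : v * d = d * v := by
          have i1 : (v * d)⁻¹ = v * d := inv_eq_of_mul_eq_one_left e1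
          have i2 : d⁻¹ = d := inv_eq_of_mul_eq_one_left e2
          have i3 : v⁻¹ = v := inv_eq_of_mul_eq_one_left hp.hbb
          rw [mul_inv_rev, i2, i3] at i1
          exact i1.symm
        calc v * d * v = v * (d * v) := by group
          _ = v * (v * d) := by rw [e3]
    have h9 : (insert 1 (insert v (Ω ∩ Ω'))).card = (Ω ∩ Ω').card + 2 := by
      rw [Finset.card_insert_of_notMem, Finset.card_insert_of_notMem]
      · intro h1
        obtain ⟨-, hc2⟩ := Finset.mem_inter.mp h1
        obtain ⟨d, hd, hd2⟩ := Finset.mem_image.mp hc2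
        have : d = 1 := mul_eq_left.mp hd2
        exact (hΩP d hd).2.2.1 this
      · rw [Finset.mem_insert]
        rintro (h1 | h1)
        · exact hp.hb h1.symm
        · exact (hΩP 1 (Finset.mem_inter.mp h1).1).2.2.1 rfl
    have h10 := Finset.card_le_card h8
    rw [h9] at h10
    have h11 : (Finset.univ.filter (fun c => c ∈ centralizer ({v} : Set C))).card = 4 := by
      rw [← h4, Nat.card_eq_fintype_card, Fintype.card_subtype]
    rw [h11] at h10
    omega
  have h12 : P.index = 1 ∨ P.index = 2 := by omega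
  have hC : ∃ n, Nat.card C = 2 ^ n := by
    rcases h12 with h | h
    · exact ⟨k, by rw [← hidx, h, hk, mul_one]⟩
    · exact ⟨k + 1, by rw [← hidx, h, hk, pow_succ]⟩
  obtain ⟨n, hn⟩ := hC
  have := Fact.mk Nat.prime_two
  exact IsPGroup.of_card hn

section
variable {G : Type u} [Group G] [Finite G]

theorem exists_pair [IsSimpleGroup G] (hG : ¬ IsCyclic G) (t : G) (ht : orderOf t = 2) :
    ∃ v, H17.FourGrp.IsPair t v := by
  have := Fact.mk Nat.prime_two
  obtain ⟨E, hE⟩ := H5.ZStar5.exists_klein H5.ZStar.zhyp (fun H _ _ hH => H29.OddFinal.odd_order hH) hG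
  have htt : t * t = 1 := by rw [← pow_two, ← ht]; exact pow_orderOf_eq_one t
  have ht1 : t ≠ 1 := by rintro rfl; rw [orderOf_one] at ht; omega
  -- a Sylow subgroup containing `t`
  have htP : IsPGroup 2 (zpowers t) := IsPGroup.of_card (n := 1) (by rw [Nat.card_zpowers, ht, pow_one])
  obtain ⟨S, hS⟩ := htP.exists_le_sylow
  have htS : t ∈ S := hS (mem_zpowers t)
  have hEP : IsPGroup 2 E := IsPGroup.of_card (n := 2) (by rw [hE.card_four]; norm_num)
  obtain ⟨T, hT⟩ := hEP.exists_le_sylow
  obtain ⟨g, hg⟩ := MulAction.exists_smul_eq G T S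
  -- the centre of `S`
  have hnt : Nontrivial (S : Subgroup G) := ⟨⟨⟨t, htS⟩, 1, fun h => ht1 (congrArg Subtype.val h)⟩⟩
  have hcen : Nontrivial (center (S : Subgroup G)) := S.isPGroup'.center_nontrivial
  have hcP : IsPGroup 2 (center (S : Subgroup G)) := S.isPGroup'.to_subgroup _
  have h2 : 2 ∣ Nat.card (center (S : Subgroup G)) := by
    obtain ⟨n, hn⟩ := IsPGroup.iff_card.mp hcP
    rw [hn]
    apply dvd_pow_self
    rintro rfl
    have := Finite.one_lt_card_iff_nontrivial.mpr hcen
    omega
  obtain ⟨⟨z, hz⟩, hz2⟩ := exists_prime_orderOf_dvd_card' 2 h2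
  rw [Subgroup.orderOf_mk] at hz2
  have hz2' : orderOf (z : G) = 2 := by rw [Subgroup.orderOf_coe]; exact hz2
  have hzz : (z : G) * z = 1 := by
    have h := pow_orderOf_eq_one (z : G)
    rw [hz2', pow_two] at h
    exact h
  have hz1 : (z : G) ≠ 1 := by intro h; rw [h, orderOf_one] at hz2'; omega
  have hzc : ∀ s ∈ S, s * (z : G) = z * s := by
    intro s hs
    exact congrArg Subtype.val (Subgroup.mem_center_iff.mp hz ⟨s, hs⟩)
  by_cases htz : t = z
  · -- another involution
    obtain ⟨v, hv, hv1, hvt⟩ : ∃ v : G, v ∈ S ∧ v * v = 1 ∧ v ≠ 1 ∧ v ≠ t := by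
      -- two elements of `E`
      have hE3 : ∀ y : G, ∃ x ∈ E, x ≠ 1 ∧ x ≠ y := by
        intro y
        by_contra hcon
        push Not at hcon
        have h1 : (E : Set G) ⊆ {1, y} := by
          intro x hx
          by_cases hx1 : x = 1
          · exact Or.inl hx1
          · exact Or.inr (hcon x hx hx1)
        have h2 : Nat.card E ≤ 2 := by
          have h3 := Set.ncard_le_ncard h1 (Set.toFinite _)
          have h4 : (E : Set G).ncard = Nat.card E := rfl
          have h5 : ({1, y} : Set G).ncard ≤ 2 := Set.ncard_insert_le 1 {y} |>.trans (by rw [Set.ncard_singleton])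
          omega
        rw [hE.card_four] at h2
        omega
      obtain ⟨x, hx, hx1, hxy⟩ := hE3 (g⁻¹ * t * g)
      refine ⟨g * x * g⁻¹, ?_, ?_, ?_, ?_⟩
      · have h1 : g * x * g⁻¹ ∈ ((g • T : Sylow 2 G) : Subgroup G) :=
          Subgroup.smul_mem_pointwise_smul x (MulAut.conj g) (T : Subgroup G) (hT hx)
        rw [hg] at h1
        exact h1
      · have hxx : x * x = 1 := congrArg Subtype.val (hE.mul_self (⟨x, hx⟩ : E))
        calc g * x * g⁻¹ * (g * x * g⁻¹) = g * (x * x) * g⁻¹ := by group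
          _ = 1 := by rw [hxx]; group
      · intro h1
        apply hx1
        calc x = g⁻¹ * (g * x * g⁻¹) * g := by group
          _ = 1 := by rw [h1]; group
      · intro h1
        apply hxy
        rw [← h1]; group
    exact ⟨v, ⟨ht1, hvt.1, fun h => hvt.2 h.symm, htt, hv1, by rw [htz]; exact (hzc v hv).symm⟩⟩
  · exact ⟨z, ⟨ht1, hz1, htz, htt, hzz, hzc t htS⟩⟩

theorem SC.cit (h : SC G) [IsSimpleGroup G] (hG : ¬ IsCyclic G) (t : G) (ht : orderOf t = 2) :
    IsPGroup 2 (centralizer ({t} : Set G)) := by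
  obtain ⟨v, hp⟩ := exists_pair hG t ht
  set C := centralizer ({t} : Set G) with hC
  have hvC : v ∈ C := mem_centralizer_singleton_iff.mpr hp.hcomm.symm
  have htC : t ∈ C := mem_centralizer_singleton_iff.mpr rfl
  have hmem : ∀ c : C, (c : G) * t = t * c := fun c => mem_centralizer_singleton_iff.mp c.2
  let tC : C := ⟨t, htC⟩
  let vC : C := ⟨v, hvC⟩
  have hpC : H17.FourGrp.IsPair tC vC := ⟨fun h1 => hp.ha (congrArg Subtype.val h1),
    fun h1 => hp.hb (congrArg Subtype.val h1), fun h1 => hp.hab (congrArg Subtype.val h1),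
    Subtype.ext hp.haa, Subtype.ext hp.hbb, Subtype.ext hp.hcomm⟩
  obtain ⟨N, hN, hN2, hvN⟩ := H55.BaerSuzuki.exists_normal_of_involution vC (Subtype.ext hp.hbb) (by
    intro x hodd hinv
    have h1 := h.no_inv hp (x := (x : G)) (hmem x) (by rw [Subgroup.orderOf_coe]; exact hodd)
      (congrArg Subtype.val hinv)
    exact Subtype.ext h1)
  -- the normal subgroup generated with `t`
  let T : Subgroup C := zpowers tC
  have hTc : ∀ c : C, c * tC = tC * c := fun c => Subtype.ext (hmem c)
  have hTn : T.Normal := by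
    refine ⟨?_⟩
    rintro _ ⟨i, rfl⟩ g
    refine ⟨i, ?_⟩
    have h1 : Commute g (tC ^ i) := (show Commute g tC from hTc g).zpow_right i
    change tC ^ i = g * tC ^ i * g⁻¹
    rw [h1.eq, mul_inv_cancel_right]
  have := Fact.mk Nat.prime_two
  have hT2 : IsPGroup 2 T := IsPGroup.of_card (n := 1) (by
    rw [Nat.card_zpowers, Subgroup.orderOf_mk, ht, pow_one])
  have hP2 : IsPGroup 2 (N ⊔ T : Subgroup C) := hN2.to_sup_of_normal_right hT2
  refine isPGroup_of_count (t := tC) (v := vC) hTc hpC ?_ (P := N ⊔ T) inferInstance hP2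
    ((le_sup_right : T ≤ N ⊔ T) (mem_zpowers tC)) ((le_sup_left : N ≤ N ⊔ T) hvN)
  intro c hc
  rcases h.four hp (c := (c : G)) (hmem c) (congrArg Subtype.val hc) with h1 | h1 | h1 | h1
  · exact Or.inl (Subtype.ext h1)
  · exact Or.inr (Or.inl (Subtype.ext h1))
  · exact Or.inr (Or.inr (Or.inl (Subtype.ext h1)))
  · exact Or.inr (Or.inr (Or.inr (Subtype.ext h1)))

end

end H11.SelfCent
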