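import Cfsg.Agent.Lib.H11.SelfCent1
import Cfsg.Agent.Lib.H50.PSLBasic
import Cfsg.Agent.Lib.H6.SL2Tor

/-! Noncyclic subgroups of `PSL₂(q)` are self-centralizing for `q = 4, 9` and `q` a Fermat or
Mersenne prime. -/

open Subgroup Matrix

open scoped MatrixGroups

namespace H11.SelfCent

section
variable {F : Type*} [Field F]

/-- scalar matrices -/
def Scal (C : Matrix (Fin 2) (Fin 2) F) : Prop := C 0 1 = 0 ∧ C 1 0 = 0 ∧ C 0 0 = C 1 1

theorem comm_form {C X : Matrix (Fin 2) (Fin 2) F} (hC : ¬ Scal C) (h : X * C = C * X) :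
    ∃ a b : F, X = a • (1 : Matrix (Fin 2) (Fin 2) F) + b • C := by
  have e00 := congrFun (congrFun h 0) 0
  have e01 := congrFun (congrFun h 0) 1
  have e10 := congrFun (congrFun h 1) 0
  simp only [Matrix.mul_apply, Fin.sum_univ_two] at e00 e01 e10
  by_cases h01 : C 0 1 = 0
  · by_cases h10 : C 1 0 = 0
    · have hd : C 0 0 - C 1 1 ≠ 0 := fun h0 => hC ⟨h01, h10, sub_eq_zero.mp h0⟩
      rw [h01] at e01
      rw [h10] at e10
      have x01 : X 0 1 = 0 := by
        have : (C 0 0 - C 1 1) * X 0 1 = 0 := by linear_combination -e01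
        exact (mul_eq_zero.mp this).resolve_left hd
      have x10 : X 1 0 = 0 := by
        have : (C 0 0 - C 1 1) * X 1 0 = 0 := by linear_combination e10
        exact (mul_eq_zero.mp this).resolve_left hd
      refine ⟨X 0 0 - (X 0 0 - X 1 1) / (C 0 0 - C 1 1) * C 0 0, (X 0 0 - X 1 1) / (C 0 0 - C 1 1), ?_⟩
      ext i j
      fin_cases i <;> fin_cases j <;> simp [h01, h10, x01, x10]
      field_simp
      ring
    · have x01 : X 0 1 = 0 := by
        have : X 0 1 * C 1 0 = 0 := by linear_combination e00 + h01 * X 1 0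
        exact (mul_eq_zero.mp this).resolve_right h10
      refine ⟨X 0 0 - X 1 0 / C 1 0 * C 0 0, X 1 0 / C 1 0, ?_⟩
      ext i j
      fin_cases i <;> fin_cases j <;> simp [h01, x01]
      · field_simp
      · field_simp
        linear_combination e10
  · refine ⟨X 0 0 - X 0 1 / C 0 1 * C 0 0, X 0 1 / C 0 1, ?_⟩
    ext i j
    fin_cases i <;> fin_cases j <;> simp
    · field_simp
    · field_simp
      linear_combination -e00
    · field_simp
      linear_combination -e01

theorem det_form (C : SL(2, F)) (a b : F) :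
    (a • (1 : Matrix (Fin 2) (Fin 2) F) + b • C.1).det = a ^ 2 + a * b * C.1.trace + b ^ 2 := by
  have h := C.2
  rw [det_fin_two] at h
  rw [det_fin_two, trace_fin_two]
  simp
  linear_combination b ^ 2 * h

theorem mk_eq_iff {X Y : SL(2, F)} :
    (QuotientGroup.mk X : ProjectiveSpecialLinearGroup (Fin 2) F) = QuotientGroup.mk Y ↔
      (Y = X ∨ Y = -X) := by
  rw [H50.PSLBasic.mk_eq_mk_iff]
  constructor
  · rintro ⟨c, hc⟩
    have h1 := Y.2
    rw [hc, det_smul, X.2, mul_one, Fintype.card_fin] at h1
    have h2 : (c - 1) * (c + 1) = 0 := by linear_combination h1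
    rcases mul_eq_zero.mp h2 with h | h
    · left
      apply Subtype.ext
      rw [hc, sub_eq_zero.mp h, one_smul]
    · right
      apply Subtype.ext
      rw [hc, eq_neg_of_add_eq_zero_left h, neg_smul, one_smul]
      rfl
  · rintro (h | h)
    · exact ⟨1, by rw [h, one_smul]⟩
    · refine ⟨-1, ?_⟩
      rw [h, neg_smul, one_smul]
      rfl

theorem scal_iff {X : SL(2, F)} : Scal X.1 ↔ (X = 1 ∨ X = -1) := by
  constructor
  · rintro ⟨h01, h10, hd⟩
    have h1 := X.2
    rw [det_fin_two, h01, h10, hd] at h1
    have h2 : (X.1 1 1 - 1) * (X.1 1 1 + 1) = 0 := by linear_combination h1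
    rcases mul_eq_zero.mp h2 with h | h
    · left
      have h11 := sub_eq_zero.mp h
      apply Subtype.ext
      ext i j
      fin_cases i <;> fin_cases j <;> simp [h01, h10, hd, h11]
    · right
      have h11 := eq_neg_of_add_eq_zero_left h
      apply Subtype.ext
      ext i j
      fin_cases i <;> fin_cases j <;> simp [h01, h10, hd, h11]
  · rintro (h | h)
    · rw [h]
      exact ⟨by simp, by simp, by simp⟩
    · rw [h]
      exact ⟨by simp, by simp, by simp⟩

theorem mk_eq_one_iff {X : SL(2, F)} :
    (QuotientGroup.mk X : ProjectiveSpecialLinearGroup (Fin 2) F) = 1 ↔ Scal X.1 := by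
  rw [scal_iff]
  have h : (1 : ProjectiveSpecialLinearGroup (Fin 2) F) = QuotientGroup.mk (1 : SL(2, F)) := rfl
  rw [h, eq_comm, mk_eq_iff]

theorem comm_or {X C : SL(2, F)}
    (h : (QuotientGroup.mk X : ProjectiveSpecialLinearGroup (Fin 2) F) * QuotientGroup.mk C =
      QuotientGroup.mk C * QuotientGroup.mk X) : C * X = X * C ∨ C * X = -(X * C) := by
  have h1 : (QuotientGroup.mk (X * C) : ProjectiveSpecialLinearGroup (Fin 2) F) =
      QuotientGroup.mk (C * X) := h
  rwa [mk_eq_iff] at h1

theorem caseB (h2 : (2 : F) ≠ 0) {C : SL(2, F)} (hC : C.1.trace = 0)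
    (hE : ∀ X : SL(2, F), X * C = C * X → ∃ j : ℕ, X ^ 2 ^ j = 1)
    {H : Subgroup (ProjectiveSpecialLinearGroup (Fin 2) F)} (hnc : ¬ IsCyclic H)
    (hH : ∀ x ∈ H, x * QuotientGroup.mk C = QuotientGroup.mk C * x) :
    (QuotientGroup.mk C : ProjectiveSpecialLinearGroup (Fin 2) F) ∈ H := by
  by_contra hcH
  have hCns : ¬ Scal C.1 := by
    intro h
    rcases scal_iff.mp h with h | h
    · rw [h] at hC
      simp at hC
      exact h2 hC
    · rw [h] at hC
      simp at hC
      exact h2 hC
  have key : ∀ X : SL(2, F), (QuotientGroup.mk X : ProjectiveSpecialLinearGroup (Fin 2) F) ∈ H →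
      X * C = C * X → (QuotientGroup.mk X : ProjectiveSpecialLinearGroup (Fin 2) F) = 1 := by
    intro X hX hXC
    have hex : ∃ j : ℕ, Scal (X ^ 2 ^ j).1 := by
      obtain ⟨j, hj⟩ := hE X hXC
      exact ⟨j, by rw [hj]; exact scal_iff.mpr (Or.inl rfl)⟩
    classical
    have hmin := fun i => @Nat.find_min _ _ hex i
    have hfind := Nat.find_spec hex
    set j := Nat.find hex with hj
    rcases Nat.eq_zero_or_pos j with h0 | h0
    · rw [h0, pow_zero, pow_one] at hfind
      exact mk_eq_one_iff.mpr hfind
    · exfalso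
      obtain ⟨i, hi⟩ : ∃ i, j = i + 1 := ⟨j - 1, by omega⟩
      have hY := hmin i (by omega)
      set Y := X ^ 2 ^ i with hYdef
      have hY2 : Scal (Y ^ 2).1 := by
        rw [hYdef, ← pow_mul, ← pow_succ, ← hi]
        exact hfind
      have hYC : Y * C = C * Y := by
        have : Commute X C := hXC
        exact (this.pow_left _)
      rcases scal_iff.mp hY2 with h | h
      · rcases H6.SL2Tor.eq_one_or_neg_one h2 h with h | h
        · exact hY (scal_iff.mpr (Or.inl h))
        · exact hY (scal_iff.mpr (Or.inr h))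
      · have h3 : Y.1 * Y.1 = -1 := by
          have h4 : (Y ^ 2).1 = (-1 : SL(2, F)).1 := by rw [h]
          rw [pow_two] at h4
          exact h4
        rw [H6.SL2Tor.sq_eq] at h3
        have h5 : Y.1.trace • Y.1 = 0 := by
          have := congrArg (fun M => M + 1) h3
          simpa using this
        have h6 : Y.1.trace = 0 := by
          rcases smul_eq_zero.mp h5 with h6 | h6
          · exact h6
          · exfalso
            have := Y.2
            rw [h6] at this
            simp at this
        obtain ⟨a, b, hab⟩ := comm_form hCns (X := Y.1) (by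
          have := congrArg Subtype.val hYC
          exact this)
        have h7 : Y.1.trace = 2 * a + b * C.1.trace := by
          rw [hab, trace_fin_two, trace_fin_two]
          simp
          ring
        rw [h6, hC, mul_zero, add_zero] at h7
        have ha : a = 0 := (mul_eq_zero.mp h7.symm).resolve_left h2
        rw [ha, zero_smul, zero_add] at hab
        have h8 : (QuotientGroup.mk C : ProjectiveSpecialLinearGroup (Fin 2) F) = QuotientGroup.mk Y :=
          H50.PSLBasic.mk_eq_mk_iff.mpr ⟨b, hab⟩
        apply hcH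
        rw [h8]
        have h9 : (QuotientGroup.mk Y : ProjectiveSpecialLinearGroup (Fin 2) F) =
            (QuotientGroup.mk X) ^ 2 ^ i := rfl
        rw [h9]
        exact H.pow_mem hX _
  apply hnc
  have huniq : ∀ x y : ProjectiveSpecialLinearGroup (Fin 2) F, x ∈ H → y ∈ H → x ≠ 1 → y ≠ 1 → x = y := by
    intro x y hx hy hx1 hy1
    obtain ⟨X, rfl⟩ := QuotientGroup.mk_surjective x
    obtain ⟨Y, rfl⟩ := QuotientGroup.mk_surjective y
    have hX : C * X = -(X * C) := by
      rcases comm_or (hH _ hx) with h | h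
      · exact absurd (key X hx h.symm) hx1
      · exact h
    have hY : C * Y = -(Y * C) := by
      rcases comm_or (hH _ hy) with h | h
      · exact absurd (key Y hy h.symm) hy1
      · exact h
    have hXi : C * X⁻¹ = -(X⁻¹ * C) := by
      have h1 : X⁻¹ * (C * X) * X⁻¹ = X⁻¹ * (-(X * C)) * X⁻¹ := by rw [hX]
      rw [mul_neg, neg_mul] at h1
      have h2 : X⁻¹ * (C * X) * X⁻¹ = X⁻¹ * C := by group
      have h3 : X⁻¹ * (X * C) * X⁻¹ = C * X⁻¹ := by group
      rw [h2, h3] at h1
      rw [h1, neg_neg]
    have h4 : X⁻¹ * Y * C = C * (X⁻¹ * Y) := by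
      rw [← mul_assoc, hXi, neg_mul, mul_assoc X⁻¹ C Y, hY, mul_neg, neg_neg, mul_assoc]
    have h5 := key (X⁻¹ * Y) (H.mul_mem (H.inv_mem hx) hy) h4
    have h6 : (QuotientGroup.mk X : ProjectiveSpecialLinearGroup (Fin 2) F)⁻¹ * QuotientGroup.mk Y = 1 := h5
    exact (inv_mul_eq_one.mp h6)
  by_cases hex : ∃ x ∈ H, x ≠ 1
  · obtain ⟨x, hx, hx1⟩ := hex
    refine ⟨⟨⟨x, hx⟩, ?_⟩⟩
    rintro ⟨y, hy⟩
    by_cases hy1 : y = 1
    · exact ⟨0, (zpow_zero _).trans (Subtype.ext hy1.symm)⟩
    · exact ⟨1, (zpow_one _).trans (Subtype.ext (huniq x y hx hy hx1 hy1))⟩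
  · push Not at hex
    have : Subsingleton H := ⟨fun a b => Subtype.ext (by rw [hex a a.2, hex b b.2])⟩
    infer_instance

end

section
variable {F : Type*} [Field F] [Fintype F]

theorem caseA {p : ℕ} [hp : Fact p.Prime] [CharP F p] (hq : Fintype.card F = p ∨ Fintype.card F = p ^ 2)
    {C : SL(2, F)} (hC : ¬ Scal C.1)
    {H : Subgroup (ProjectiveSpecialLinearGroup (Fin 2) F)} (hnc : ¬ IsCyclic H)
    (hH : ∀ X : SL(2, F), (QuotientGroup.mk X : ProjectiveSpecialLinearGroup (Fin 2) F) ∈ H → X * C = C * X) :
    (QuotientGroup.mk C : ProjectiveSpecialLinearGroup (Fin 2) F) ∈ H := by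
  set S : Subgroup SL(2, F) := H.comap (QuotientGroup.mk' _) with hS
  have hcommf : ∀ X Y : SL(2, F), X * C = C * X → Y * C = C * Y → X * Y = Y * X := by
    intro X Y hX hY
    obtain ⟨a, b, hab⟩ := comm_form hC (X := X.1) (congrArg Subtype.val hX)
    obtain ⟨c, d, hcd⟩ := comm_form hC (X := Y.1) (congrArg Subtype.val hY)
    apply Subtype.ext
    show X.1 * Y.1 = Y.1 * X.1
    rw [hab, hcd]
    simp only [add_mul, mul_add, smul_mul_assoc, mul_smul_comm, one_mul, mul_one, smul_smul, smul_add]
    rw [mul_comm c a, mul_comm c b, mul_comm d a, mul_comm d b]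
    abel
  have hpS : p ∣ Nat.card S := by
    rw [← CharP.cast_eq_zero_iff F p]
    by_contra hne
    have hcyc : IsCyclic S := H6.SL2Tor.isCyclic_of_comm S.subtype S.subtype_injective hne (by
      rintro ⟨a, ha⟩ ⟨b, hb⟩
      apply Subtype.ext
      exact hcommf a b (hH a ha) (hH b hb))
    apply hnc
    let f : S →* H :=
      { toFun := fun x => ⟨QuotientGroup.mk x.1, x.2⟩
        map_one' := rfl
        map_mul' := fun x y => rfl }
    refine isCyclic_of_surjective f ?_
    rintro ⟨y, hy⟩
    obtain ⟨Y, rfl⟩ := QuotientGroup.mk_surjective y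
    exact ⟨⟨Y, hy⟩, rfl⟩
  obtain ⟨⟨X, hXS⟩, hXo⟩ := exists_prime_orderOf_dvd_card' p hpS
  have hXo' : orderOf X = p := by rw [← hXo]; exact (Subgroup.orderOf_mk (H := S) X hXS).symm
  have hXq : X ^ Fintype.card F = 1 := by
    rcases hq with h | h
    · rw [h, ← hXo', pow_orderOf_eq_one]
    · rw [h, pow_two, pow_mul, ← hXo', pow_orderOf_eq_one, one_pow]
  have htr : X.1.trace = 2 := by
    have h1 := FiniteField.trace_pow_card X.1
    rw [FiniteField.pow_card] at h1
    rw [← h1]
    have h2 : X.1 ^ Fintype.card F = 1 := by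
      have := congrArg Subtype.val hXq
      simpa using this
    rw [h2, trace_one, Fintype.card_fin]
    norm_num
  have hX1 : X ≠ 1 := by
    rintro rfl
    rw [orderOf_one] at hXo'
    exact hp.out.one_lt.ne hXo'
  have hXns : ¬ Scal X.1 := by
    intro h
    rcases scal_iff.mp h with h | h
    · exact hX1 h
    · rw [h] at htr
      simp at htr
      have h4 : (2 : F) * 2 = 0 := by linear_combination -htr
      have h2 : (2 : F) = 0 := mul_self_eq_zero.mp h4
      have h11 : (-1 : F) = 1 := by linear_combination -h2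
      apply hX1
      rw [h]
      apply Subtype.ext
      ext i j
      fin_cases i <;> fin_cases j <;> simp [h11]
  have hNN : (X.1 - 1) * (X.1 - 1) = 0 := by
    have h := H6.SL2Tor.sq_eq X
    rw [htr] at h
    rw [sub_mul, mul_sub, mul_sub, h, mul_one, one_mul, one_mul, two_smul]
    abel
  let U : F → SL(2, F) := fun t => ⟨1 + t • (X.1 - 1), by
    have h := det_form X (1 - t) t
    rw [htr] at h
    have h2 : (1 : Matrix (Fin 2) (Fin 2) F) + t • (X.1 - 1) = (1 - t) • 1 + t • X.1 := by
      rw [smul_sub, sub_smul, one_smul]; abel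
    rw [h2, h]
    ring⟩
  have hU : ∀ s t, U s * U t = U (s + t) := by
    intro s t
    apply Subtype.ext
    show (1 + s • (X.1 - 1)) * (1 + t • (X.1 - 1)) = 1 + (s + t) • (X.1 - 1)
    rw [add_mul, mul_add, mul_add, smul_mul_smul_comm, hNN, smul_zero, mul_one, one_mul, mul_one, add_smul]
    abel
  have hU0 : U 0 = 1 := by
    apply Subtype.ext
    show (1 : Matrix (Fin 2) (Fin 2) F) + (0 : F) • (X.1 - 1) = 1
    rw [zero_smul, add_zero]
  let u : Multiplicative F →* ProjectiveSpecialLinearGroup (Fin 2) F :=
    { toFun := fun t => QuotientGroup.mk (U (Multiplicative.toAdd t))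
      map_one' := by
        show QuotientGroup.mk (U 0) = _
        rw [hU0]; rfl
      map_mul' := by
        intro a b
        show QuotientGroup.mk (U (Multiplicative.toAdd a + Multiplicative.toAdd b)) = _
        rw [← hU]; rfl }
  have hmem : ∀ Y : SL(2, F), Y * X = X * Y →
      (QuotientGroup.mk Y : ProjectiveSpecialLinearGroup (Fin 2) F) ∈ u.range := by
    intro Y hY
    obtain ⟨a, b, hab⟩ := comm_form hXns (X := Y.1) (congrArg Subtype.val hY)
    have hdet := Y.2
    rw [hab, det_form, htr] at hdet
    have h1 : (a + b - 1) * (a + b + 1) = 0 := by linear_combination hdet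
    rcases mul_eq_zero.mp h1 with h | h
    · refine ⟨Multiplicative.ofAdd b, ?_⟩
      show QuotientGroup.mk (U b) = _
      rw [mk_eq_iff]
      left
      apply Subtype.ext
      rw [hab]
      show _ = 1 + b • (X.1 - 1)
      have ha : a = 1 - b := by linear_combination h
      rw [ha, smul_sub, sub_smul, one_smul]
      abel
    · refine ⟨Multiplicative.ofAdd (-b), ?_⟩
      show QuotientGroup.mk (U (-b)) = _
      rw [mk_eq_iff]
      right
      apply Subtype.ext
      rw [hab]
      show _ = -(1 + (-b) • (X.1 - 1))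
      have ha : a = -1 - b := by linear_combination h
      rw [ha, smul_sub, sub_smul, neg_smul, neg_smul, neg_smul, one_smul]
      abel
  have hHR : H ≤ u.range := by
    intro y hy
    obtain ⟨Y, rfl⟩ := QuotientGroup.mk_surjective y
    exact hmem Y (hcommf Y X (hH Y hy) (hH X hXS))
  have hCR := hmem C (hH X hXS).symm
  have hcard : Nat.card u.range ∣ Fintype.card F := by
    have h := Subgroup.card_range_dvd u
    rwa [Nat.card_eq_fintype_card (α := Multiplicative F), Fintype.card_multiplicative] at h
  have hdvd : Nat.card H ∣ Fintype.card F := (Subgroup.card_dvd_of_le hHR).trans hcard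
  have h1 : Nat.card H ≠ 1 := by
    intro h
    apply hnc
    have := (Nat.card_eq_one_iff_unique.mp h).1
    infer_instance
  have h2 : Nat.card H ≠ p := by
    intro h
    exact hnc (isCyclic_of_prime_card h)
  rcases hq with h | h
  · rw [h] at hdvd
    rcases (Nat.dvd_prime hp.out).mp hdvd with h3 | h3
    · exact absurd h3 h1
    · exact absurd h3 h2
  · rw [h] at hdvd hcard
    obtain ⟨i, hi, h3⟩ := (Nat.dvd_prime_pow hp.out).mp hdvd
    interval_cases i
    · exact absurd (by rw [h3, pow_zero]) h1
    · exact absurd (by rw [h3, pow_one]) h2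
    · have hle : Nat.card u.range ≤ Nat.card H := by
        rw [h3]
        exact Nat.le_of_dvd (pow_pos hp.out.pos 2) hcard
      rw [Subgroup.eq_of_le_of_card_ge hHR hle]
      exact hCR

theorem pow_two_of_comm (h2 : (2 : F) ≠ 0)
    (hF : Fintype.card F = 9 ∨ ((Fintype.card F).Prime ∧
      ∃ k : ℕ, Fintype.card F = 2 ^ k + 1 ∨ Fintype.card F = 2 ^ k - 1))
    {C : SL(2, F)} (hC : C.1.trace = 0) (X : SL(2, F)) (hX : X * C = C * X) :
    ∃ j : ℕ, X ^ 2 ^ j = 1 := by
  have hCns : ¬ Scal C.1 := by
    intro h
    rcases scal_iff.mp h with h | h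
    · rw [h] at hC
      simp at hC
      exact h2 hC
    · rw [h] at hC
      simp at hC
      exact h2 hC
  have hCC : C.1 * C.1 = -1 := by
    rw [H6.SL2Tor.sq_eq, hC, zero_smul, zero_sub]
  obtain ⟨a, b, hab⟩ := comm_form hCns (X := X.1) (congrArg Subtype.val hX)
  obtain ⟨p, hp⟩ := CharP.exists F
  obtain ⟨n, hpp, hcard⟩ := FiniteField.card F p
  have : Fact p.Prime := ⟨hpp⟩
  have hodd : Odd (Fintype.card F) := by
    rw [Nat.odd_iff]
    by_contra hne
    have h2d : 2 ∣ Fintype.card F := by omega
    rw [hcard] at h2d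
    have h2p : 2 ∣ p := Nat.prime_two.dvd_of_dvd_pow h2d
    have h2p' : 2 = p := (Nat.prime_dvd_prime_iff_eq Nat.prime_two hpp).mp h2p
    subst h2p'
    apply h2
    have := CharP.cast_eq_zero F 2
    exact_mod_cast this
  obtain ⟨m, hm⟩ := hodd
  -- the Frobenius power of `X`
  have hfr : X.1 ^ Fintype.card F = a • (1 : Matrix (Fin 2) (Fin 2) F) + b • ((-1 : F) ^ m • C.1) := by
    have hc : Commute (a • (1 : Matrix (Fin 2) (Fin 2) F)) (b • C.1) := by
      show _ * _ = _ * _
      simp only [smul_mul_assoc, mul_smul_comm, one_mul, mul_one]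
      rw [smul_comm]
    have h1 := add_pow_char_pow_of_commute (p := p) (n := (n : ℕ)) hc
    rw [← hcard, ← hab] at h1
    rw [h1, smul_pow, smul_pow, one_pow, FiniteField.pow_card, FiniteField.pow_card]
    have h3 : C.1 ^ Fintype.card F = (-1 : F) ^ m • C.1 := by
      rw [hm, pow_succ, pow_mul, pow_two, hCC]
      rcases Nat.even_or_odd m with he | ho
      · rw [he.neg_one_pow, he.neg_one_pow, one_mul, one_smul]
      · rw [ho.neg_one_pow, ho.neg_one_pow, neg_mul, one_mul, neg_smul, one_smul]
    rw [h3]
  rcases Nat.even_or_odd m with he | ho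
  · rw [he.neg_one_pow, one_smul, ← hab] at hfr
    have h1 : X ^ Fintype.card F = X := by
      apply Subtype.ext
      have := hfr
      simpa using this
    have h3 : X ^ (2 * m) = 1 := by
      rw [hm, pow_succ] at h1
      exact mul_eq_right.mp h1
    rcases hF with hF | ⟨hpr, k, hF | hF⟩
    · exact ⟨3, by
        have : 2 * m = 2 ^ 3 := by omega
        rw [← this]; exact h3⟩
    · exact ⟨k, by
        have : 2 * m = 2 ^ k := by omega
        rw [← this]; exact h3⟩
    · exfalso
      obtain ⟨r, hr⟩ := he
      rcases k with _ | _ | k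
      · simp at hF
      · simp at hF
        rw [hF] at hpr
        exact Nat.not_prime_one hpr
      · rw [pow_succ, pow_succ] at hF
        have : 0 < 2 ^ k := pow_pos (by norm_num) k
        omega
  · rw [ho.neg_one_pow, neg_smul, one_smul] at hfr
    have h1 : X ^ (Fintype.card F + 1) = 1 := by
      rw [pow_succ']
      apply Subtype.ext
      show X.1 * (X ^ Fintype.card F).1 = 1
      have h3 : (X ^ Fintype.card F).1 = X.1 ^ Fintype.card F := by simp
      rw [h3, hfr]
      nth_rewrite 1 [hab]
      have hdet := X.2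
      rw [hab, det_form, hC] at hdet
      simp only [add_mul, mul_add, smul_mul_assoc, mul_smul_comm, one_mul, mul_one, smul_neg,
        mul_neg, hCC]
      have h5 : a * a + b * b = 1 := by linear_combination hdet
      ext i j
      fin_cases i <;> fin_cases j <;> simp
      · linear_combination h5
      · ring
      · ring
      · linear_combination h5
    rcases hF with hF | ⟨hpr, k, hF | hF⟩
    · exfalso
      obtain ⟨r, hr⟩ := ho
      omega
    · obtain ⟨r, hr⟩ := ho
      rcases k with _ | _ | k
      · simp at hF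
        omega
      · exact ⟨2, by
          have : Fintype.card F + 1 = 2 ^ 2 := by rw [hF]; norm_num
          rw [← this]; exact h1⟩
      · exfalso
        rw [pow_succ, pow_succ] at hF
        omega
    · exact ⟨k, by
        have : 0 < 2 ^ k := pow_pos (by norm_num) k
        have : Fintype.card F + 1 = 2 ^ k := by omega
        rw [← this]; exact h1⟩

theorem backward
    (hF : Fintype.card F = 4 ∨ Fintype.card F = 9 ∨ ((Fintype.card F).Prime ∧
      ∃ k : ℕ, Fintype.card F = 2 ^ k + 1 ∨ Fintype.card F = 2 ^ k - 1)) :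
    SC (ProjectiveSpecialLinearGroup (Fin 2) F) := by
  intro H hH c hc
  obtain ⟨C, rfl⟩ := QuotientGroup.mk_surjective c
  have hcc : ∀ x ∈ H, x * QuotientGroup.mk C = QuotientGroup.mk C * x := fun x hx =>
    (Subgroup.mem_centralizer_iff.mp hc) x hx
  by_cases hCs : Scal C.1
  · rw [mk_eq_one_iff.mpr hCs]
    exact H.one_mem
  obtain ⟨p, hp⟩ := CharP.exists F
  obtain ⟨n, hpp, hcard⟩ := FiniteField.card F p
  have : Fact p.Prime := ⟨hpp⟩
  have hpdvd : p ∣ Fintype.card F := by
    rw [hcard]
    exact dvd_pow_self p n.pos.ne'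
  by_cases hcase : (2 : F) = 0 ∨ C.1.trace ≠ 0
  · have hq : Fintype.card F = p ∨ Fintype.card F = p ^ 2 := by
      rcases hF with hF | hF | ⟨hF, -⟩
      · right
        rw [hF] at hpdvd
        have : p ∣ 2 := hpp.dvd_of_dvd_pow (n := 2) (by norm_num; exact hpdvd)
        have : p = 2 := (Nat.prime_dvd_prime_iff_eq hpp Nat.prime_two).mp this
        rw [hF, this]; norm_num
      · right
        rw [hF] at hpdvd
        have : p ∣ 3 := hpp.dvd_of_dvd_pow (n := 2) (by norm_num; exact hpdvd)
        have : p = 3 := (Nat.prime_dvd_prime_iff_eq hpp Nat.prime_three).mp this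
        rw [hF, this]; norm_num
      · left
        exact ((Nat.prime_dvd_prime_iff_eq hpp hF).mp hpdvd).symm
    refine caseA (p := p) hq hCs hH ?_
    intro X hX
    rcases comm_or (hcc _ hX) with h | h
    · exact h.symm
    · rcases hcase with h2 | htr
      · have hneg : -(X * C) = X * C := by
          apply Subtype.ext
          show -(X * C).1 = (X * C).1
          have h3 : (2 : F) • (X * C).1 = 0 := by rw [h2, zero_smul]
          rw [two_smul] at h3
          exact (eq_neg_of_add_eq_zero_left h3).symm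
        rw [h, hneg]
      · by_cases h2 : (2 : F) = 0
        · have hneg : -(X * C) = X * C := by
            apply Subtype.ext
            show -(X * C).1 = (X * C).1
            have h3 : (2 : F) • (X * C).1 = 0 := by rw [h2, zero_smul]
            rw [two_smul] at h3
            exact (eq_neg_of_add_eq_zero_left h3).symm
          rw [h, hneg]
        · exfalso
          have h3 : C = -(X * C * X⁻¹) := by
            rw [← neg_mul, ← h, mul_inv_cancel_right]
          have h4 : C.1.trace = -(C.1.trace) := by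
            have h5 : C.1 = -(X.1 * C.1 * (X⁻¹).1) := congrArg Subtype.val h3
            have h6 : (X.1 * C.1 * (X⁻¹).1).trace = C.1.trace := by
              rw [Matrix.trace_mul_comm, ← mul_assoc]
              have h7 : (X⁻¹).1 * X.1 = 1 := by
                have := congrArg Subtype.val (inv_mul_cancel X)
                exact this
              rw [h7, one_mul]
            conv_lhs => rw [h5]
            rw [trace_neg, h6]
          have h8 : 2 * C.1.trace = 0 := by linear_combination h4
          rcases mul_eq_zero.mp h8 with h9 | h9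
          · exact h2 h9
          · exact htr h9
  · push Not at hcase
    have hF' : Fintype.card F = 9 ∨ ((Fintype.card F).Prime ∧
        ∃ k : ℕ, Fintype.card F = 2 ^ k + 1 ∨ Fintype.card F = 2 ^ k - 1) := by
      rcases hF with hF | hF
      · exfalso
        have h1 := FiniteField.cast_card_eq_zero F
        rw [hF] at h1
        push_cast at h1
        have h4 : (4 : F) = 2 * 2 := by norm_num
        rw [h4, mul_self_eq_zero] at h1
        exact hcase.1 h1
      · exact hF
    exact caseB hcase.1 hcase.2 (fun X hX => pow_two_of_comm hcase.1 hF' hcase.2 X hX) hH hcc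

end

end H11.SelfCent
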