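import Cfsg.Agent.Lib.H71.NC2
import Cfsg.Agent.Lib.H28.RankConn
import Cfsg.Agent.Lib.H39.PNilp

/-!
Groups in which the centralizers of the involutions have normal 2-complements, part 1: the functor.
-/

set_option autoImplicit false
set_option linter.unusedSectionVars false

open Subgroup Cfsg H38 H38.Basic H27.EquivSig H27 H26.LocalFitting H11.SubnormalJoin H11.FourConn H11.FourCore H71.NC
open scoped Pointwise

namespace H11.TN

/-- all centralizers of involutions have a normal 2-complement -/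
def NI (G : Type*) [Group G] : Prop :=
  ∀ t : G, orderOf t = 2 → HasNormalPComplement 2 ↥(centralizer ({t} : Set G))

variable {G : Type*} [Group G] [Finite G]

theorem mem_core {C : Subgroup G} (hC : HasNormalPComplement 2 C) {x : G} (hx : x ∈ C)
    (ho : (orderOf x).Coprime 2) : x ∈ (pPrimeCore 2 C).map C.subtype := by
  have : Fact (Nat.Prime 2) := ⟨Nat.prime_two⟩
  obtain ⟨N, hN, hco, hk⟩ := (H39.PNilp.iff_exists).mp hC
  have := hN
  have h1 : (⟨x, hx⟩ : C) ∈ N := (H39.PNilp.mem_iff_coprime N hco hk _).mpr (by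
    rw [← Subgroup.orderOf_coe]; exact ho)
  have h2 : N ≤ pPrimeCore 2 C := H1.Cores.le_pPrimeCore hN hco
  exact ⟨⟨x, hx⟩, h2 h1, rfl⟩

/-- `C = O(C) P` -/
theorem core_sup {C : Type*} [Group C] [Finite C] (hC : HasNormalPComplement 2 C) (P : Sylow 2 C) :
    pPrimeCore 2 C ⊔ (P : Subgroup C) = ⊤ := by
  have : Fact (Nat.Prime 2) := ⟨Nat.prime_two⟩
  obtain ⟨N, hN, hco, k, hk⟩ := (H39.PNilp.iff_exists).mp hC
  have := hN
  have h2 : N ≤ pPrimeCore 2 C := H1.Cores.le_pPrimeCore hN hco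
  have h3 : N ⊔ (P : Subgroup C) = ⊤ := by
    rw [← Subgroup.index_eq_one]
    have h4 : (N ⊔ (P : Subgroup C)).index ∣ 2 ^ k := by
      rw [← hk]; exact Subgroup.index_dvd_of_le le_sup_left
    have h5 : (N ⊔ (P : Subgroup C)).index ∣ (P : Subgroup C).index :=
      Subgroup.index_dvd_of_le le_sup_right
    have h6 : ¬ 2 ∣ (P : Subgroup C).index := P.not_dvd_index
    obtain ⟨j, -, hj⟩ := (Nat.dvd_prime_pow Nat.prime_two).1 h4
    rcases Nat.eq_zero_or_pos j with h0 | h0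
    · rw [hj, h0, pow_zero]
    · exfalso
      apply h6
      rw [hj] at h5
      exact (dvd_pow_self 2 h0.ne').trans h5
  rw [eq_top_iff, ← h3]
  exact sup_le_sup_right h2 _

theorem hyp (hI : NI G) : Hyp 2 (th G) := by
  have hf : Fact (Nat.Prime 2) := ⟨Nat.prime_two⟩
  refine ⟨?_, fun a _ => ppc_le 2 _, fun a _ => ?_, fun a _ => ?_,
      fun a g _ => LayerFree.core_equiv a g, fun a b ha hb hab => ?_⟩
  · intro A h1 h2 h3 θ h4 h5 h6 h7 h8
    exact Cfsg.Agent.S0217.result A h1 h2 h3 θ h4 h5 h6 h7 h8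
  · exact fun h => (Nat.Prime.coprime_iff_not_dvd hf.out).mp (th_odd a).symm h
  · apply Cfsg.Agent.S0205.result
    exact Nat.coprime_two_right.mp (th_odd a)
  · rintro x ⟨hx1, hx2⟩
    apply mem_core (hI b hb.1) hx2
    exact Nat.Coprime.coprime_dvd_left (Subgroup.orderOf_dvd_natCard _ hx1) (th_odd a)

/-- elementary abelian of order at least 8 -/
def Big (A : Subgroup G) : Prop := IsElementaryAbelian 2 A ∧ 8 ≤ Nat.card A

theorem Big.conj {A : Subgroup G} (h : Big A) (g : G) : Big (MulAut.conj g • A) := by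
  have : Fact (Nat.Prime 2) := ⟨Nat.prime_two⟩
  refine ⟨conj_isElementaryAbelian h.1 g, ?_⟩
  rw [H1.SZ.card_conj_smul]; exact h.2

theorem Big.ve {A : Subgroup G} (h : Big A) : 2 ^ 3 ≤ Nat.card A := by
  have := h.2; norm_num; exact this

theorem W_le_big (H : Hyp 2 (th G)) {A E : Subgroup G} (hA : Big A) (hE : E ≤ A) (h4 : 4 ≤ Nat.card E) :
    W (th G) E = W (th G) A := by
  have : Fact (Nat.Prime 2) := ⟨Nat.prime_two⟩
  exact H.W_eq hA.1 hA.ve hE (by norm_num; exact h4)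

/-- an elementary abelian group of order 4 commuting with another, different one: the product is big -/
theorem big_sup {A B : Subgroup G} (hA : IsElementaryAbelian 2 A) (hB : IsElementaryAbelian 2 B)
    (h4 : 4 ≤ Nat.card A) (hne : ¬ B ≤ A) (hc : ∀ a ∈ A, ∀ b ∈ B, a * b = b * a) : Big (A ⊔ B) := by
  have : Fact (Nat.Prime 2) := ⟨Nat.prime_two⟩
  have hcomm : ⁅A, B⁆ = ⊥ := by
    rw [commutator_eq_bot_iff_le_centralizer]
    intro a ha
    rw [mem_centralizer_iff]
    exact fun b hb => (hc a ha b hb).symm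
  have hAB := ElAb.sup hA hB hcomm
  refine ⟨hAB, ?_⟩
  obtain ⟨n, hn⟩ := IsPGroup.iff_card.mp (ElAb.isPGroup hA)
  obtain ⟨m, hm⟩ := IsPGroup.iff_card.mp (ElAb.isPGroup hAB)
  have h1 : Nat.card A < Nat.card (A ⊔ B : Subgroup G) := by
    by_contra hcon
    have := Subgroup.eq_of_le_of_card_ge (le_sup_left : A ≤ A ⊔ B) (not_lt.mp hcon)
    exact hne (by rw [this]; exact le_sup_right)
  rw [hn] at h4 h1
  rw [hm] at h1 ⊢
  have h2 : n < m := (Nat.pow_lt_pow_iff_right (by norm_num)).mp h1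
  have h3 : 2 ≤ n := by
    by_contra hcon
    have : n ≤ 1 := by omega
    have : 2 ^ n ≤ 2 ^ 1 := Nat.pow_le_pow_right (by norm_num) this
    omega
  calc 8 = 2 ^ 3 := by norm_num
    _ ≤ 2 ^ m := Nat.pow_le_pow_right (by norm_num) (by omega)

/-- the normal four-group of a 2-group of 2-rank at least three -/
theorem star (H : Hyp 2 (th G)) {P : Subgroup G} (hP : IsPGroup 2 P) (hA : ∃ A ≤ P, Big A) :
    ∃ U ≤ P, P ≤ normalizer (U : Set G) ∧ IsElementaryAbelian 2 U ∧ Nat.card U = 4 ∧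
      (∀ A ≤ P, Big A → W (th G) A = W (th G) U) ∧ ∃ A ≤ P, Big A ∧ U ≤ A := by
  have : Fact (Nat.Prime 2) := ⟨Nat.prime_two⟩
  have hrk : ¬ PRankLE 2 2 P := by
    obtain ⟨A, hAP, hA⟩ := hA
    apply not_pRankLE_of_le hA.1 hAP
    have := hA.2
    norm_num; omega
  obtain ⟨U0, hUn, hU, hUc⟩ := H28.RankConn.exists_normal_sq hP hrk
  have hUP : U0.map P.subtype ≤ P := map_subtype_le _
  have hUel : IsElementaryAbelian 2 (U0.map P.subtype) := by
    apply ElAb.of_comm
    · rintro _ ⟨x, hx, rfl⟩ _ ⟨y, hy, rfl⟩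
      rw [← map_mul, ← map_mul, ElAb.comm hU x hx y hy]
    · rintro _ ⟨x, hx, rfl⟩
      rw [← map_pow, hU.2 x hx, map_one]
  have hU4 : Nat.card (U0.map P.subtype) = 4 := by
    rw [Subgroup.card_map_of_injective P.subtype_injective, hUc]; norm_num
  -- the crucial step
  have key : ∀ A ≤ P, Big A → ∃ B ≤ P, Big B ∧ U0.map P.subtype ≤ B ∧ W (th G) A = W (th G) B := by
    intro A hAP hA
    have h1 := H28.RankConn.card_inf_centralizer_ge hP hUn hUc (A.subgroupOf P)
    rw [H1.SZ.card_subgroupOf_of_le hAP] at h1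
    set A' : Subgroup G := (A.subgroupOf P ⊓ centralizer (U0 : Set P)).map P.subtype with hA'
    have hA'c : Nat.card A' = Nat.card ↥(A.subgroupOf P ⊓ centralizer (U0 : Set P)) :=
      Subgroup.card_map_of_injective P.subtype_injective
    have h4 : 4 ≤ Nat.card A' := by
      rw [hA'c]
      have := hA.2
      omega
    have hA'A : A' ≤ A := by
      rintro _ ⟨x, hx, rfl⟩
      exact hx.1
    have hc : ∀ a ∈ A', ∀ b ∈ U0.map P.subtype, a * b = b * a := by
      rintro _ ⟨x, hx, rfl⟩ _ ⟨y, hy, rfl⟩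
      have h2 := mem_centralizer_iff.mp hx.2 y hy
      exact (congrArg Subtype.val h2).symm
    have hW1 := W_le_big H hA hA'A h4
    by_cases hle : U0.map P.subtype ≤ A'
    · exact ⟨A, hAP, hA, hle.trans hA'A, rfl⟩
    · have hb := big_sup (ElAb.mono hA.1 hA'A) hUel h4 hle hc
      refine ⟨A' ⊔ U0.map P.subtype, sup_le (hA'A.trans hAP) hUP, hb, le_sup_right, ?_⟩
      rw [← hW1]
      exact W_le_big H hb le_sup_left h4
  refine ⟨U0.map P.subtype, hUP, ?_, hUel, hU4, ?_, ?_⟩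
  · intro x hx
    rw [Subgroup.mem_normalizer_iff]
    intro y
    constructor
    · rintro ⟨u, hu, rfl⟩
      exact ⟨⟨x, hx⟩ * u * ⟨x, hx⟩⁻¹, hUn.conj_mem u hu _, by simp⟩
    · rintro ⟨u, hu, hy⟩
      refine ⟨⟨x, hx⟩⁻¹ * u * ⟨x, hx⟩, ?_, ?_⟩
      · have := hUn.conj_mem u hu ⟨x, hx⟩⁻¹
        rwa [inv_inv] at this
      · have hy' : (u : G) = x * y * x⁻¹ := hy
        simp only [map_mul, map_inv, Subgroup.subtype_apply, hy']
        group
  · intro A hAP hA
    obtain ⟨B, hBP, hB, hUB, hW⟩ := key A hAP hA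
    rw [hW]
    exact (W_le_big H hB hUB (by rw [hU4])).symm
  · obtain ⟨A, hAP, hA⟩ := hA
    obtain ⟨B, hBP, hB, hUB, -⟩ := key A hAP hA
    exact ⟨B, hBP, hB, hUB⟩

/-- constancy -/
theorem W_const (H : Hyp 2 (th G)) {P : Subgroup G} (hP : IsPGroup 2 P) {A B : Subgroup G} (hAP : A ≤ P)
    (hA : Big A) (hBP : B ≤ P) (hB : Big B) : W (th G) A = W (th G) B := by
  obtain ⟨U, -, -, -, -, h, -⟩ := star H hP ⟨A, hAP, hA⟩
  rw [h A hAP hA, h B hBP hB]

theorem normalizer_le (H : Hyp 2 (th G)) {P : Subgroup G} (hP : IsPGroup 2 P) {A : Subgroup G} (hAP : A ≤ P)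
    (hA : Big A) : normalizer (P : Set G) ≤ normalizer ((W (th G) A : Subgroup G) : Set G) := by
  intro g hg
  rw [mem_normalizer_iff_conj] at hg ⊢
  rw [← W_conj]
  refine W_const H hP ?_ (hA.conj g) hAP hA
  rw [← hg]
  exact Subgroup.pointwise_smul_le_pointwise_smul_iff.mpr hAP

end H11.TN
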