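import Cfsg.Agent.Lib.H26.U34

/-!
The Sylow 2-subgroups of `PSU₃(4)`: the class of a noncentral element is its coset of the center.
-/

set_option autoImplicit false
set_option linter.unusedSectionVars false

open Subgroup Cfsg
open scoped commutatorElement

namespace H11.U34Cl

/-- every central element is a commutator with any given noncentral element -/
def CA (R : Type*) [Group R] : Prop :=
  ∀ x : R, x ∉ Subgroup.center R → ∀ z ∈ Subgroup.center R, ∃ y : R, y * x * y⁻¹ = x * z

theorem CA.of_equiv {H H' : Type*} [Group H] [Group H'] (e : H ≃* H') (h : CA H') : CA H := by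
  have hc : ∀ x : H, x ∈ Subgroup.center H ↔ e x ∈ Subgroup.center H' := by
    intro x
    rw [Subgroup.mem_center_iff, Subgroup.mem_center_iff]
    constructor
    · intro hx y
      obtain ⟨y, rfl⟩ := e.surjective y
      rw [← map_mul, ← map_mul, hx]
    · intro hx y
      apply e.injective
      rw [map_mul, map_mul, hx]
  intro x hx z hz
  obtain ⟨y, hy⟩ := h (e x) (fun h' => hx ((hc x).mpr h')) (e z) ((hc z).mp hz)
  obtain ⟨y, rfl⟩ := e.surjective y
  refine ⟨y, e.injective ?_⟩
  simpa using hy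

section

variable {K : Type*} [Field K] [Fintype K]

open H24.U3Syl

theorem ca_U (two : (2 : K) = 0) (hK : Fintype.card K = 4 ^ 2) : CA (U two hK) := by
  have hmem : ∀ {a b : K} (h : Good 4 a b),
      (⟨u 4 a b, a, b, h, rfl⟩ : U two hK) ∈ Subgroup.center (U two hK) ↔ a = 0 := by
    intro a b h
    rw [← central_iff two hK h, Subgroup.mem_center_iff]
    constructor
    · intro hc c d hcd
      exact (congrArg Subtype.val (hc ⟨u 4 c d, c, d, hcd, rfl⟩)).symm
    · rintro hc ⟨_, c, d, hcd, rfl⟩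
      exact Subtype.ext (hc c d hcd).symm
  have hconj : ∀ a b c d : K, u 4 c d * u 4 a b =
      u 4 a b * u 4 0 (a ^ 4 * c + c ^ 4 * a) * u 4 c d := by
    intro a b c d
    rw [u_mul hK, u_mul hK, u_mul hK]
    congr 1
    · ring
    · rw [add_zero]
      linear_combination (-(a ^ 4 * c)) * two
  rintro ⟨_, a, b, h, rfl⟩ hx ⟨_, a', b', h', rfl⟩ hz
  rw [hmem h'] at hz
  subst hz
  have ha : a ≠ 0 := fun h0 => hx ((hmem h).mpr h0)
  rw [good_zero two] at h'
  obtain ⟨c', hc'⟩ := H7.QuadExt.exists_trace_eq hK h'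
  obtain ⟨d, hd⟩ := exists_gt two hK (c' / a ^ 4)
  refine ⟨⟨u 4 (c' / a ^ 4) d, _, d, hd, rfl⟩, ?_⟩
  rw [mul_inv_eq_iff_eq_mul]
  apply Subtype.ext
  change u 4 (c' / a ^ 4) d * u 4 a b = u 4 a b * u 4 0 b' * u 4 (c' / a ^ 4) d
  rw [hconj]
  have h16 : a ^ 16 = a := by
    have := FiniteField.pow_card a
    rwa [hK] at this
  have e1 : a ^ 4 * (c' / a ^ 4) = c' := by field_simp
  have e2 : (c' / a ^ 4) ^ 4 * a = c' ^ 4 := by
    rw [div_pow, ← pow_mul]
    norm_num
    rw [h16]
    field_simp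
  rw [e1, e2, hc']

theorem ca_sylow (hF : Fintype.card K = 16) (S : Sylow 2 (PSU 3 K 4)) : CA S := by
  have two := H26.U34.two_eq_zero hF
  have hK : Fintype.card K = 4 ^ 2 := by rw [hF]; norm_num
  obtain ⟨e⟩ := H24.U3Syl.main two hK (n := 2) le_rfl (by norm_num) S
  exact (ca_U two hK).of_equiv e

end

end H11.U34Cl
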