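import Cfsg.Agent.Lib.H11.TwoNilp1
import Cfsg.Agent.Lib.H11.U34Cl
import Cfsg.Agent.Lib.H5.ZStar
import Cfsg.Agent.Lib.H38.BlkPair3

/-!
Groups in which the centralizers of the involutions have normal 2-complements, part 2:
Sylow 2-subgroups of type `PSU₃(4)`: the data for the character theory.
-/

set_option autoImplicit false
set_option linter.unusedSectionVars false

open Subgroup Cfsg H38 H38.Basic H27.EquivSig H27 H26.LocalFitting H71.NC
open scoped Pointwise commutatorElement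

namespace H11.TN

universe u

section control

variable {G : Type*} [Group G] [Finite G]

theorem two_elt_odd {x : G} {T : Subgroup G} (hT : IsPGroup 2 T) (hx : x ∈ T) {K : Subgroup G}
    (hK : (Nat.card K).Coprime 2) (hxK : x ∈ K) : x = 1 := by
  obtain ⟨k, hk⟩ := IsPGroup.iff_orderOf.1 hT ⟨x, hx⟩
  rw [Subgroup.orderOf_mk] at hk
  have h1 : orderOf x ∣ Nat.card K := Subgroup.orderOf_dvd_natCard _ hxK
  have h2 : (orderOf x).Coprime 2 := Nat.Coprime.coprime_dvd_left h1 hK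
  rw [hk] at h2
  rcases Nat.eq_zero_or_pos k with h0 | h0
  · rw [h0, pow_zero, orderOf_eq_one_iff] at hk; exact hk
  · exfalso
    have : (2 : ℕ) ∣ 1 := by
      rw [← h2]; exact Nat.dvd_gcd (dvd_pow_self 2 h0.ne') dvd_rfl
    omega

theorem th_norm (e : G) {c x : G} (hc : c * e = e * c) (hx : x ∈ th G e) : c * x * c⁻¹ ∈ th G e := by
  obtain ⟨y, hy, rfl⟩ := hx
  have hn : (pPrimeCore 2 ↥(centralizer ({e} : Set G))).Normal := by
    have := H1.Cores.pPrimeCore_characteristic (G := ↥(centralizer ({e} : Set G))) 2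
    exact Subgroup.normal_of_characteristic _
  exact ⟨⟨c, mem_centralizer_singleton_iff.2 hc⟩ * y * ⟨c, mem_centralizer_singleton_iff.2 hc⟩⁻¹,
    hn.conj_mem y hy _, by simp⟩

theorem th_cent {e x : G} (hx : x ∈ th G e) : x * e = e * x :=
  mem_centralizer_singleton_iff.1 (ppc_le 2 _ hx)

/-- an element of `O(C(e))` which moves an element of the 2-group `P ≤ C(e)` into `P` centralizes it -/
theorem comm_zero {e : G} {P : Subgroup G} (hP : IsPGroup 2 P) (hPe : ∀ x ∈ P, x * e = e * x) {o x : G}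
    (ho : o ∈ th G e) (hx : x ∈ P) (hox : o * x * o⁻¹ ∈ P) : o * x * o⁻¹ = x := by
  have h1 : x * o⁻¹ * x⁻¹ ∈ th G e := th_norm e (hPe x hx) (inv_mem ho)
  have h2 : o * (x * o⁻¹ * x⁻¹) ∈ th G e := mul_mem ho h1
  have h3 : o * (x * o⁻¹ * x⁻¹) ∈ P := by
    have : o * (x * o⁻¹ * x⁻¹) = (o * x * o⁻¹) * x⁻¹ := by group
    rw [this]; exact mul_mem hox (inv_mem hx)
  have h4 := two_elt_odd hP h3 (th_odd e) h2
  calc o * x * o⁻¹ = o * (x * o⁻¹ * x⁻¹) * x := by group
    _ = x := by rw [h4, one_mul]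

variable (hI : NI G) (P : Sylow 2 G)

include hI in
/-- `C(e) = O(C(e)) P` -/
theorem dec {e : G} (he : orderOf e = 2) (hPe : ∀ x ∈ P, x * e = e * x) {c : G} (hc : c * e = e * c) :
    ∃ o ∈ th G e, ∃ s ∈ P, c = o * s := by
  have hPC : (P : Subgroup G) ≤ centralizer ({e} : Set G) := fun x hx =>
    mem_centralizer_singleton_iff.2 (hPe x hx)
  have h1 := core_sup (hI e he) (P.subtype hPC)
  have h2 : (⟨c, mem_centralizer_singleton_iff.2 hc⟩ : ↥(centralizer ({e} : Set G))) ∈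
      pPrimeCore 2 ↥(centralizer ({e} : Set G)) ⊔ (P.subtype hPC : Subgroup _) := by
    rw [h1]; trivial
  have hn : (pPrimeCore 2 ↥(centralizer ({e} : Set G))).Normal := by
    have := H1.Cores.pPrimeCore_characteristic (G := ↥(centralizer ({e} : Set G))) 2
    exact Subgroup.normal_of_characteristic _
  rw [Subgroup.mem_sup_of_normal_left] at h2
  obtain ⟨o, ho, s, hs, hos⟩ := h2
  refine ⟨o, ⟨o, ho, rfl⟩, s, ?_, ?_⟩
  · rw [Sylow.coe_subtype, mem_subgroupOf] at hs
    exact hs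
  · exact (congrArg Subtype.val hos).symm

include hI in
/-- an element of odd order normalizing `P` and centralizing a central involution of `P` centralizes `P` -/
theorem cent_of_odd {e : G} (he : orderOf e = 2) (hPe : ∀ x ∈ P, x * e = e * x) {w : G}
    (hw : w ∈ normalizer ((P : Subgroup G) : Set G)) (ho : (orderOf w).Coprime 2) (hwe : w * e = e * w) :
    ∀ x ∈ P, w * x * w⁻¹ = x := by
  intro x hx
  have h1 : w ∈ th G e := mem_core (hI e he) (mem_centralizer_singleton_iff.2 hwe) ho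
  exact comm_zero P.2 hPe h1 hx ((mem_normalizer_iff.1 hw x).1 hx)

end control

section u34

variable {G : Type u} [Group G] [Finite G]

/-- type `PSU₃(4)` -/
structure T4 (P : Sylow 2 G) : Prop where
  data : H26.U34.Data ↥(P : Subgroup G)
  ca : H11.U34Cl.CA ↥(P : Subgroup G)

variable {P : Sylow 2 G} (hI : NI G) (T : T4 P)

include T in
theorem T4.ord {e : G} (he : e ∈ P) (h1 : e ≠ 1) (hz : (⟨e, he⟩ : ↥(P : Subgroup G)) ∈ center ↥(P : Subgroup G)) :
    orderOf e = 2 := by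
  have := (T.data.sq_iff ⟨e, he⟩).2 hz
  apply orderOf_eq_prime _ h1
  rw [pow_two]; exact congrArg Subtype.val this

include T in
theorem T4.zen {e : G} (he : e ∈ P) (h2 : e * e = 1) : (⟨e, he⟩ : ↥(P : Subgroup G)) ∈ center ↥(P : Subgroup G) :=
  (T.data.sq_iff ⟨e, he⟩).1 (Subtype.ext h2)

theorem cen_comm {e : G} {he : e ∈ P} (hz : (⟨e, he⟩ : ↥(P : Subgroup G)) ∈ center ↥(P : Subgroup G)) :
    ∀ x ∈ P, x * e = e * x := fun x hx =>
  congrArg Subtype.val (mem_center_iff.1 hz ⟨x, hx⟩)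

include T in
/-- the involution in `⟨x⟩` -/
theorem T4.root {x : G} (hx : x ∈ P) (h1 : x ≠ 1) :
    ∃ k : ℕ, x ^ k ≠ 1 ∧ x ^ k * x ^ k = 1 := by
  by_cases h : x * x = 1
  · exact ⟨1, by rwa [pow_one], by rwa [pow_one]⟩
  · refine ⟨2, by rwa [pow_two], ?_⟩
    have h3 := (T.data.sq_iff _).2 (T.data.sq_mem ⟨x, hx⟩)
    have h4 := congrArg Subtype.val h3
    rw [pow_two]; exact h4

include hI T in
/-- `N(P)` controls fusion in `P` -/
theorem T4.ctrl {x g : G} (hx : x ∈ P) (hg : g * x * g⁻¹ ∈ P) :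
    ∃ n ∈ normalizer ((P : Subgroup G) : Set G), g * x * g⁻¹ = n * x * n⁻¹ := by
  by_cases h1 : x = 1
  · exact ⟨1, one_mem _, by rw [h1]; group⟩
  obtain ⟨k, hk1, hk2⟩ := T.root hx h1
  have hz := T.zen (pow_mem hx k) hk2
  have hgk : g * x ^ k * g⁻¹ ∈ P := by
    rw [← conj_pow]; exact pow_mem hg k
  have hz' := T.zen hgk (by
    calc g * x ^ k * g⁻¹ * (g * x ^ k * g⁻¹) = g * (x ^ k * x ^ k) * g⁻¹ := by group
      _ = 1 := by rw [hk2]; group)
  have ho := T.ord (pow_mem hx k) hk1 hz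
  obtain ⟨n, hn, hn2⟩ := Sylow.conj_eq_normalizer_conj_of_mem_centralizer P (x ^ k) g⁻¹ (by
    rw [mem_centralizer_iff]
    intro y hy
    exact cen_comm hz y hy) (by
    rw [inv_inv, mem_centralizer_iff]
    intro y hy
    exact cen_comm hz' y hy)
  rw [inv_inv] at hn2
  -- `h = n g` centralizes `x ^ k`
  have hc : (n * g) * x ^ k = x ^ k * (n * g) := by
    calc (n * g) * x ^ k = n * (g * x ^ k * g⁻¹) * g := by group
      _ = n * (n⁻¹ * x ^ k * n) * g := by rw [hn2]
      _ = x ^ k * (n * g) := by group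
  obtain ⟨o, hoo, s, hs, hos⟩ := dec hI P ho (cen_comm hz) hc
  have h5 : o * (s * x * s⁻¹) * o⁻¹ ∈ P := by
    have : o * (s * x * s⁻¹) * o⁻¹ = n * (g * x * g⁻¹) * n⁻¹ := by
      calc o * (s * x * s⁻¹) * o⁻¹ = (o * s) * x * (o * s)⁻¹ := by group
        _ = (n * g) * x * (n * g)⁻¹ := by rw [hos]
        _ = _ := by group
    rw [this]
    exact (mem_normalizer_iff.1 hn _).1 hg
  have h6 := comm_zero P.2 (cen_comm hz) hoo (mul_mem (mul_mem hs hx) (inv_mem hs)) h5
  refine ⟨n⁻¹ * s, mul_mem (inv_mem hn) (Subgroup.le_normalizer hs), ?_⟩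
  calc g * x * g⁻¹ = n⁻¹ * ((n * g) * x * (n * g)⁻¹) * n := by group
    _ = n⁻¹ * (o * (s * x * s⁻¹) * o⁻¹) * n := by rw [hos]; group
    _ = n⁻¹ * (s * x * s⁻¹) * n := by rw [h6]
    _ = n⁻¹ * s * x * (n⁻¹ * s)⁻¹ := by group

include T in
theorem T4.conj_center {n e : G} (hn : n ∈ normalizer ((P : Subgroup G) : Set G)) (he : e ∈ P)
    (hz : (⟨e, he⟩ : ↥(P : Subgroup G)) ∈ center ↥(P : Subgroup G)) :
    ∃ h : n * e * n⁻¹ ∈ P, (⟨n * e * n⁻¹, h⟩ : ↥(P : Subgroup G)) ∈ center ↥(P : Subgroup G) := by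
  have h1 := (mem_normalizer_iff.1 hn e).1 he
  refine ⟨h1, T.zen h1 ?_⟩
  have := congrArg Subtype.val ((T.data.sq_iff ⟨e, he⟩).2 hz)
  have h2 : e * e = 1 := this
  calc n * e * n⁻¹ * (n * e * n⁻¹) = n * (e * e) * n⁻¹ := by group
    _ = 1 := by rw [h2]; group

/-- the center as a set of elements of `G` -/
theorem T4.exists_e (T : T4 P) : ∃ (e : G) (he : e ∈ P), e ≠ 1 ∧
    (⟨e, he⟩ : ↥(P : Subgroup G)) ∈ center ↥(P : Subgroup G) := by
  have h1 : center ↥(P : Subgroup G) ≠ ⊥ := by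
    intro h
    have := T.data.center
    rw [h, Subgroup.card_bot] at this
    norm_num at this
  obtain ⟨z, hz1⟩ := Subgroup.ne_bot_iff_exists_ne_one.1 h1
  exact ⟨z, z.1.2, fun h => hz1 (Subtype.ext (Subtype.ext h)), z.2⟩

include T in
/-- the elements of the center: any three distinct nontrivial ones are all -/
theorem T4.center_cases {a b c : G} (ha : a ∈ P) (hb : b ∈ P) (hc : c ∈ P)
    (za : (⟨a, ha⟩ : ↥(P : Subgroup G)) ∈ center ↥(P : Subgroup G))
    (zb : (⟨b, hb⟩ : ↥(P : Subgroup G)) ∈ center ↥(P : Subgroup G))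
    (zc : (⟨c, hc⟩ : ↥(P : Subgroup G)) ∈ center ↥(P : Subgroup G))
    (a1 : a ≠ 1) (b1 : b ≠ 1) (c1 : c ≠ 1) (hab : a ≠ b) (hac : a ≠ c) (hbc : b ≠ c) {d : G} (hd : d ∈ P)
    (zd : (⟨d, hd⟩ : ↥(P : Subgroup G)) ∈ center ↥(P : Subgroup G)) : d = 1 ∨ d = a ∨ d = b ∨ d = c := by
  classical
  by_contra hcon
  push Not at hcon
  obtain ⟨d1, da, db, dc⟩ := hcon
  have h1 : ({(1 : G), a, b, c, d} : Set G) ⊆ ((center ↥(P : Subgroup G)).map (P : Subgroup G).subtype : Set G) := by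
    intro y hy
    simp only [Set.mem_insert_iff, Set.mem_singleton_iff] at hy
    rcases hy with rfl | rfl | rfl | rfl | rfl
    · exact one_mem _
    · exact ⟨_, za, rfl⟩
    · exact ⟨_, zb, rfl⟩
    · exact ⟨_, zc, rfl⟩
    · exact ⟨_, zd, rfl⟩
  have h2 := Set.ncard_le_ncard h1 (Set.toFinite _)
  have h3 : ({(1 : G), a, b, c, d} : Set G).ncard = 5 := by
    rw [Set.ncard_insert_of_notMem (by simp [Ne.symm a1, Ne.symm b1, Ne.symm c1, Ne.symm d1]),
      Set.ncard_insert_of_notMem (by simp [hab, hac, Ne.symm da]),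
      Set.ncard_insert_of_notMem (by simp [hbc, Ne.symm db]),
      Set.ncard_insert_of_notMem (by simp [Ne.symm dc]), Set.ncard_singleton]
  have h4 : ((center ↥(P : Subgroup G)).map (P : Subgroup G).subtype : Set G).ncard = 4 := by
    change Nat.card ↥((center ↥(P : Subgroup G)).map (P : Subgroup G).subtype) = 4
    rw [Subgroup.card_map_of_injective (Subgroup.subtype_injective _), T.data.center]
  rw [h3, h4] at h2
  omega

variable [IsSimpleGroup G]

include hI T in
/-- some element of `N(P)` moves a central element -/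
theorem T4.exists_move (hna : ∃ a b : G, a * b ≠ b * a) :
    ∃ n ∈ normalizer ((P : Subgroup G) : Set G), ∃ (e : G) (he : e ∈ P),
      (⟨e, he⟩ : ↥(P : Subgroup G)) ∈ center ↥(P : Subgroup G) ∧ n * e * n⁻¹ ≠ e := by
  by_contra hcon
  push Not at hcon
  obtain ⟨e, he, he1, hz⟩ := T.exists_e
  have ho := T.ord he he1 hz
  have h1 := H5.ZStar.sylow_form P e ho (by
    intro g hg
    obtain ⟨n, hn, hn2⟩ := T.ctrl hI he hg
    rw [hn2]
    exact hcon n hn e he hz)
  have hc : pPrimeCore 2 G = ⊥ := by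
    have hch := H1.Cores.pPrimeCore_characteristic (G := G) 2
    rcases (Subgroup.normal_of_characteristic (pPrimeCore 2 G)).eq_bot_or_eq_top with h | h
    · exact h
    · exfalso
      have h2 := H1.Cores.coprime_card_pPrimeCore (G := G) 2
      rw [h, Subgroup.card_top] at h2
      have h3 : orderOf e ∣ Nat.card G := orderOf_dvd_natCard e
      rw [ho] at h3
      have h4 : (2 : ℕ) ∣ 1 := by rw [← h2]; exact Nat.dvd_gcd h3 dvd_rfl
      omega
  have hcen : e ∈ center G := by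
    rw [mem_center_iff]
    intro g
    have h2 := h1 g
    rw [hc, mem_bot] at h2
    have h3 : e * g = g * e := by
      calc e * g = (e * g * e⁻¹ * g⁻¹) * (g * e) := by group
        _ = g * e := by rw [h2, one_mul]
    exact h3.symm
  obtain ⟨a, b, hab⟩ := hna
  rcases (inferInstance : (center G).Normal).eq_bot_or_eq_top with h | h
  · rw [h, mem_bot] at hcen
    exact he1 hcen
  · apply hab
    have : b ∈ center G := by rw [h]; trivial
    exact (mem_center_iff.1 this a)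

include hI T in
/-- the 3-cycle -/
theorem T4.exists_w (hna : ∃ a b : G, a * b ≠ b * a) :
    ∃ w ∈ normalizer ((P : Subgroup G) : Set G),
      (∀ x ∈ P, w * (w * (w * x * w⁻¹) * w⁻¹) * w⁻¹ = x) ∧
      (∀ (e : G) (he : e ∈ P), (⟨e, he⟩ : ↥(P : Subgroup G)) ∈ center ↥(P : Subgroup G) → e ≠ 1 →
        w * e * w⁻¹ ≠ e) ∧
      ∀ x ∈ P, ∀ n ∈ normalizer ((P : Subgroup G) : Set G), ∃ s ∈ P,
        n * x * n⁻¹ = s * x * s⁻¹ ∨ n * x * n⁻¹ = w * (s * x * s⁻¹) * w⁻¹ ∨
          n * x * n⁻¹ = w * (w * (s * x * s⁻¹) * w⁻¹) * w⁻¹ := by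
  obtain ⟨n, hn, e, he, hz, hne⟩ := T.exists_move hI hna
  have he1 : e ≠ 1 := by rintro rfl; apply hne; group
  -- the odd part of `n`
  obtain ⟨a, m, hm, hnm⟩ : ∃ a m : ℕ, ¬ 2 ∣ m ∧ orderOf n = 2 ^ a * m :=
    Nat.exists_eq_pow_mul_and_not_dvd (orderOf_pos n).ne' 2 (by norm_num)
  have hmo : m.Coprime 2 := by
    rw [Nat.coprime_comm]; exact (Nat.Prime.coprime_iff_not_dvd Nat.prime_two).2 hm
  have h2a : (2 ^ a).Coprime m := Nat.Coprime.pow_left a hmo.symm
  -- Bezout
  obtain ⟨r, s, hrs⟩ : ∃ r s : ℤ, r * 2 ^ a + s * m = 1 := by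
    have := (Nat.isCoprime_iff_coprime.2 h2a)
    obtain ⟨r, s, hrs⟩ := this
    exact ⟨r, s, by push_cast at hrs; linarith⟩
  set w : G := (n ^ (2 ^ a)) ^ r with hw
  set v : G := (n ^ m) ^ s with hv
  have hwv : n = w * v := by
    rw [hw, hv, ← zpow_natCast, ← zpow_natCast, ← zpow_mul, ← zpow_mul, ← zpow_add]
    have : ((2 ^ a : ℕ) : ℤ) * r + (m : ℤ) * s = 1 := by push_cast; linarith
    rw [this, zpow_one]
  have hwN : w ∈ normalizer ((P : Subgroup G) : Set G) := zpow_mem (pow_mem hn _) _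
  have hvN : v ∈ normalizer ((P : Subgroup G) : Set G) := zpow_mem (pow_mem hn _) _
  have hwo : (orderOf w).Coprime 2 := by
    have h1 : orderOf (n ^ 2 ^ a) = m := by
      rw [orderOf_pow, hnm]
      rw [Nat.gcd_eq_right (Dvd.intro _ rfl)]
      exact Nat.mul_div_cancel_left m (by positivity)
    have h2 : orderOf w ∣ m := by
      rw [← h1]
      apply orderOf_dvd_of_pow_eq_one
      rw [hw, ← zpow_natCast, ← zpow_mul, mul_comm, zpow_mul, zpow_natCast, pow_orderOf_eq_one, one_zpow]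
    exact Nat.Coprime.coprime_dvd_left h2 hmo
  -- `v` is a 2-element of `N(P)`, hence in `P`
  have hvP : v ∈ P := by
    have h1 : v ^ 2 ^ a = 1 := by
      rw [hv, ← zpow_natCast, ← zpow_mul, mul_comm, zpow_mul, zpow_natCast, ← pow_mul, mul_comm m,
        ← hnm, pow_orderOf_eq_one, one_zpow]
    have h2 : IsPGroup 2 (zpowers v) := by
      apply IsPGroup.of_card (n := (Nat.card (zpowers v)).factorization 2)
      rw [Nat.card_zpowers]
      obtain ⟨j, -, hj⟩ := (Nat.dvd_prime_pow Nat.prime_two).1 (orderOf_dvd_of_pow_eq_one h1)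
      rw [hj, Nat.Prime.factorization_pow Nat.prime_two]
      simp
    have h3 : IsPGroup 2 ((P : Subgroup G) ⊔ zpowers v : Subgroup G) := by
      apply P.2.to_sup_of_normal_left' h2
      rw [zpowers_le]; exact hvN
    have h4 := P.3 h3 le_sup_left
    have : v ∈ (P : Subgroup G) ⊔ zpowers v := mem_sup_right (mem_zpowers v)
    rw [h4] at this; exact this
  have hwe : w * e * w⁻¹ ≠ e := by
    intro h
    apply hne
    rw [hwv]
    calc w * v * e * (w * v)⁻¹ = w * (v * e * v⁻¹) * w⁻¹ := by group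
      _ = w * e * w⁻¹ := by
        have := cen_comm hz v hvP
        rw [this, mul_inv_cancel_right]
      _ = e := h
  -- `w` fixes no central element
  have hfpf : ∀ (f : G) (hf : f ∈ P), (⟨f, hf⟩ : ↥(P : Subgroup G)) ∈ center ↥(P : Subgroup G) → f ≠ 1 →
      w * f * w⁻¹ ≠ f := by
    intro f hf hzf hf1 h
    apply hwe
    exact cent_of_odd hI P (T.ord hf hf1 hzf) (cen_comm hzf) hwN hwo (mul_inv_eq_iff_eq_mul.1 h) e he
  -- the orbit of `e`
  have hfpf2 : ∀ (f : G) (hf : f ∈ P), (⟨f, hf⟩ : ↥(P : Subgroup G)) ∈ center ↥(P : Subgroup G) → f ≠ 1 →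
      w * (w * f * w⁻¹) * w⁻¹ ≠ f := by
    intro f hf hzf hf1 h
    apply hwe
    have h1 : (w * w) * f * (w * w)⁻¹ = f := by
      calc (w * w) * f * (w * w)⁻¹ = w * (w * f * w⁻¹) * w⁻¹ := by group
        _ = f := h
    have h2 : (orderOf (w * w)).Coprime 2 := by
      have : orderOf (w * w) ∣ orderOf w := by
        rw [← pow_two]; exact orderOf_pow_dvd 2
      exact Nat.Coprime.coprime_dvd_left this hwo
    have h3 := cent_of_odd hI P (T.ord hf hf1 hzf) (cen_comm hzf) (mul_mem hwN hwN) h2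
      (mul_inv_eq_iff_eq_mul.1 h1) e he
    -- `w` is a power of `w * w`
    obtain ⟨k, hk⟩ : ∃ k : ℕ, w = (w * w) ^ k := by
      have hodd : Odd (orderOf w) := Nat.coprime_two_right.1 hwo
      obtain ⟨j, hj⟩ := hodd
      refine ⟨j + 1, ?_⟩
      rw [← pow_two, ← pow_mul]
      have : 2 * (j + 1) = orderOf w + 1 := by omega
      rw [this, pow_add, pow_orderOf_eq_one, one_mul, pow_one]
    have h4 : ∀ k : ℕ, (w * w) ^ k * e * ((w * w) ^ k)⁻¹ = e := by
      intro k
      induction k with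
      | zero => group
      | succ k ih =>
        calc (w * w) ^ (k + 1) * e * ((w * w) ^ (k + 1))⁻¹ =
            (w * w) ^ k * ((w * w) * e * (w * w)⁻¹) * ((w * w) ^ k)⁻¹ := by rw [pow_succ]; group
          _ = e := by rw [h3, ih]
    rw [hk]; exact h4 k
  obtain ⟨hP1, hz1⟩ := T.conj_center hwN he hz
  obtain ⟨hP2, hz2⟩ := T.conj_center hwN hP1 hz1
  obtain ⟨hP3, hz3⟩ := T.conj_center hwN hP2 hz2
  have cne : ∀ f : G, f ≠ 1 → w * f * w⁻¹ ≠ 1 := by
    intro f hf h
    apply hf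
    calc f = w⁻¹ * (w * f * w⁻¹) * w := by group
      _ = 1 := by rw [h]; group
  have e1 := cne e he1
  have e2 := cne _ e1
  have e3 := cne _ e2
  have hcase := fun (d : G) (hd : d ∈ P) (zd : (⟨d, hd⟩ : ↥(P : Subgroup G)) ∈ center ↥(P : Subgroup G)) =>
    T.center_cases he hP1 hP2 hz hz1 hz2 he1 e1 e2 (hwe).symm (hfpf2 e he hz he1).symm
      (hfpf _ hP1 hz1 e1).symm hd zd
  have hw3 : ∀ x ∈ P, w * (w * (w * x * w⁻¹) * w⁻¹) * w⁻¹ = x := by
    have h3e : w * (w * (w * e * w⁻¹) * w⁻¹) * w⁻¹ = e := by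
      rcases hcase _ hP3 hz3 with h | h | h | h
      · exact absurd h e3
      · exact h
      · exact absurd h (hfpf2 _ hP1 hz1 e1)
      · exact absurd h (hfpf _ hP2 hz2 e2)
    have h4 : (w * w * w) * e = e * (w * w * w) := by
      rw [← mul_inv_eq_iff_eq_mul]
      calc w * w * w * e * (w * w * w)⁻¹ = w * (w * (w * e * w⁻¹) * w⁻¹) * w⁻¹ := by group
        _ = e := h3e
    have h5 : (orderOf (w * w * w)).Coprime 2 := by
      have : orderOf (w * w * w) ∣ orderOf w := by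
        have h6 : w * w * w = w ^ 3 := by rw [pow_succ, pow_two]
        rw [h6]; exact orderOf_pow_dvd 3
      exact Nat.Coprime.coprime_dvd_left this hwo
    intro x hx
    have h6 := cent_of_odd hI P (T.ord he he1 hz) (cen_comm hz) (mul_mem (mul_mem hwN hwN) hwN) h5 h4 x hx
    calc w * (w * (w * x * w⁻¹) * w⁻¹) * w⁻¹ = w * w * w * x * (w * w * w)⁻¹ := by group
      _ = x := h6
  refine ⟨w, hwN, hw3, hfpf, ?_⟩
  intro x hx n' hn'
  -- an element of `N(P)` fixing `e` acts as an element of `P`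
  have key : ∀ m' ∈ normalizer ((P : Subgroup G) : Set G), m' * e * m'⁻¹ = e →
      ∃ s ∈ P, m' * x * m'⁻¹ = s * x * s⁻¹ := by
    intro m' hm' hme
    obtain ⟨o, ho, s, hs, hos⟩ := dec hI P (T.ord he he1 hz) (cen_comm hz) (mul_inv_eq_iff_eq_mul.1 hme)
    refine ⟨s, hs, ?_⟩
    have h5 : o * (s * x * s⁻¹) * o⁻¹ ∈ P := by
      have h6 : o * (s * x * s⁻¹) * o⁻¹ = m' * x * m'⁻¹ := by rw [hos]; group
      rw [h6]; exact (mem_normalizer_iff.1 hm' x).1 hx
    have h6 := comm_zero P.2 (cen_comm hz) ho (mul_mem (mul_mem hs hx) (inv_mem hs)) h5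
    calc m' * x * m'⁻¹ = o * (s * x * s⁻¹) * o⁻¹ := by rw [hos]; group
      _ = _ := h6
  obtain ⟨hP4, hz4⟩ := T.conj_center hn' he hz
  have hne1 : n' * e * n'⁻¹ ≠ 1 := by
    intro h
    apply he1
    calc e = n'⁻¹ * (n' * e * n'⁻¹) * n' := by group
      _ = 1 := by rw [h]; group
  rcases hcase _ hP4 hz4 with h | h | h | h
  · exact absurd h hne1
  · obtain ⟨s, hs, h7⟩ := key n' hn' h
    exact ⟨s, hs, Or.inl h7⟩
  · obtain ⟨s, hs, h7⟩ := key (w⁻¹ * n') (mul_mem (inv_mem hwN) hn') (by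
      calc w⁻¹ * n' * e * (w⁻¹ * n')⁻¹ = w⁻¹ * (n' * e * n'⁻¹) * w := by group
        _ = e := by rw [h]; group)
    refine ⟨s, hs, Or.inr (Or.inl ?_)⟩
    rw [← h7]; group
  · obtain ⟨s, hs, h7⟩ := key (w⁻¹ * w⁻¹ * n') (mul_mem (mul_mem (inv_mem hwN) (inv_mem hwN)) hn') (by
      calc w⁻¹ * w⁻¹ * n' * e * (w⁻¹ * w⁻¹ * n')⁻¹ = w⁻¹ * w⁻¹ * (n' * e * n'⁻¹) * (w * w) := by
            simp only [mul_inv_rev, inv_inv, mul_assoc]
        _ = e := by rw [h]; group)
    refine ⟨s, hs, Or.inr (Or.inr ?_)⟩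
    rw [← h7]; group

end u34

section final

variable {G : Type u} [Group G] [Finite G] {P : Sylow 2 G}

/-- the index of `O(C)` from the order of a Sylow 2-subgroup -/
theorem index_core {C : Type*} [Group C] [Finite C] (hC : HasNormalPComplement 2 C) {k : ℕ}
    (T : Sylow 2 C) (hT : Nat.card T = 2 ^ k) : (pPrimeCore 2 C).index = 2 ^ k := by
  have hf : Fact (Nat.Prime 2) := ⟨Nat.prime_two⟩
  obtain ⟨j, hj⟩ := H38.BlkPair.index_of_complement hC
  have h1 := Subgroup.card_mul_index (pPrimeCore 2 C)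
  have h2 := H1.Cores.coprime_card_pPrimeCore (G := C) 2
  have h3 := T.card_eq_multiplicity
  rw [hT] at h3
  have h4 : (Nat.card C).factorization 2 = j := by
    rw [← h1, hj, Nat.factorization_mul Nat.card_pos.ne' (by positivity)]
    simp only [Finsupp.coe_add, Pi.add_apply]
    rw [Nat.factorization_eq_zero_of_not_dvd
      ((Nat.Prime.coprime_iff_not_dvd Nat.prime_two).1 h2.symm), zero_add,
      Nat.Prime.factorization_pow Nat.prime_two, Finsupp.single_eq_same]
  rw [h4] at h3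
  rw [hj, h3]

include P in
theorem T4.index_center (hI : NI G) (T : T4 P) {e : G} (he : e ∈ P) (he1 : e ≠ 1)
    (hz : (⟨e, he⟩ : ↥(P : Subgroup G)) ∈ center ↥(P : Subgroup G)) :
    (pPrimeCore 2 ↥(centralizer ({e} : Set G))).index = 64 := by
  have hf : Fact (Nat.Prime 2) := ⟨Nat.prime_two⟩
  have hPC : (P : Subgroup G) ≤ centralizer ({e} : Set G) := fun x hx =>
    mem_centralizer_singleton_iff.2 (cen_comm hz x hx)
  have := index_core (hI e (T.ord he he1 hz)) (k := 6) (P.subtype hPC) (by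
    rw [Sylow.coe_subtype, H1.SZ.card_subgroupOf_of_le hPC]
    exact T.data.card)
  rw [this]; norm_num

/-- the centralizer in `P` of a noncentral element -/
theorem T4.card_cent (T : T4 P) (x : ↥(P : Subgroup G)) (hx : x ∉ center ↥(P : Subgroup G)) :
    Nat.card ↥(centralizer ({x} : Set ↥(P : Subgroup G))) = 16 := by
  have hmem : ∀ c : ↥(P : Subgroup G), x⁻¹ * (c * x * c⁻¹) ∈ center ↥(P : Subgroup G) := by
    intro c
    have h2 := T.data.comm_mem x⁻¹ c
    rw [commutatorElement_def, inv_inv] at h2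
    have h3 : x⁻¹ * c * x * c⁻¹ = x⁻¹ * (c * x * c⁻¹) := by group
    rwa [h3] at h2
  let f : ↥(P : Subgroup G) →* center ↥(P : Subgroup G) :=
    { toFun := fun c => ⟨x⁻¹ * (c * x * c⁻¹), hmem c⟩
      map_one' := by apply Subtype.ext; simp
      map_mul' := by
        intro c d
        apply Subtype.ext
        change x⁻¹ * (c * d * x * (c * d)⁻¹) = x⁻¹ * (c * x * c⁻¹) * (x⁻¹ * (d * x * d⁻¹))
        have h1 := mem_center_iff.1 (hmem d) c⁻¹
        calc x⁻¹ * (c * d * x * (c * d)⁻¹) = x⁻¹ * (c * x * ((x⁻¹ * (d * x * d⁻¹)) * c⁻¹)) := by group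
          _ = x⁻¹ * (c * x * (c⁻¹ * (x⁻¹ * (d * x * d⁻¹)))) := by rw [h1]
          _ = _ := by group }
  have hker : f.ker = centralizer ({x} : Set ↥(P : Subgroup G)) := by
    ext c
    rw [MonoidHom.mem_ker, mem_centralizer_singleton_iff]
    constructor
    · intro h
      have h1 : x⁻¹ * (c * x * c⁻¹) = 1 := congrArg Subtype.val h
      have h2 : c * x * c⁻¹ = x := by
        have := inv_mul_eq_one.1 h1
        exact this.symm
      exact mul_inv_eq_iff_eq_mul.1 h2
    · intro h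
      apply Subtype.ext
      change x⁻¹ * (c * x * c⁻¹) = 1
      rw [h]; group
  have hsurj : Function.Surjective f := by
    intro z
    obtain ⟨c, hc⟩ := T.ca x hx z z.2
    refine ⟨c, Subtype.ext ?_⟩
    change x⁻¹ * (c * x * c⁻¹) = z
    rw [hc]; group
  have h1 := Subgroup.card_mul_index f.ker
  rw [Subgroup.index_ker, MonoidHom.range_eq_top.2 hsurj, Subgroup.card_top, T.data.center,
    T.data.card, hker] at h1
  omega

theorem T4.index_noncentral (hI : NI G) (T : T4 P) {x : G} (hx : x ∈ P)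
    (hxz : (⟨x, hx⟩ : ↥(P : Subgroup G)) ∉ center ↥(P : Subgroup G)) :
    (pPrimeCore 2 ↥(centralizer ({x} : Set G))).index = 16 := by
  have hf : Fact (Nat.Prime 2) := ⟨Nat.prime_two⟩
  -- the involution `x ^ 2`
  have hx2 := T.data.sq_mem ⟨x, hx⟩
  have hx2P : x * x ∈ P := mul_mem hx hx
  have hz : (⟨x * x, hx2P⟩ : ↥(P : Subgroup G)) ∈ center ↥(P : Subgroup G) := hx2
  have hx21 : x * x ≠ 1 := fun h => hxz (T.zen hx h)
  have hCC : centralizer ({x} : Set G) ≤ centralizer ({x * x} : Set G) := by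
    intro c hc
    rw [mem_centralizer_singleton_iff] at hc ⊢
    rw [← mul_assoc, hc, mul_assoc, hc, mul_assoc]
  have hPC : (P : Subgroup G) ≤ centralizer ({x * x} : Set G) := fun y hy =>
    mem_centralizer_singleton_iff.2 (cen_comm hz y hy)
  have hC := H39.PNilp.of_le hCC (hI _ (T.ord hx2P hx21 hz))
  -- a Sylow 2-subgroup of `C(x)` containing `C_P(x)`
  set D : Subgroup G := (P : Subgroup G) ⊓ centralizer ({x} : Set G) with hD
  have hcardD : ∀ (y : G) (hy : y ∈ P), (⟨y, hy⟩ : ↥(P : Subgroup G)) ∉ center ↥(P : Subgroup G) →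
      Nat.card ↥((P : Subgroup G) ⊓ centralizer ({y} : Set G)) = 16 := by
    intro y hy hyz
    rw [← T.card_cent ⟨y, hy⟩ hyz, ← Subgroup.card_map_of_injective (Subgroup.subtype_injective (P : Subgroup G))]
    congr 2
    ext c
    rw [Subgroup.mem_inf, mem_centralizer_singleton_iff, Subgroup.mem_map]
    constructor
    · rintro ⟨h1, h2⟩
      exact ⟨⟨c, h1⟩, mem_centralizer_singleton_iff.2 (Subtype.ext h2), rfl⟩
    · rintro ⟨d, hd, rfl⟩
      exact ⟨d.2, congrArg Subtype.val (mem_centralizer_singleton_iff.1 hd)⟩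
  have hDp : IsPGroup 2 (D.subgroupOf (centralizer ({x} : Set G))) :=
    (P.2.to_le inf_le_left).comap_subtype
  obtain ⟨T0, hT0⟩ := hDp.exists_le_sylow
  -- order at least 16
  have hge : 16 ≤ Nat.card T0 := by
    rw [← hcardD x hx hxz, ← H1.SZ.card_subgroupOf_of_le (inf_le_right : D ≤ centralizer ({x} : Set G))]
    exact Nat.card_le_card_of_injective _ (Subgroup.inclusion_injective hT0)
  -- order at most 16
  have hle : Nat.card T0 ≤ 16 := by
    set T1 : Subgroup G := (T0 : Subgroup _).map (centralizer ({x} : Set G)).subtype with hT1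
    have hT1p : IsPGroup 2 T1 := T0.2.map _
    have hT1C : T1 ≤ centralizer ({x} : Set G) := map_subtype_le _
    have hcT1 : Nat.card T1 = Nat.card T0 := Subgroup.card_map_of_injective (Subgroup.subtype_injective _)
    obtain ⟨m, hm, hmT⟩ := H11.FourCore.exists_conj_le_of_sylow_le P _ hPC T1 hT1p (hT1C.trans hCC)
    have hxT1 : x ∈ T1 := by
      have hxD : x ∈ D := ⟨hx, mem_centralizer_singleton_iff.2 rfl⟩
      exact ⟨⟨x, hxD.2⟩, hT0 (mem_subgroupOf.2 hxD), rfl⟩
    have hy : m⁻¹ * x * m ∈ P := by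
      have := hmT hxT1
      rwa [H1.SZ.mem_conj_smul] at this
    have hm' : (m⁻¹ * x * m) * (m⁻¹ * x * m) = x * x := by
      have h1 := mem_centralizer_singleton_iff.1 hm
      calc (m⁻¹ * x * m) * (m⁻¹ * x * m) = m⁻¹ * (x * x * m) := by group
        _ = x * x := by rw [← h1]; group
    have hyz : (⟨m⁻¹ * x * m, hy⟩ : ↥(P : Subgroup G)) ∉ center ↥(P : Subgroup G) := by
      intro h
      have := congrArg Subtype.val ((T.data.sq_iff _).2 h)
      have h2 : (m⁻¹ * x * m) * (m⁻¹ * x * m) = 1 := this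
      rw [hm'] at h2
      exact hx21 h2
    rw [← hcT1, ← hcardD _ hy hyz, ← H1.SZ.card_conj_smul m⁻¹ T1]
    apply Nat.card_le_card_of_injective _ (Subgroup.inclusion_injective (?_ : (MulAut.conj m⁻¹ • T1 : Subgroup G) ≤ _))
    intro c hc
    rw [H1.SZ.mem_conj_smul, inv_inv] at hc
    constructor
    · have := hmT hc
      rw [H1.SZ.mem_conj_smul] at this
      have h2 : m⁻¹ * (m * c * m⁻¹) * m = c := by group
      rwa [h2] at this
    · have h1 := mem_centralizer_singleton_iff.1 (hT1C hc)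
      change c ∈ centralizer ({m⁻¹ * x * m} : Set G)
      rw [mem_centralizer_singleton_iff]
      calc c * (m⁻¹ * x * m) = m⁻¹ * (m * c * m⁻¹ * x) * m := by group
        _ = m⁻¹ * (x * (m * c * m⁻¹)) * m := by rw [h1]
        _ = m⁻¹ * x * m * c := by group
  have := index_core hC (k := 4) T0 (by
    have : Nat.card T0 = 16 := le_antisymm hle hge
    rw [this]; norm_num)
  rw [this]; norm_num

/-- the data for the character theory of the type `PSU₃(4)` -/
theorem u34_data [IsSimpleGroup G] (hI : NI G) (T : T4 P) (hna : ∃ a b : G, a * b ≠ b * a) :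
    ∃ σ : ↥(P : Subgroup G) ≃* ↥(P : Subgroup G), (∀ x, σ (σ (σ x)) = x) ∧
      (∀ x ∈ center ↥(P : Subgroup G), σ x = x → x = 1) ∧
      (∀ e ∈ center ↥(P : Subgroup G), e ≠ 1 → ∀ y : ↥(P : Subgroup G),
        IsConj (e : G) (y : G) ↔ y ∈ center ↥(P : Subgroup G) ∧ y ≠ 1) ∧
      (∀ x ∉ center ↥(P : Subgroup G), ∀ y : ↥(P : Subgroup G), IsConj (x : G) (y : G) ↔
        x⁻¹ * y ∈ center ↥(P : Subgroup G) ∨ (σ x)⁻¹ * y ∈ center ↥(P : Subgroup G) ∨
          (σ (σ x))⁻¹ * y ∈ center ↥(P : Subgroup G)) := by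
  obtain ⟨w, hw, hw3, hfpf, hN⟩ := T.exists_w hI hna
  let σ : ↥(P : Subgroup G) ≃* ↥(P : Subgroup G) := (P : Subgroup G).normalizerMonoidHom ⟨w, hw⟩
  have hσ : ∀ x : ↥(P : Subgroup G), ((σ x : ↥(P : Subgroup G)) : G) = w * x * w⁻¹ := fun x => rfl
  have hσz : ∀ x ∈ center ↥(P : Subgroup G), σ x ∈ center ↥(P : Subgroup G) := by
    intro x hx
    obtain ⟨h1, h2⟩ := T.conj_center hw x.2 hx
    exact h2
  have hσz' : ∀ x, σ x ∈ center ↥(P : Subgroup G) → x ∈ center ↥(P : Subgroup G) := by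
    intro x hx
    have h1 := hσz _ (hσz _ hx)
    have h2 : σ (σ (σ x)) = x := Subtype.ext (hw3 x x.2)
    rwa [h2] at h1
  have hfpf' : ∀ x ∈ center ↥(P : Subgroup G), σ x = x → x = 1 := by
    intro x hx h
    by_contra h1
    exact hfpf x x.2 hx (fun h2 => h1 (Subtype.ext h2)) (congrArg Subtype.val h)
  have hcw : ∀ x : ↥(P : Subgroup G), IsConj (x : G) (σ x : ↥(P : Subgroup G)) := fun x =>
    isConj_iff.2 ⟨w, rfl⟩
  refine ⟨σ, fun x => Subtype.ext (hw3 x x.2), hfpf', ?_, ?_⟩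
  · intro e he he1 y
    have he1' : (e : G) ≠ 1 := fun h => he1 (Subtype.ext h)
    constructor
    · intro h
      obtain ⟨c, hc⟩ := isConj_iff.1 h
      have hee : (e : G) * e = 1 := congrArg Subtype.val ((T.data.sq_iff e).2 he)
      constructor
      · apply T.zen y.2
        rw [← hc]
        calc c * (e : G) * c⁻¹ * (c * e * c⁻¹) = c * (e * e) * c⁻¹ := by group
          _ = 1 := by rw [hee]; group
      · rintro rfl
        apply he1'
        have h2 : c * (e : G) * c⁻¹ = 1 := hc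
        calc (e : G) = c⁻¹ * (c * e * c⁻¹) * c := by group
          _ = 1 := by rw [h2]; group
    · rintro ⟨hy, hy1⟩
      have h1 := hσz e he
      have h2 := hσz _ h1
      have e1 : σ e ≠ 1 := fun h => he1 (σ.injective (h.trans (map_one σ).symm))
      have e2 : σ (σ e) ≠ 1 := fun h => e1 (σ.injective (h.trans (map_one σ).symm))
      have d1 : e ≠ σ e := fun h => he1 (hfpf' e he h.symm)
      have d2 : σ e ≠ σ (σ e) := fun h => e1 (hfpf' _ h1 h.symm)
      have d3 : e ≠ σ (σ e) := by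
        intro h
        have h3 := congrArg σ h
        have h4 : σ (σ (σ e)) = e := Subtype.ext (hw3 e e.2)
        rw [h4] at h3
        exact d1 h3.symm
      rcases T.center_cases e.2 (σ e).2 (σ (σ e)).2 he h1 h2 he1' (fun h => e1 (Subtype.ext h))
        (fun h => e2 (Subtype.ext h)) (fun h => d1 (Subtype.ext h)) (fun h => d3 (Subtype.ext h))
        (fun h => d2 (Subtype.ext h)) y.2 hy with h | h | h | h
      · exact absurd (Subtype.ext h) hy1
      · rw [h]
      · rw [h]; exact hcw e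
      · rw [h]; exact (hcw e).trans (hcw _)
  · intro x hx y
    constructor
    · intro h
      obtain ⟨g, hg⟩ := isConj_iff.1 h
      obtain ⟨n, hn, hn2⟩ := T.ctrl hI x.2 (by rw [hg]; exact y.2)
      obtain ⟨s, hs, h3⟩ := hN x x.2 n hn
      rw [← hn2, hg] at h3
      have hcomm : x⁻¹ * (⟨s, hs⟩ * x * ⟨s, hs⟩⁻¹) ∈ center ↥(P : Subgroup G) := by
        have h2 := T.data.comm_mem x⁻¹ ⟨s, hs⟩
        rw [commutatorElement_def, inv_inv] at h2
        have h3 : x⁻¹ * ⟨s, hs⟩ * x * (⟨s, hs⟩ : ↥(P : Subgroup G))⁻¹ = x⁻¹ * (⟨s, hs⟩ * x * ⟨s, hs⟩⁻¹) := by group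
        rwa [h3] at h2
      rcases h3 with h3 | h3 | h3
      · left
        have : y = ⟨s, hs⟩ * x * ⟨s, hs⟩⁻¹ := Subtype.ext h3
        rw [this]; exact hcomm
      · right; left
        have : y = σ (⟨s, hs⟩ * x * ⟨s, hs⟩⁻¹) := Subtype.ext h3
        rw [this, ← map_inv, ← map_mul]; exact hσz _ hcomm
      · right; right
        have : y = σ (σ (⟨s, hs⟩ * x * ⟨s, hs⟩⁻¹)) := Subtype.ext h3
        rw [this, ← map_inv, ← map_inv, ← map_mul, ← map_mul]; exact hσz _ (hσz _ hcomm)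
    · have key : ∀ v : ↥(P : Subgroup G), v ∉ center ↥(P : Subgroup G) → v⁻¹ * y ∈ center ↥(P : Subgroup G) →
          IsConj (v : G) (y : G) := by
        intro v hv hvy
        obtain ⟨c, hc⟩ := T.ca v hv _ hvy
        refine isConj_iff.2 ⟨c, ?_⟩
        have := congrArg Subtype.val hc
        rw [mul_inv_cancel_left] at this
        exact this
      rintro (h | h | h)
      · exact key x hx h
      · exact (hcw x).trans (key _ (fun h' => hx (hσz' x h')) h)
      · exact ((hcw x).trans (hcw _)).trans (key _ (fun h' => hx (hσz' x (hσz' _ h'))) h)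

end final

end H11.TN
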